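import Cfsg.Prelude.Def_SporadicCombinatorics
import Cfsg.Agent.Lib.Golay.Pairs
import Cfsg.Agent.Lib.Golay.Counts

/-! # Sextets and trios -/

set_option autoImplicit false

namespace Cfsg.Agent.Lib.Golay

open Cfsg
open scoped Pointwise

/-! ### Families of sets coded by sorted lists of masks -/

/-- Insertion in an increasing list. -/
def ins (a : ℕ) : List ℕ → List ℕ
  | [] => [a]
  | b :: L => if Nat.ble a b then a :: b :: L else b :: ins a L

/-- Sorting by insertion. -/
def isort : List ℕ → List ℕ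
  | [] => []
  | a :: L => ins a (isort L)

/-- The family coded by a list. -/
def fam (L : List ℕ) : Finset (Finset GolayPt) := (L.map toSet).toFinset

/-- The image of a family. -/
def actFam (g : ℕ) (L : List ℕ) : List ℕ := isort (L.map (act g))

theorem mem_ins {a x : ℕ} : ∀ {L : List ℕ}, x ∈ ins a L ↔ x = a ∨ x ∈ L
  | [] => by simp [ins]
  | b :: L => by
    rw [ins]
    split_ifs
    · simp
    · simp [mem_ins, or_left_comm]

theorem mem_isort {x : ℕ} : ∀ {L : List ℕ}, x ∈ isort L ↔ x ∈ L
  | [] => by simp [isort]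
  | b :: L => by simp [isort, mem_ins, mem_isort]

theorem mem_fam {L : List ℕ} {s : Finset GolayPt} : s ∈ fam L ↔ ∃ m ∈ L, toSet m = s := by
  simp [fam]

theorem fam_actFam {g : ℕ} (hg : valid g = true) (L : List ℕ) :
    fam (actFam g L) = toPerm g • fam L := by
  ext s
  simp only [mem_fam, actFam, mem_isort, List.mem_map, Finset.mem_smul_finset]
  constructor
  · rintro ⟨_, ⟨a, ha, rfl⟩, rfl⟩
    exact ⟨toSet a, ⟨a, ha, rfl⟩, smul_toSet hg a⟩
  · rintro ⟨_, ⟨a, ha, rfl⟩, rfl⟩
    exact ⟨_, ⟨a, ha, rfl⟩, (smul_toSet hg a).symm⟩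

/-- A canonical code of a family: increasing masks below `2 ^ 24`. -/
def canon (L : List ℕ) : Bool := incr L && L.all fun m => Nat.blt m 16777216

theorem fam_inj {L M : List ℕ} (hL : canon L = true) (hM : canon M = true) (h : fam L = fam M) :
    L = M := by
  simp only [canon, Bool.and_eq_true, List.all_eq_true, Nat.blt_eq] at hL hM
  have hmem : ∀ m, m ∈ L ↔ m ∈ M := by
    intro m
    constructor <;> intro hm
    · obtain ⟨b, hb, e⟩ := mem_fam.1 (h ▸ mem_fam.2 ⟨m, hm, rfl⟩)
      rwa [← eq_of_toSet_eq (hM.2 b hb) (hL.2 m hm) e]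
    · obtain ⟨b, hb, e⟩ := mem_fam.1 (h.symm ▸ mem_fam.2 ⟨m, hm, rfl⟩)
      rwa [← eq_of_toSet_eq (hL.2 b hb) (hM.2 m hm) e]
  have hs : ∀ L : List ℕ, incr L = true → L.Pairwise (· < ·) := by
    intro L h
    induction L with
    | nil => exact List.Pairwise.nil
    | cons a L ih =>
      cases L with
      | nil => exact List.pairwise_singleton _ _
      | cons b L =>
        simp only [incr, Bool.and_eq_true, Nat.blt_eq] at h
        have := ih h.2
        refine List.Pairwise.cons ?_ this
        intro c hc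
        rcases List.mem_cons.1 hc with rfl | hc
        · exact h.1
        · exact h.1.trans ((List.pairwise_cons.1 this).1 c hc)
  exact List.Perm.eq_of_pairwise (fun a b _ _ hab hba => absurd hab (not_lt.2 hba.le))
    (hs L hL.1) (hs M hM.1)
    ((List.perm_ext_iff_of_nodup (nodup_of_incr hL.1) (nodup_of_incr hM.1)).2 hmem)

theorem card_fam {L : List ℕ} (hL : canon L = true) : (fam L).card = L.length := by
  simp only [canon, Bool.and_eq_true, List.all_eq_true, Nat.blt_eq] at hL
  rw [fam, List.toFinset_card_of_nodup, List.length_map]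
  exact (nodup_of_incr hL.1).map_on fun a ha b hb e => eq_of_toSet_eq (hL.2 a ha) (hL.2 b hb) e

/-! ### Sextets -/

theorem smul_mem_sextets {σ : Equiv.Perm GolayPt} (hσ : σ ∈ M24) {S : Finset (Finset GolayPt)}
    (hS : S ∈ sextets) : σ • S ∈ sextets := by
  obtain ⟨h1, h2, h3⟩ := hS
  refine ⟨by rw [Finset.card_smul_finset]; exact h1, ?_, ?_⟩
  · intro t ht
    obtain ⟨a, ha, rfl⟩ := Finset.mem_smul_finset.1 ht
    rw [Finset.card_smul_finset]; exact h2 a ha
  · intro t ht u hu hne
    obtain ⟨a, ha, rfl⟩ := Finset.mem_smul_finset.1 ht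
    obtain ⟨b, hb, rfl⟩ := Finset.mem_smul_finset.1 hu
    rw [← Finset.smul_finset_union]
    exact smul_mem_octads hσ (h3 a ha b hb fun e => hne (by rw [e]))

theorem sextet_disjoint {S : Finset (Finset GolayPt)} (hS : S ∈ sextets) {t u : Finset GolayPt}
    (ht : t ∈ S) (hu : u ∈ S) (hne : t ≠ u) : Disjoint t u := by
  obtain ⟨-, h2, h3⟩ := hS
  have := octads_card (h3 t ht u hu hne)
  rw [Finset.card_union, h2 t ht, h2 u hu] at this
  rw [Finset.disjoint_iff_inter_eq_empty, ← Finset.card_eq_zero]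
  omega

theorem sextet_cover {S : Finset (Finset GolayPt)} (hS : S ∈ sextets) (p : GolayPt) :
    ∃ t ∈ S, p ∈ t := by
  have hu : S.biUnion id = Finset.univ := by
    apply Finset.eq_univ_of_card
    rw [Finset.card_biUnion (t := id) (fun t ht u hu hne => sextet_disjoint hS ht hu hne),
      Finset.sum_congr rfl (f := fun t => (id t).card) (g := fun _ => 4) (fun t ht => hS.2.1 t ht),
      Finset.sum_const, hS.1]
    rfl
  have : p ∈ S.biUnion id := hu ▸ Finset.mem_univ p
  simpa using this

/-- The sextet of a tetrad. -/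
noncomputable def sextetOf (t : Finset GolayPt) : Finset (Finset GolayPt) := by
  classical exact
    (insert t ((Set.toFinite {o : Finset GolayPt | o ∈ octads ∧ t ⊆ o}).toFinset.image
      fun o => o \ t) : Finset (Finset GolayPt))

theorem octads_through_tetrad {t : Finset GolayPt} (ht : t.card = 4) :
    {o : Finset GolayPt | o ∈ octads ∧ t ⊆ o}.ncard = 5 := by
  rw [ncard_transfer (M24_trans_sets (s := toSet 15) (t := t) (by decide) (by rw [ht]; decide))
    (P := fun t o => o ∈ octads ∧ t ⊆ o)]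
  · rw [ncard_octads (fun m => 15 &&& m == 15) (fun o => toSet 15 ⊆ o)
      (fun m _ => by rw [toSet_subset (by norm_num)]; simp)]
    decide +kernel
  · rintro σ hσ a b ⟨h1, h2⟩
    exact ⟨smul_mem_octads hσ h1, Finset.smul_finset_subset_smul_finset h2⟩

theorem sdiff_tetrad_inj {t : Finset GolayPt} {o o' : Finset GolayPt} (h : t ⊆ o) (h' : t ⊆ o')
    (he : o \ t = o' \ t) : o = o' := by
  rw [← Finset.sdiff_union_of_subset h, ← Finset.sdiff_union_of_subset h', he]

theorem mem_sextetOf {t u : Finset GolayPt} :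
    u ∈ sextetOf t ↔ u = t ∨ ∃ o ∈ octads, t ⊆ o ∧ o \ t = u := by
  classical
  simp [sextetOf, and_assoc]

theorem sextetOf_mem {t : Finset GolayPt} (ht : t.card = 4) : sextetOf t ∈ sextets := by
  classical
  refine ⟨?_, ?_, ?_⟩
  · rw [sextetOf, Finset.card_insert_of_notMem, Finset.card_image_of_injOn,
      ← Set.ncard_eq_toFinset_card, octads_through_tetrad ht]
    · intro o ho o' ho' he
      simp only [Set.Finite.coe_toFinset, Set.mem_ofPred_eq] at ho ho'
      exact sdiff_tetrad_inj ho.2 ho'.2 he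
    · intro hm
      simp only [Finset.mem_image, Set.Finite.mem_toFinset, Set.mem_ofPred_eq] at hm
      obtain ⟨o, ⟨-, ho⟩, he⟩ := hm
      obtain ⟨x, hx⟩ := Finset.card_pos.1 (show 0 < t.card by omega)
      exact (Finset.mem_sdiff.1 (he.symm ▸ hx : x ∈ o \ t)).2 hx
  · intro u hu
    rcases mem_sextetOf.1 hu with rfl | ⟨o, ho, hto, rfl⟩
    · exact ht
    · rw [Finset.card_sdiff_of_subset hto, octads_card ho, ht]
  · intro u hu v hv hne
    rcases mem_sextetOf.1 hu with rfl | ⟨o, ho, hto, rfl⟩ <;>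
      rcases mem_sextetOf.1 hv with rfl | ⟨o', ho', hto', rfl⟩
    · exact absurd rfl hne
    · rw [Finset.union_sdiff_of_subset hto']; exact ho'
    · rw [Finset.sdiff_union_of_subset hto]; exact ho
    · have hne' : o ≠ o' := fun e => hne (by rw [e])
      have hle := octad_inter_le ho ho' hne'
      have hi : o ∩ o' = t :=
        (Finset.eq_of_subset_of_card_le (Finset.subset_inter hto hto') (by omega)).symm
      have he : o \ t ∪ o' \ t = symmDiff o o' := by
        rw [← hi]; ext p; simp [Finset.mem_symmDiff]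
      rw [he]
      refine ⟨codeSets_symmDiff ho.1 ho'.1, ?_⟩
      rw [← he, Finset.card_union_of_disjoint, Finset.card_sdiff_of_subset hto,
        Finset.card_sdiff_of_subset hto', octads_card ho, octads_card ho', ht]
      rw [Finset.disjoint_left]
      intro p hp hp'
      simp only [Finset.mem_sdiff] at hp hp'
      exact hp.2 (hi ▸ Finset.mem_inter.2 ⟨hp.1, hp'.1⟩)

theorem eq_sextetOf {S : Finset (Finset GolayPt)} (hS : S ∈ sextets) {t : Finset GolayPt}
    (ht : t ∈ S) : S = sextetOf t := by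
  classical
  refine Finset.eq_of_subset_of_card_le ?_ (by rw [hS.1, (sextetOf_mem (hS.2.1 t ht)).1])
  intro u hu
  by_cases hut : u = t
  · exact mem_sextetOf.2 (Or.inl hut)
  · refine mem_sextetOf.2 (Or.inr ⟨t ∪ u, hS.2.2 t ht u hu (Ne.symm hut),
      Finset.subset_union_left, ?_⟩)
    rw [Finset.union_sdiff_left]
    exact Finset.sdiff_eq_self_of_disjoint (sextet_disjoint hS hu ht hut)

theorem sextet_unique {t : Finset GolayPt} (ht : t.card = 4) :
    ∃! S : Finset (Finset GolayPt), S ∈ sextets ∧ t ∈ S :=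
  ⟨sextetOf t, ⟨sextetOf_mem ht, mem_sextetOf.2 (Or.inl rfl)⟩,
    fun _ h => eq_sextetOf h.1 h.2⟩

theorem sextets_ncard : sextets.ncard = 1771 := by
  classical
  have hfin : sextets.Finite := Set.toFinite _
  rw [Set.ncard_eq_toFinset_card _ hfin]
  have hbi : hfin.toFinset.biUnion id = (Finset.univ : Finset GolayPt).powersetCard 4 := by
    ext t
    simp only [Finset.mem_biUnion, id_eq, Set.Finite.mem_toFinset, Finset.mem_powersetCard,
      Finset.subset_univ, true_and]
    constructor
    · rintro ⟨S, hS, ht⟩; exact hS.2.1 t ht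
    · intro ht; exact ⟨_, sextetOf_mem ht, mem_sextetOf.2 (Or.inl rfl)⟩
  have hc := congrArg Finset.card hbi
  rw [Finset.card_biUnion (t := id), Finset.sum_congr rfl (f := fun S => (id S).card)
    (g := fun _ => 6) (fun S hS => (hfin.mem_toFinset.1 hS).1), Finset.sum_const, smul_eq_mul,
    Finset.card_powersetCard, Finset.card_univ, show Fintype.card GolayPt = 24 from rfl,
    show Nat.choose 24 4 = 10626 by decide +kernel] at hc
  · omega
  · intro S hS S' hS' hne
    simp only [Function.onFun, id_eq, Finset.disjoint_left]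
    intro t ht ht'
    exact hne ((eq_sextetOf (hfin.mem_toFinset.1 hS) ht).trans
      (eq_sextetOf (hfin.mem_toFinset.1 hS') ht').symm)

theorem M24_trans_sextets {S S' : Finset (Finset GolayPt)} (hS : S ∈ sextets) (hS' : S' ∈ sextets) :
    ∃ σ ∈ M24, σ • S = S' := by
  obtain ⟨t, ht, -⟩ := sextet_cover hS none
  obtain ⟨u, hu, -⟩ := sextet_cover hS' none
  obtain ⟨σ, hσ, he⟩ := M24_trans_sets (s := t) (t := u) (by rw [hS.2.1 t ht]; norm_num)
    (by rw [hS.2.1 t ht, hS'.2.1 u hu])
  refine ⟨σ, hσ, ?_⟩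
  rw [eq_sextetOf (smul_mem_sextets hσ hS) (he ▸ Finset.smul_mem_smul_finset ht),
    eq_sextetOf hS' hu]

/-! ### Trios -/

theorem trio_third {o o' : Finset GolayPt} (ho : o ∈ octads) (ho' : o' ∈ octads)
    (hd : Disjoint o o') : (o ∪ o')ᶜ ∈ octads := by
  refine ⟨compl_mem_codeSets ?_, ?_⟩
  · have : o ∪ o' = symmDiff o o' := by rw [← Finset.sup_eq_union, hd.symmDiff_eq_sup]
    rw [this]; exact codeSets_symmDiff ho.1 ho'.1
  · rw [Finset.card_compl, Finset.card_union_of_disjoint hd, octads_card ho, octads_card ho']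
    rfl

theorem smul_mem_trios {σ : Equiv.Perm GolayPt} (hσ : σ ∈ M24) {T : Finset (Finset GolayPt)}
    (hT : T ∈ trios) : σ • T ∈ trios := by
  obtain ⟨h1, h2, h3⟩ := hT
  refine ⟨by rw [Finset.card_smul_finset]; exact h1, ?_, ?_⟩
  · intro o ho
    obtain ⟨a, ha, rfl⟩ := Finset.mem_smul_finset.1 ho
    exact smul_mem_octads hσ (h2 a ha)
  · intro o ho o' ho' hne
    obtain ⟨a, ha, rfl⟩ := Finset.mem_smul_finset.1 ho
    obtain ⟨b, hb, rfl⟩ := Finset.mem_smul_finset.1 ho'
    rw [Finset.disjoint_iff_inter_eq_empty, ← Finset.smul_finset_inter,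
      Finset.smul_finset_eq_empty, ← Finset.disjoint_iff_inter_eq_empty]
    exact h3 a ha b hb fun e => hne (by rw [e])

theorem trio_mem {o o' : Finset GolayPt} (ho : o ∈ octads) (ho' : o' ∈ octads)
    (hd : Disjoint o o') : ({o, o', (o ∪ o')ᶜ} : Finset (Finset GolayPt)) ∈ trios := by
  have h1 : Disjoint o (o ∪ o')ᶜ :=
    disjoint_compl_right.mono_right (Finset.compl_subset_compl.2 Finset.subset_union_left)
  have h2 : Disjoint o' (o ∪ o')ᶜ :=
    disjoint_compl_right.mono_right (Finset.compl_subset_compl.2 Finset.subset_union_right)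
  have hne : ∀ a b : Finset GolayPt, a.card = 8 → Disjoint a b → a ≠ b := by
    intro a b ha hab he
    subst he
    rw [disjoint_self, Finset.bot_eq_empty] at hab
    simp [hab] at ha
  refine ⟨?_, ?_, ?_⟩
  · rw [Finset.card_insert_of_notMem, Finset.card_pair (hne _ _ (octads_card ho') h2)]
    simp only [Finset.mem_insert, Finset.mem_singleton, not_or]
    exact ⟨hne _ _ (octads_card ho) hd, hne _ _ (octads_card ho) h1⟩
  · intro a ha
    simp only [Finset.mem_insert, Finset.mem_singleton] at ha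
    rcases ha with rfl | rfl | rfl
    exacts [ho, ho', trio_third ho ho' hd]
  · intro a ha b hb hab
    simp only [Finset.mem_insert, Finset.mem_singleton] at ha hb
    rcases ha with rfl | rfl | rfl <;> rcases hb with rfl | rfl | rfl <;>
      first
        | exact absurd rfl hab
        | assumption
        | exact hd.symm
        | exact h1.symm
        | exact h2.symm

theorem trio_eq {T : Finset (Finset GolayPt)} (hT : T ∈ trios) {o o' : Finset GolayPt}
    (ho : o ∈ T) (ho' : o' ∈ T) (hne : o ≠ o') : T = {o, o', (o ∪ o')ᶜ} := by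
  obtain ⟨h1, h2, h3⟩ := hT
  obtain ⟨c, hc⟩ := Finset.card_eq_one.1 (show ((T.erase o).erase o').card = 1 by
    rw [Finset.card_erase_of_mem (Finset.mem_erase.2 ⟨hne.symm, ho'⟩),
      Finset.card_erase_of_mem ho, h1])
  have hcm : c ∈ (T.erase o).erase o' := hc ▸ Finset.mem_singleton_self c
  simp only [Finset.mem_erase] at hcm
  have hd := h3 o ho o' ho' hne
  have hcc : c = (o ∪ o')ᶜ := by
    refine Finset.eq_of_subset_of_card_le ?_ ?_
    · intro p hp
      rw [Finset.mem_compl, Finset.mem_union]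
      rintro (h | h)
      · exact Finset.disjoint_left.1 (h3 c hcm.2.2 o ho hcm.2.1) hp h
      · exact Finset.disjoint_left.1 (h3 c hcm.2.2 o' ho' hcm.1) hp h
    · rw [octads_card (h2 c hcm.2.2), octads_card (trio_third (h2 o ho) (h2 o' ho') hd)]
  ext a
  simp only [Finset.mem_insert, Finset.mem_singleton, ← hcc]
  constructor
  · intro ha
    by_contra hh
    simp only [not_or] at hh
    have : a ∈ (T.erase o).erase o' := Finset.mem_erase.2 ⟨hh.2.1, Finset.mem_erase.2 ⟨hh.1, ha⟩⟩
    rw [hc, Finset.mem_singleton] at this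
    exact hh.2.2 this
  · rintro (rfl | rfl | rfl)
    exacts [ho, ho', hcm.2.2]

theorem disjoint_octads_count {o : Finset GolayPt} (ho : o ∈ octads) :
    {o' : Finset GolayPt | o' ∈ octads ∧ Disjoint o o'}.ncard = 30 := by
  rw [ncard_transfer (M24_trans_octads o0_octad ho) (P := fun o o' => o' ∈ octads ∧ Disjoint o o')]
  · rw [ncard_octClass o0 0 0 0 (fun o' => Disjoint (toSet o0) o')
      (fun m _ => by simp [Finset.disjoint_iff_inter_eq_empty])]
    decide +kernel
  · rintro σ hσ a b ⟨h1, h2⟩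
    refine ⟨smul_mem_octads hσ h1, ?_⟩
    rwa [Finset.disjoint_iff_inter_eq_empty, ← Finset.smul_finset_inter,
      Finset.smul_finset_eq_empty, ← Finset.disjoint_iff_inter_eq_empty]

theorem trios_ncard : trios.ncard = 3795 := by
  classical
  have hfin : trios.Finite := Set.toFinite _
  have hO : octads.Finite := Set.toFinite _
  let D := fun o : Finset GolayPt =>
    (Set.toFinite {o' : Finset GolayPt | o' ∈ octads ∧ Disjoint o o'}).toFinset
  let P := hO.toFinset.sigma D
  have hP : P.card = 22770 := by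
    rw [Finset.card_sigma, Finset.sum_congr rfl (g := fun _ => 30), Finset.sum_const,
      ← Set.ncard_eq_toFinset_card, octads_ncard]
    · rfl
    · intro o ho
      simp only [D]
      rw [← Set.ncard_eq_toFinset_card]
      exact disjoint_octads_count (hO.mem_toFinset.1 ho)
  let g : (_ : Finset GolayPt) × Finset GolayPt → Finset (Finset GolayPt) :=
    fun x => {x.1, x.2, (x.1 ∪ x.2)ᶜ}
  have hmaps : ∀ x ∈ P, g x ∈ hfin.toFinset := by
    rintro ⟨o, o'⟩ hx
    simp only [P, D, Finset.mem_sigma, Set.Finite.mem_toFinset, Set.mem_ofPred_eq] at hx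
    exact hfin.mem_toFinset.2 (trio_mem hx.1 hx.2.1 hx.2.2)
  have hfib : ∀ T ∈ hfin.toFinset, (P.filter fun x => g x = T).card = 6 := by
    intro T hT
    rw [hfin.mem_toFinset] at hT
    have : (P.filter fun x => g x = T) =
        (T.offDiag).image fun y => (⟨y.1, y.2⟩ : (_ : Finset GolayPt) × Finset GolayPt) := by
      ext ⟨o, o'⟩
      simp only [P, D, Finset.mem_filter, Finset.mem_sigma, Set.Finite.mem_toFinset,
        Set.mem_ofPred_eq, Finset.mem_image, Finset.mem_offDiag, Prod.exists]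
      constructor
      · rintro ⟨⟨ho, ho', hd⟩, he⟩
        refine ⟨o, o', ⟨he ▸ by simp [g], he ▸ by simp [g], ?_⟩, rfl⟩
        rintro rfl
        rw [disjoint_self, Finset.bot_eq_empty] at hd
        simp [hd] at ho
        exact absurd (octads_card ho) (by simp)
      · rintro ⟨a, b, ⟨ha, hb, hne⟩, he⟩
        simp only [Sigma.mk.injEq, heq_eq_eq] at he
        obtain ⟨rfl, rfl⟩ := he
        exact ⟨⟨hT.2.1 a ha, hT.2.1 b hb, hT.2.2 a ha b hb hne⟩, (trio_eq hT ha hb hne).symm⟩
    rw [this, Finset.card_image_of_injective _ (fun a b h => by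
      simp only [Sigma.mk.injEq, heq_eq_eq] at h; exact Prod.ext h.1 h.2),
      Finset.offDiag_card, hT.1]
  have := Finset.card_eq_sum_card_fiberwise hmaps
  rw [Finset.sum_congr rfl hfib, Finset.sum_const, hP, smul_eq_mul] at this
  rw [Set.ncard_eq_toFinset_card _ hfin]
  omega

theorem M24_trans_trios {T T' : Finset (Finset GolayPt)} (hT : T ∈ trios) (hT' : T' ∈ trios) :
    ∃ σ ∈ M24, σ • T = T' := by
  have two : ∀ T : Finset (Finset GolayPt), T ∈ trios →
      ∃ o o', o ∈ T ∧ o' ∈ T ∧ o ≠ o' := by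
    intro T hT
    obtain ⟨a, b, c, hab, -, -, rfl⟩ := Finset.card_eq_three.1 hT.1
    exact ⟨a, b, by simp, by simp, hab⟩
  obtain ⟨a, b, ha, hb, hab⟩ := two T hT
  obtain ⟨c, e, hc, he, hce⟩ := two T' hT'
  obtain ⟨σ, hσ, h1⟩ := M24_trans_octads (hT.2.1 a ha) (hT'.2.1 c hc)
  have hd : Disjoint c (σ • b) := by
    rw [← h1, Finset.disjoint_iff_inter_eq_empty, ← Finset.smul_finset_inter,
      Finset.smul_finset_eq_empty, ← Finset.disjoint_iff_inter_eq_empty]
    exact hT.2.2 a ha b hb hab
  obtain ⟨τ, hτ, h2, h3⟩ := octad_pairs (hT'.2.1 c hc) (smul_mem_octads hσ (hT.2.1 b hb))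
    (hT'.2.1 e he)
    (by rw [Finset.disjoint_iff_inter_eq_empty.1 hd,
      Finset.disjoint_iff_inter_eq_empty.1 (hT'.2.2 c hc e he hce)])
  refine ⟨τ * σ, mul_mem hτ hσ, ?_⟩
  rw [trio_eq (smul_mem_trios (mul_mem hτ hσ) hT)
    (show c ∈ (τ * σ) • T by
      rw [← h2, ← h1, ← mul_smul]; exact Finset.smul_mem_smul_finset ha)
    (show e ∈ (τ * σ) • T by
      rw [← h3, ← mul_smul]; exact Finset.smul_mem_smul_finset hb) hce, trio_eq hT' hc he hce]

end Cfsg.Agent.Lib.Golay
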