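import Cfsg.Agent.Lib.Golay.Simple
import Cfsg.Agent.Lib.Golay.L223Data

/-! # The projective group of degree 24 and its point stabiliser are maximal -/

set_option autoImplicit false
set_option maxRecDepth 100000

namespace Cfsg.Agent.Lib.Golay

open Cfsg
open scoped Pointwise

/-! ### Normalisers of subgroups of prime order -/

theorem sylow_count {X : Type*} [Group X] [Finite X] {p m : ℕ} [Fact p.Prime] {G P : Subgroup X}
    (hle : P ≤ G) (hP : Nat.card P = p) (hG : Nat.card G = p * m) (hm : ¬ p ∣ m) :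
    ∃ a, Nat.card ↥(G ⊓ Subgroup.normalizer (P : Set X)) = p * a ∧ a ∣ m ∧ m / a % p = 1 := by
  classical
  have hp := (Fact.out : p.Prime)
  set N := G ⊓ Subgroup.normalizer (P : Set X) with hN
  obtain ⟨a, ha⟩ : p ∣ Nat.card N :=
    hP ▸ Subgroup.card_dvd_of_le (le_inf hle Subgroup.le_normalizer)
  have hdvd : Nat.card N ∣ Nat.card G := Subgroup.card_dvd_of_le inf_le_left
  rw [ha, hG] at hdvd
  have ham : a ∣ m := (Nat.mul_dvd_mul_iff_left hp.pos).1 hdvd
  have hm0 : m ≠ 0 := fun h => hm (h ▸ dvd_zero p)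
  have ha0 : 0 < a := Nat.pos_of_dvd_of_pos ham (Nat.pos_of_ne_zero hm0)
  refine ⟨a, ha, ham, ?_⟩
  have hcard : Nat.card (P.subgroupOf G) = p := by
    rw [Nat.card_congr (Subgroup.subgroupOfEquivOfLe hle).toEquiv, hP]
  let S : Sylow p G := Sylow.ofCard (P.subgroupOf G) (by
    rw [hcard, hG, Nat.factorization_mul hp.ne_zero hm0, Finsupp.add_apply, hp.factorization_self,
      Nat.factorization_eq_zero_of_not_dvd hm, add_zero, pow_one])
  have h1 := S.card_eq_index_normalizer
  have h2 := card_sylow_modEq_one p G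
  have hNG : (Subgroup.normalizer (P : Set X)).subgroupOf G = N.subgroupOf G := by
    ext g
    simp [hN, Subgroup.mem_subgroupOf]
  have h3 : Nat.card (Subgroup.normalizer ((P.subgroupOf G : Subgroup G) : Set G)) = p * a := by
    rw [← Subgroup.subgroupOf_normalizer_eq hle, ← ha, hNG,
      ← Nat.card_congr (Subgroup.subgroupOfEquivOfLe (inf_le_left : N ≤ G)).toEquiv]
  have h4 := Subgroup.card_mul_index (Subgroup.normalizer ((P.subgroupOf G : Subgroup G) : Set G))
  rw [h3, hG, mul_assoc] at h4
  change Nat.card (Sylow p G) = (Subgroup.normalizer ((P.subgroupOf G : Subgroup G) : Set G)).index at h1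
  rw [← h1] at h4
  have h5 : a * Nat.card (Sylow p G) = m := Nat.eq_of_mul_eq_mul_left hp.pos h4
  rw [← h5, Nat.mul_div_cancel_left _ ha0]
  exact Eq.trans h2 (Nat.mod_eq_of_lt hp.one_lt)

theorem normalizer_dvd {X : Type*} [Group X] [Finite X] {p : ℕ} [Fact p.Prime] {G P : Subgroup X}
    (hP : Nat.card P = p) :
    Nat.card ↥(G ⊓ Subgroup.normalizer (P : Set X)) ∣
      (p - 1) * Nat.card ↥(G ⊓ Subgroup.centralizer (P : Set X)) := by
  classical
  set N := G ⊓ Subgroup.normalizer (P : Set X)
  let f : N →* MulAut P :=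
    (Subgroup.normalizerMonoidHom P).comp (Subgroup.inclusion (inf_le_right : N ≤ _))
  have hker : Nat.card f.ker ∣ Nat.card ↥(G ⊓ Subgroup.centralizer (P : Set X)) := by
    refine Subgroup.card_dvd_of_injective ((N.subtype.comp f.ker.subtype).codRestrict _ fun g => ?_)
      (fun g h e => Subtype.ext (Subtype.ext (congrArg (fun z : ↥(G ⊓ Subgroup.centralizer (P : Set X)) => (z : X)) e :)))
    refine ⟨g.1.2.1, Subgroup.mem_centralizer_iff.2 fun z hz => ?_⟩
    have hg : f g.1 = 1 := g.2
    have h := congrArg Subtype.val (DFunLike.congr_fun hg ⟨z, hz⟩)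
    change (g.1 : X) * z * (g.1 : X)⁻¹ = z at h
    exact (mul_inv_eq_iff_eq_mul.1 h).symm
  have haut : Nat.card (MulAut P) = p - 1 := by
    haveI : IsCyclic P := isCyclic_of_prime_card hP
    rw [IsCyclic.card_mulAut, hP, Nat.totient_prime Fact.out]
  have hrange : Nat.card f.range ∣ p - 1 := haut ▸ Subgroup.card_subgroup_dvd_card f.range
  rw [← Subgroup.card_mul_index f.ker, Subgroup.index_ker, mul_comm]
  exact Nat.mul_dvd_mul hrange hker

/-! ### The two standard elements -/

/-- The translation. -/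
def trT : Equiv.Perm GolayPt := Equiv.optionCongr (Equiv.addRight (1 : ZMod 23))

/-- Multiplication by a unit. -/
def mulU (u : (ZMod 23)ˣ) : Equiv.Perm GolayPt := Equiv.optionCongr (Units.mulLeft u)

/-- The unit two, of multiplicative order eleven. -/
def uTwo : (ZMod 23)ˣ := ⟨2, 12, by decide, by decide⟩

theorem mulU_mul (u v : (ZMod 23)ˣ) : mulU (u * v) = mulU u * mulU v := by
  refine Equiv.ext fun x => ?_
  cases x <;> simp [mulU, mul_assoc]

theorem mulU_one : mulU 1 = 1 := by
  refine Equiv.ext fun x => ?_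
  cases x <;> simp [mulU]

theorem mulU_pow (u : (ZMod 23)ˣ) (n : ℕ) : mulU u ^ n = mulU (u ^ n) := by
  induction n with
  | zero => rw [pow_zero, pow_zero, mulU_one]
  | succ n ih => rw [pow_succ, pow_succ, ih, mulU_mul]

theorem trT_mem : trT ∈ st1 none := ⟨T_mem, rfl⟩

theorem uTwo_sq : IsSquare uTwo := ⟨⟨5, 14, by decide, by decide⟩, Units.ext (by decide)⟩

theorem mulU_mem {u : (ZMod 23)ˣ} (hu : IsSquare u) : mulU u ∈ st2 none (some 0) := by
  refine ⟨⟨mulLeft_mem u hu, rfl⟩, ?_⟩
  simp [mulU, MulAction.mem_stabilizer_iff]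

theorem square_pow {u : (ZMod 23)ˣ} (hu : IsSquare u) : ∃ i : ℕ, uTwo ^ i = u := by
  have key : ∀ r : ZMod 23, r ≠ 0 → ∃ i : Fin 11, (2 : ZMod 23) ^ (i : ℕ) = r * r := by decide +kernel
  haveI : Fact (Nat.Prime 23) := ⟨by norm_num⟩
  obtain ⟨r, rfl⟩ := hu
  obtain ⟨i, hi⟩ := key r r.ne_zero
  exact ⟨i, Units.ext (by simpa [uTwo] using hi)⟩

theorem trT_ne : trT (some 0) ≠ some 0 := by decide

theorem mulTwo_ne : mulU uTwo (some 1) ≠ some 1 := by unfold mulU; decide

theorem orderOf_trT : orderOf trT = 23 := by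
  haveI : Fact (Nat.Prime 23) := ⟨by norm_num⟩
  refine orderOf_eq_prime (Equiv.ext ?_) (fun h => ?_)
  · decide +kernel
  · exact trT_ne (DFunLike.congr_fun h (some 0))

theorem orderOf_mulTwo : orderOf (mulU uTwo) = 11 := by
  haveI : Fact (Nat.Prime 11) := ⟨by norm_num⟩
  refine orderOf_eq_prime ?_ (fun h => ?_)
  · rw [mulU_pow, show uTwo ^ 11 = 1 from Units.ext (by decide), mulU_one]
  · exact mulTwo_ne (DFunLike.congr_fun h (some 1))

/-- The translation group. -/
def p23 : Subgroup (Equiv.Perm GolayPt) := Subgroup.zpowers trT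

/-- The cyclic group of order eleven fixing two points. -/
def p11 : Subgroup (Equiv.Perm GolayPt) := Subgroup.zpowers (mulU uTwo)

theorem p23_card : Nat.card p23 = 23 := by rw [p23, Nat.card_zpowers, orderOf_trT]

theorem p11_card : Nat.card p11 = 11 := by rw [p11, Nat.card_zpowers, orderOf_mulTwo]

theorem p23_le : p23 ≤ st1 none := Subgroup.zpowers_le.2 trT_mem

theorem p11_le : p11 ≤ st2 none (some 0) := Subgroup.zpowers_le.2 (mulU_mem uTwo_sq)

theorem trT_pow_zero : ∀ z : ZMod 23, (trT ^ z.val) (some 0) = some z := by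
  intro z
  have h : ∀ n : ℕ, (trT ^ n) (some 0) = some (n : ZMod 23) := by
    intro n
    induction n with
    | zero => simp
    | succ n ih =>
      rw [pow_succ', Equiv.Perm.mul_apply, ih]
      simp [trT]
  rw [h, ZMod.natCast_zmod_val]

theorem cent23_card : Nat.card ↥(st1 none ⊓ Subgroup.centralizer (p23 : Set (Equiv.Perm GolayPt))) = 23 := by
  classical
  set C := st1 none ⊓ Subgroup.centralizer (p23 : Set (Equiv.Perm GolayPt)) with hC
  have hinj : Function.Injective fun g : C => (⟨g.1 (some 0), fun e => by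
      have h0 : g.1 none = none := g.2.1.2
      exact absurd (g.1.injective (e.trans h0.symm)) (by simp)⟩ : {x : GolayPt // x ≠ none}) := by
    intro g h e
    have e0 : g.1 (some 0) = h.1 (some 0) := congrArg Subtype.val e
    refine Subtype.ext (Equiv.ext fun x => ?_)
    cases x with
    | none => exact g.2.1.2.trans h.2.1.2.symm
    | some z =>
      have c : ∀ k : C, k.1 (some z) = (trT ^ z.val) (k.1 (some 0)) := fun k => by
        conv_lhs => rw [← trT_pow_zero z]
        exact (DFunLike.congr_fun (Subgroup.mem_centralizer_iff.1 k.2.2 (trT ^ z.val)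
          (pow_mem (Subgroup.mem_zpowers _) _)) (some 0)).symm
      rw [c g, c h, e0]
  have h1 := Nat.card_le_card_of_injective _ hinj
  rw [Nat.card_eq_fintype_card (α := {x : GolayPt // x ≠ none}),
    show Fintype.card {x : GolayPt // x ≠ none} = 23 by decide] at h1
  have h2 : p23 ≤ C := le_inf p23_le (Subgroup.le_centralizer (Subgroup.zpowers trT))
  have h3 := Nat.le_of_dvd Nat.card_pos (Subgroup.card_dvd_of_le h2)
  rw [p23_card] at h3
  omega

theorem norm23_card :
    Nat.card ↥(st1 none ⊓ Subgroup.normalizer (p23 : Set (Equiv.Perm GolayPt))) = 253 := by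
  haveI : Fact (Nat.Prime 23) := ⟨by norm_num⟩
  obtain ⟨a, ha, ham, hmod⟩ := sylow_count (m := 443520) p23_le p23_card (st1_card none)
    (by norm_num)
  have h := normalizer_dvd (G := st1 none) p23_card
  rw [ha, cent23_card, mul_comm 23] at h
  have hd : a ∣ 22 := Nat.dvd_of_mul_dvd_mul_right (by norm_num) h
  have key : ∀ a < 23, a ∣ 22 → 443520 / a % 23 = 1 → a = 11 := by decide +kernel
  rw [ha, key a (Nat.lt_succ_of_le (Nat.le_of_dvd (by norm_num) hd)) hd hmod]

theorem cent11_dvd : Nat.card ↥(st2 none (some 0) ⊓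
    Subgroup.centralizer (p11 : Set (Equiv.Perm GolayPt))) ≤ 22 := by
  classical
  set C := st2 none (some 0) ⊓ Subgroup.centralizer (p11 : Set (Equiv.Perm GolayPt)) with hC
  have hinj : Function.Injective fun g : C => (⟨g.1 (some 1), by
      have h0 : g.1 none = none := g.2.1.1.2
      have h1 : g.1 (some 0) = some 0 := g.2.1.2
      exact ⟨fun e => absurd (g.1.injective (e.trans h0.symm)) (by simp),
        fun e => absurd (g.1.injective (e.trans h1.symm)) (by decide)⟩⟩ :
      {x : GolayPt // x ≠ none ∧ x ≠ some 0}) := by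
    intro g h e
    have e1 : g.1 (some 1) = h.1 (some 1) := congrArg Subtype.val e
    have hM : h.1⁻¹ * g.1 ∈ M24 := mul_mem (inv_mem h.2.1.1.1) g.2.1.1.1
    have hk := (mul_mem (inv_mem h.2) g.2 : h.1⁻¹ * g.1 ∈ C)
    have fix1 : (h.1⁻¹ * g.1) (some 1) = some 1 := by
      rw [Equiv.Perm.mul_apply, e1, Equiv.Perm.inv_def, Equiv.symm_apply_apply]
    have fixpow : ∀ i : ℕ, (h.1⁻¹ * g.1) ((mulU uTwo ^ i) (some 1)) = (mulU uTwo ^ i) (some 1) := by
      intro i
      have := DFunLike.congr_fun (Subgroup.mem_centralizer_iff.1 hk.2 (mulU uTwo ^ i)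
          (pow_mem (Subgroup.mem_zpowers _) _)) (some 1)
      simp only [Equiv.Perm.mul_apply] at this fix1 ⊢
      rw [fix1] at this
      exact this.symm
    have hall : ∀ p ∈ toSet (qrMask 0 ||| 1 <<< 23), p = none ∨ p = some 0 ∨
        ∃ i : Fin 11, p = some ((2 : ZMod 23) ^ (i : ℕ)) := by decide +kernel
    have hfix : ∀ p ∈ toSet (qrMask 0 ||| 1 <<< 23), (h.1⁻¹ * g.1) p = p := by
      intro p hp
      rcases hall p hp with rfl | rfl | ⟨i, rfl⟩
      · exact hk.1.1.2
      · exact hk.1.2
      · have := fixpow i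
        rw [mulU_pow] at this
        simpa [mulU, uTwo] using this
    exact Subtype.ext (inv_mul_eq_one.1 (eq_one_of_rigid hM (by decide +kernel) hfix)).symm
  have h1 := Nat.card_le_card_of_injective _ hinj
  rwa [Nat.card_eq_fintype_card (α := {x : GolayPt // x ≠ none ∧ x ≠ some 0}),
    show Fintype.card {x : GolayPt // x ≠ none ∧ x ≠ some 0} = 22 by decide] at h1

theorem norm11_card :
    Nat.card ↥(st2 none (some 0) ⊓ Subgroup.normalizer (p11 : Set (Equiv.Perm GolayPt))) = 55 := by
  haveI : Fact (Nat.Prime 11) := ⟨by norm_num⟩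
  obtain ⟨a, ha, ham, hmod⟩ := sylow_count (m := 40320) p11_le p11_card
    (st2_card (by simp)) (by norm_num)
  have h := normalizer_dvd (G := st2 none (some 0)) p11_card
  have h11 : 11 ∣ Nat.card ↥(st2 none (some 0) ⊓
      Subgroup.centralizer (p11 : Set (Equiv.Perm GolayPt))) :=
    p11_card ▸ Subgroup.card_dvd_of_le (le_inf p11_le (Subgroup.le_centralizer (Subgroup.zpowers (mulU uTwo))))
  obtain ⟨c, hc⟩ := h11
  have hc2 := cent11_dvd
  have hc0 : 0 < 11 * c := hc ▸ Nat.card_pos
  rw [ha, hc, show (11 - 1) * (11 * c) = 11 * (10 * c) by ring] at h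
  have hd : a ∣ 10 * c := Nat.dvd_of_mul_dvd_mul_left (by norm_num) h
  have hd20 : a ∣ 20 := hd.trans (by
    have : c = 1 ∨ c = 2 := by omega
    rcases this with rfl | rfl <;> norm_num)
  have key : ∀ a < 21, a ∣ 20 → 40320 / a % 11 = 1 → a = 5 := by decide +kernel
  rw [ha, key a (Nat.lt_succ_of_le (Nat.le_of_dvd (by norm_num) hd20)) hd20 hmod]

/-! ### The point stabiliser of order 253 -/

/-- The Frobenius group of order 253. -/
def frob253 : Subgroup (Equiv.Perm GolayPt) :=
  Subgroup.closure ({trT} ∪ {g : Equiv.Perm GolayPt | ∃ u : (ZMod 23)ˣ, IsSquare u ∧ g = mulU u})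

theorem trT_mem_frob : trT ∈ frob253 :=
  Subgroup.subset_closure (Set.mem_union_left _ rfl)

theorem mulTwo_mem_frob : mulU uTwo ∈ frob253 :=
  Subgroup.subset_closure (Set.mem_union_right _ ⟨uTwo, uTwo_sq, rfl⟩)

theorem frob253_eq : frob253 = st1 none ⊓ Subgroup.normalizer (p23 : Set (Equiv.Perm GolayPt)) := by
  classical
  set N := st1 none ⊓ Subgroup.normalizer (p23 : Set (Equiv.Perm GolayPt))
  have hle : frob253 ≤ N := by
    rw [frob253, Subgroup.closure_le]
    rintro g (rfl | ⟨u, hu, rfl⟩)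
    · exact ⟨trT_mem, Subgroup.le_normalizer (Subgroup.mem_zpowers _)⟩
    · refine ⟨(mulU_mem hu).1, ?_⟩
      have hconj : mulU u * trT * (mulU u)⁻¹ = trT ^ ((u : ZMod 23)).val := by
        rw [mul_inv_eq_iff_eq_mul]
        refine Equiv.ext fun x => ?_
        have hn : ∀ (n : ℕ) (z : ZMod 23), (trT ^ n) (some z) = some (z + n) ∧
            (trT ^ n) none = none := by
          intro n z
          induction n with
          | zero => simp
          | succ n ih =>
            rw [pow_succ', Equiv.Perm.mul_apply, Equiv.Perm.mul_apply, ih.1, ih.2]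
            simp [trT, add_assoc]
        cases x with
        | none =>
          simp only [Equiv.Perm.mul_apply]
          rw [show mulU u none = none from rfl, (hn _ 0).2]
          rfl
        | some z =>
          simp only [Equiv.Perm.mul_apply]
          rw [show mulU u (some z) = some (u * z) from rfl, (hn _ _).1]
          show some ((u : ZMod 23) * (z + 1)) = _
          rw [ZMod.natCast_zmod_val, mul_add, mul_one]
      refine Subgroup.mem_normalizer_iff.2 ?_
      have hz : ∀ g ∈ p23, mulU u * g * (mulU u)⁻¹ ∈ p23 := by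
        intro g hg
        obtain ⟨k, rfl⟩ := Subgroup.mem_zpowers_iff.1 hg
        rw [← conj_zpow, hconj]
        exact zpow_mem (pow_mem (Subgroup.mem_zpowers _) _) _
      have heq : p23.map (MulAut.conj (mulU u)).toMonoidHom = p23 :=
        Subgroup.eq_of_le_of_card_ge (fun y hy => by
          obtain ⟨g, hg, rfl⟩ := Subgroup.mem_map.1 hy; exact hz g hg)
          (le_of_eq (Subgroup.card_map_of_injective (MulAut.conj (mulU u)).injective).symm)
      intro g
      refine ⟨hz g, fun h => ?_⟩
      rw [← heq] at h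
      obtain ⟨g', hg', e⟩ := Subgroup.mem_map.1 h
      exact (mul_left_cancel (mul_right_cancel e) : g' = g) ▸ hg'
  refine Subgroup.eq_of_le_of_card_ge hle ?_
  rw [norm23_card]
  have d1 : 23 ∣ Nat.card frob253 := p23_card ▸ Subgroup.card_dvd_of_le
    (Subgroup.zpowers_le.2 trT_mem_frob)
  have d2 : 11 ∣ Nat.card frob253 := p11_card ▸ Subgroup.card_dvd_of_le
    (Subgroup.zpowers_le.2 mulTwo_mem_frob)
  exact Nat.le_of_dvd Nat.card_pos ((show Nat.Coprime 23 11 by norm_num).mul_dvd_of_dvd_of_dvd d1 d2)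

theorem frob253_card : Nat.card frob253 = 253 := by rw [frob253_eq, norm23_card]

theorem frob253_between {K : Subgroup (Equiv.Perm GolayPt)} (h1 : frob253 ≤ K)
    (h2 : K ≤ st1 none) : K = frob253 ∨ K = st1 none := by
  classical
  haveI : Fact (Nat.Prime 23) := ⟨by norm_num⟩
  haveI : Fact (Nat.Prime 11) := ⟨by norm_num⟩
  obtain ⟨k, hk⟩ : 253 ∣ Nat.card K := frob253_card ▸ Subgroup.card_dvd_of_le h1
  have hk40 : k ∣ 40320 := by
    have h := Subgroup.card_dvd_of_le h2
    rw [hk, st1_card] at h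
    exact Nat.dvd_of_mul_dvd_mul_left (by norm_num : 0 < 253) (by simpa using h)
  have hk0 : 0 < k := Nat.pos_of_dvd_of_pos hk40 (by norm_num)
  have not23 : ¬ 23 ∣ 11 * k := fun h => by
    have := h.trans (Nat.mul_dvd_mul_left 11 hk40); norm_num at this
  have not11 : ¬ 11 ∣ k := fun h => by have := h.trans hk40; norm_num at this
  have p23K : p23 ≤ K := (Subgroup.zpowers_le.2 trT_mem_frob).trans h1
  obtain ⟨a, ha, -, hmod⟩ := sylow_count (m := 11 * k) p23K p23_card (by rw [hk]; ring) not23
  rw [show K ⊓ Subgroup.normalizer (p23 : Set (Equiv.Perm GolayPt)) = frob253 from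
    le_antisymm (frob253_eq ▸ inf_le_inf_right _ h2) (le_inf h1 (frob253_eq ▸ inf_le_right)),
    frob253_card] at ha
  rw [show a = 11 by omega, Nat.mul_div_cancel_left _ (by norm_num)] at hmod
  set K0 := K ⊓ MulAction.stabilizer (Equiv.Perm GolayPt) (some 0 : GolayPt) with hK0
  have horb := card_eq_orbit_mul K (some 0 : GolayPt) {x | x ≠ none}
    (fun σ hσ e => absurd (σ.injective ((show σ (some 0) = none from e).trans (h2 hσ).2.symm))
      (by simp))
    (fun x hx => by
      cases x with
      | none => exact absurd rfl hx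
      | some z => exact ⟨trT ^ z.val, pow_mem (p23K (Subgroup.mem_zpowers _)) _, trT_pow_zero z⟩)
  rw [show ({x : GolayPt | x ≠ none} : Set GolayPt).ncard = 23 by
      rw [show ({x : GolayPt | x ≠ none} : Set GolayPt) = ({none} : Set GolayPt)ᶜ from rfl,
        Set.ncard_compl, Set.ncard_singleton, Nat.card_eq_fintype_card]; rfl, hk] at horb
  have p11K0 : p11 ≤ K0 := le_inf
    ((Subgroup.zpowers_le.2 mulTwo_mem_frob).trans h1)
    (p11_le.trans inf_le_right)
  obtain ⟨b, hb, -, hmod'⟩ := sylow_count (m := k) p11K0 p11_card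
    (show Nat.card K0 = 11 * k by rw [hK0]; omega) not11
  have hb55 : 11 * b ∣ 55 := by
    rw [← hb, ← norm11_card]
    refine Subgroup.card_dvd_of_le (inf_le_inf_right _ ?_)
    exact inf_le_inf_right _ h2
  have hb5 : b = 1 ∨ b = 5 := (Nat.dvd_prime (by norm_num : Nat.Prime 5)).1
    (Nat.dvd_of_mul_dvd_mul_left (by norm_num : 0 < 11) hb55)
  have hlist : (List.range 1754).all (fun q => !((40320 % (23 * q + 1) == 0) &&
      ((23 * q + 1) % 11 == 1 || (23 * q + 1) / 5 % 11 == 1)) || q == 0 || q == 1753) = true := by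
    decide +kernel
  have hq := List.all_eq_true.1 hlist (k / 23) (by
    rw [List.mem_range]; have := Nat.le_of_dvd (by norm_num) hk40; omega)
  simp only [show 23 * (k / 23) + 1 = k by omega, Nat.mod_eq_zero_of_dvd hk40, beq_self_eq_true,
    Bool.true_and, Bool.or_eq_true, Bool.not_eq_true', Bool.or_eq_false_iff, beq_iff_eq,
    beq_eq_false_iff_ne] at hq
  rcases hq with (⟨n1, n2⟩ | h0) | htop
  · rcases hb5 with rfl | rfl
    · exact absurd (by simpa using hmod') n1
    · exact absurd hmod' n2
  · left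
    refine (Subgroup.eq_of_le_of_card_ge h1 ?_).symm
    rw [frob253_card, hk, show k = 1 by omega]
  · right
    refine Subgroup.eq_of_le_of_card_ge h2 ?_
    rw [st1_card, hk, show k = 40320 by omega]

/-! ### The group of order 6072 -/

/-- The projective group of degree 24. -/
def l223 : Subgroup (Equiv.Perm GolayPt) :=
  Subgroup.closure ({trT, projInv} ∪ {g : Equiv.Perm GolayPt | ∃ u : (ZMod 23)ˣ, IsSquare u ∧ g = mulU u})

theorem l223_le : l223 ≤ M24 := by
  rw [l223, Subgroup.closure_le]
  rintro g ((rfl | rfl) | ⟨u, hu, rfl⟩)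
  exacts [T_mem, projInv_mem, (mulU_mem hu).1.1]

theorem frob253_le : frob253 ≤ l223 :=
  Subgroup.closure_mono (Set.union_subset_union_left _ (by simp))

/-- The invariant family of dodecads. -/
def l223Fam : Finset (Finset GolayPt) := (l223Orbit.map toSet).toFinset

theorem l223_gens_ok : [genT, genS, pack (idx.map fun i => if i < 23 then 2 * i % 23 else 23)].all
    (fun g => valid g && l223Orbit.all (fun s => isCode (act g s) && isCode s) &&
      keySet codeKey (l223Orbit.map (act g)) == keySet codeKey l223Orbit) = true := by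
  decide +kernel

theorem l223_smul {g : ℕ} (hv : valid g = true)
    (hc : ∀ s ∈ l223Orbit, isCode (act g s) = true ∧ isCode s = true)
    (hk : keySet codeKey (l223Orbit.map (act g)) = keySet codeKey l223Orbit) :
    toPerm g • l223Fam = l223Fam := by
  refine Finset.eq_of_subset_of_card_le (fun t ht => ?_) (by rw [Finset.card_smul_finset])
  obtain ⟨s, hs, rfl⟩ := Finset.mem_smul_finset.1 ht
  simp only [l223Fam, List.mem_toFinset, List.mem_map] at hs ⊢
  obtain ⟨m, hm, rfl⟩ := hs
  obtain ⟨a, ha, he⟩ := exists_key_of_keySet_eq hk.symm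
    (List.mem_map.2 ⟨m, hm, rfl⟩ : act g m ∈ l223Orbit.map (act g))
  exact ⟨a, ha, by rw [smul_toSet hv, codeKey_inj (hc a ha).2 (hc m hm).1 he]⟩

theorem l223_fam : l223 ≤ MulAction.stabilizer (Equiv.Perm GolayPt) l223Fam := by
  have key : ∀ g ∈ [genT, genS, pack (idx.map fun i => if i < 23 then 2 * i % 23 else 23)],
      toPerm g • l223Fam = l223Fam := by
    intro g hg
    have h := List.all_eq_true.1 l223_gens_ok g hg
    simp only [Bool.and_eq_true, List.all_eq_true, beq_iff_eq] at h
    exact l223_smul h.1.1 h.1.2 h.2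
  have hM : mulU uTwo ∈ MulAction.stabilizer (Equiv.Perm GolayPt) l223Fam := by
    rw [MulAction.mem_stabilizer_iff, eq_toPerm
      (p := pack (idx.map fun i => if i < 23 then 2 * i % 23 else 23)) (σ := mulU uTwo)
      (by decide +kernel) (by unfold mulU; decide +kernel)]
    exact key _ (by simp)
  rw [l223, Subgroup.closure_le]
  rintro g ((rfl | rfl) | ⟨u, hu, rfl⟩)
  · show trT • l223Fam = l223Fam
    rw [trT, ← toPerm_genT]; exact key _ (by simp)
  · show projInv • l223Fam = l223Fam
    rw [← toPerm_genS]; exact key _ (by simp)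
  · obtain ⟨i, rfl⟩ := square_pow hu
    rw [SetLike.mem_coe, ← mulU_pow]; exact pow_mem hM i

theorem l223_ne : l223 ≠ M24 := by
  intro e
  obtain ⟨σ, hσ, he⟩ := M24_trans_dodecads d0_dodecad
    (mem_dodecads.2 ⟨l223Out, mem_dodList.2 (by decide +kernel), rfl⟩)
  have hf : σ • l223Fam = l223Fam := l223_fam (e ▸ hσ)
  have hmem : σ • toSet d0 ∈ σ • l223Fam := Finset.smul_mem_smul_finset (by
    simp only [l223Fam, List.mem_toFinset, List.mem_map]
    exact ⟨d0, by decide +kernel, rfl⟩)
  rw [hf, he] at hmem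
  simp only [l223Fam, List.mem_toFinset, List.mem_map] at hmem
  obtain ⟨m, hm, hm'⟩ := hmem
  have hc : isCode m = true ∧ isCode (act genT m) = true := by
    have h := List.all_eq_true.1 l223_gens_ok genT (by simp)
    simp only [Bool.and_eq_true, List.all_eq_true] at h
    exact ⟨(h.1.2 m hm).2, (h.1.2 m hm).1⟩
  have hbit : ∀ i < 24, m.testBit i = l223Out.testBit i := fun i hi => by
    have := congrArg (fun s : Finset GolayPt => decide (pt i ∈ s)) hm'
    simpa [ix_pt hi] using this
  have : ∀ m ∈ l223Orbit, idx.any (fun i => m.testBit i != l223Out.testBit i) = true := by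
    decide +kernel
  obtain ⟨i, hi, hne⟩ := List.any_eq_true.1 (this m hm)
  simp [hbit i (mem_idx.1 hi)] at hne

theorem l223_trans : ∀ x : GolayPt, ∃ σ ∈ l223, σ none = x := by
  intro x
  cases x with
  | none => exact ⟨1, one_mem _, rfl⟩
  | some z =>
    refine ⟨trT ^ z.val * projInv, mul_mem (pow_mem (frob253_le trT_mem_frob) _)
      (Subgroup.subset_closure (Set.mem_union_left _ (Set.mem_insert_of_mem _ rfl))), ?_⟩
    rw [Equiv.Perm.mul_apply, show projInv none = some 0 by decide, trT_pow_zero]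

theorem card_of_l223_le {K : Subgroup (Equiv.Perm GolayPt)} (h : l223 ≤ K) (hK : K ≤ M24) :
    Nat.card K = 6072 ∨ K = M24 := by
  have hc := card_eq_orbit_mul K (none : GolayPt) Set.univ (fun _ _ => Set.mem_univ _)
    (fun x _ => by obtain ⟨σ, hσ, e⟩ := l223_trans x; exact ⟨σ, h hσ, e⟩)
  rw [Set.ncard_univ, Nat.card_eq_fintype_card (α := GolayPt),
    show Fintype.card GolayPt = 24 from rfl] at hc
  rcases frob253_between (K := K ⊓ MulAction.stabilizer (Equiv.Perm GolayPt) (none : GolayPt))
    (le_inf (frob253_le.trans h) ((frob253_eq ▸ inf_le_left).trans inf_le_right))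
    (inf_le_inf_right _ hK) with e | e <;> rw [e] at hc
  · left; rw [hc, frob253_card]
  · right; exact Subgroup.eq_of_le_of_card_ge hK (by rw [hc, st1_card, M24_card])

theorem l223_card : Nat.card l223 = 6072 :=
  (card_of_l223_le le_rfl l223_le).resolve_right l223_ne

end Cfsg.Agent.Lib.Golay
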