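/-! # Certificates for the two-point stabiliser of degree 22 -/

set_option autoImplicit false

namespace Cfsg.Agent.Lib.Golay

/-- Powers of an element of order five normalising the standard subgroup of order eleven. -/
def m22F : List Nat := [974380510768821363662145534143076928, 977864963184960973661438897150854272, 969952412052033243847481939299780672, 980275914351787324191492553553580224]

/-- A map sending the two standard points to the first two base points. -/
def m22Shift : Nat := 8175679842451578171354991849189729

/-- Its inverse. -/
def m22ShiftInv : Nat := 597296939932726725619690930127211543

/-- The conjugated powers. -/
def m22J : List Nat := [766363682206791057961307776721455136, 192906214668443287372940029626255392, 636531306152711152486444494702610464, 270220512050284372845490104273307680]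

/-- The normaliser of the conjugated group of order five. -/
def m22Norm : List Nat :=
  [984818244535754528103549039458486304,
    268195153026948482477577069584812064,
    760892842642803638783215928980113440,
    192906214668443287372940029626255392,
    981818691054096003685363657089320992,
    766363682206791057961307776721455136,
    270220512050284372845490104273307680,
    652132913432075291646800643152250912,
    636531306152711152486444494702610464,
    187800359458060982176774145975617568,
    188679143480857466587929748017581088,
    965250469119305697212558965227981856,
    266601623865236064655003986032659488,
    760154783050876870036483459976858656,
    259185330599106821373680563216518176,
    178061402332646667887538457497635872,
    966263704477649009505436814207421472,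
    646011723613598274290900970552495136,
    758533169505963098748051560765393952,
    640175426828259635290523354657786912]

/-- An element of that normaliser, before conjugation. -/
def m22H : Nat := 984444188461805708752323088099022880

/-- An element of the normaliser of order fifty-five. -/
def m22Nx : Nat := 968955966875123533138286166201145376

/-- Their product, of order seven, and its powers. -/
def m22Y : Nat := 966235124457962279234411247256539168

end Cfsg.Agent.Lib.Golay
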