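import Cfsg.Agent.Lib.Golay.L223
import Cfsg.Agent.Lib.Golay.Search
import Cfsg.Agent.Lib.Golay.M22IndexData

/-! # Two forbidden indices in the two-point stabiliser -/

set_option autoImplicit false
set_option maxRecDepth 100000

namespace Cfsg.Agent.Lib.Golay

open Cfsg
open scoped Pointwise

theorem mem_norm_of_conj {X : Type*} [Group X] [Finite X] {g u : X} {k : ℕ}
    (h : g * u = u ^ k * g) : g ∈ Subgroup.normalizer (Subgroup.zpowers u : Set X) := by
  classical
  have hconj : g * u * g⁻¹ = u ^ k := mul_inv_eq_iff_eq_mul.2 h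
  have hz : ∀ y ∈ Subgroup.zpowers u, g * y * g⁻¹ ∈ Subgroup.zpowers u := by
    intro y hy
    obtain ⟨n, rfl⟩ := Subgroup.mem_zpowers_iff.1 hy
    rw [← conj_zpow, hconj]
    exact zpow_mem (pow_mem (Subgroup.mem_zpowers _) _) _
  have heq : (Subgroup.zpowers u).map (MulAut.conj g).toMonoidHom = Subgroup.zpowers u :=
    Subgroup.eq_of_le_of_card_ge (fun y hy => by
      obtain ⟨z, hzu, rfl⟩ := Subgroup.mem_map.1 hy; exact hz z hzu)
      (le_of_eq (Subgroup.card_map_of_injective (MulAut.conj g).injective).symm)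
  refine Subgroup.mem_normalizer_iff.2 fun y => ⟨hz y, fun hy => ?_⟩
  rw [← heq] at hy
  obtain ⟨y', hy', e⟩ := Subgroup.mem_map.1 hy
  exact (mul_left_cancel (mul_right_cancel e) : y' = y) ▸ hy'

theorem norm_subgroupOf_card {X : Type*} [Group X] [Finite X] {G P : Subgroup X} (hle : P ≤ G) :
    Nat.card (Subgroup.normalizer (P.subgroupOf G : Set G)) =
      Nat.card ↥(G ⊓ Subgroup.normalizer (P : Set X)) := by
  rw [← Subgroup.subgroupOf_normalizer_eq hle,
    ← Subgroup.card_map_of_injective (f := G.subtype) G.subtype_injective,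
    Subgroup.subgroupOf_map_subtype, inf_comm]

/-- The standard element of order five. -/
def m22f : ℕ := m22F.getD 0 0

theorem m22F_ok : m22F.all (fun f => inM24 f && powId 5 f && !(powId 1 f) && img f 23 == 23 &&
    img f 0 == 0) = true := by decide +kernel

theorem m22f_pows : m22F = [m22f, comp m22f m22f, comp m22f (comp m22f m22f),
    comp m22f (comp m22f (comp m22f m22f))] := by decide +kernel

theorem m22J_ok : valid m22Shift = true ∧ inM24 m22Shift = true ∧ valid m22ShiftInv = true ∧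
    comp m22Shift m22ShiftInv = idCode ∧
    (m22J == m22F.map fun f => comp m22Shift (comp f m22ShiftInv)) = true ∧
    img m22Shift 23 = 0 ∧ img m22Shift 0 = 1 := by decide +kernel

theorem m22_search : search (m22J.getD 0 0) m22J 5 2 idCode = m22Norm := by decide +kernel

theorem m22Norm_ok : m22Norm.all (fun p => inM24 p && fixesMask (baseMask 2) p &&
      commJ (m22J.getD 0 0) m22J p) = true ∧
    codedOK m22Norm = true ∧ m22Norm.length = 20 := by
  refine ⟨?_, ?_, ?_⟩ <;> decide +kernel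

theorem m22_extra : inM24 m22H = true ∧ inM24 m22Nx = true ∧ inM24 m22Y = true ∧
    img m22H 23 = 23 ∧ img m22H 0 = 0 ∧ img m22Nx 23 = 23 ∧ img m22Nx 0 = 0 ∧
    comp m22H m22Nx = m22Y ∧ powId 7 m22Y = true ∧ powId 1 m22Y = false ∧
    m22F.any (fun j => comp m22H m22f == comp j m22H) = true := by decide +kernel

theorem pow_one_of_powId {x n : ℕ} (hv : valid x = true) (h : powId n x = true) :
    toPerm x ^ n = 1 := by
  refine pow_eq_one_of_img hv fun i hi => ?_
  simp only [powId, List.all_eq_true, beq_iff_eq] at h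
  exact h i (mem_idx.2 hi)

/-- The code of multiplication by two. -/
def codeU : ℕ := pack (idx.map fun i => if i < 23 then 2 * i % 23 else 23)

theorem toPerm_codeU : toPerm codeU = mulU uTwo :=
  (eq_toPerm (p := codeU) (σ := mulU uTwo) (by decide +kernel) (by unfold mulU; decide +kernel)).symm

theorem m22_normU : ∀ g ∈ [m22f, m22Nx], (List.range 11).any (fun k =>
    comp g codeU == comp ((comp codeU)^[k] idCode) g) = true := by decide +kernel

theorem toPerm_iter {p : ℕ} (hp : valid p = true) :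
    ∀ k, valid ((comp p)^[k] idCode) = true ∧ toPerm ((comp p)^[k] idCode) = toPerm p ^ k
  | 0 => ⟨(by decide : valid idCode = true), by simpa using toPerm_idCode⟩
  | k + 1 => by
    obtain ⟨h1, h2⟩ := toPerm_iter hp k
    rw [Function.iterate_succ_apply', (comp_spec hp h1).2, h2, pow_succ']
    exact ⟨(comp_spec hp h1).1, rfl⟩

theorem code_st2 {g : ℕ} (h : inM24 g = true) (h1 : img g 23 = 23) (h2 : img g 0 = 0) :
    toPerm g ∈ st2 none (some 0) := by
  have hv := valid_of_inM24 h
  refine ⟨⟨toPerm_mem_M24 h, ?_⟩, ?_⟩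
  · show toPerm g none = none
    rw [show (none : GolayPt) = pt 23 from rfl, toPerm_pt hv (by norm_num), h1]
  · show toPerm g (some 0) = some 0
    rw [show (some 0 : GolayPt) = pt 0 from rfl, toPerm_pt hv (by norm_num), h2]

theorem m22_norm5_le : Nat.card ↥(st2 none (some 0) ⊓
    Subgroup.normalizer (Subgroup.zpowers (toPerm m22f) : Set (Equiv.Perm GolayPt))) ≤ 20 := by
  classical
  set σ := toPerm m22Shift with hσ
  obtain ⟨hv, hM, hvi, hinv, hJ, hs23, hs0⟩ := m22J_ok
  have hσi : toPerm m22ShiftInv = σ⁻¹ := eq_inv_of_mul_eq_one_right (by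
    rw [← (comp_spec hv hvi).2, hinv, toPerm_idCode])
  have hok := List.all_eq_true.1 m22F_ok
  have hFv : ∀ f ∈ m22F, valid f = true := fun f hf => by
    have := hok f hf
    simp only [Bool.and_eq_true] at this
    exact valid_of_inM24 this.1.1.1.1
  have hJmem : ∀ f ∈ m22F, comp m22Shift (comp f m22ShiftInv) ∈ m22J ∧
      valid (comp m22Shift (comp f m22ShiftInv)) = true ∧
      toPerm (comp m22Shift (comp f m22ShiftInv)) = σ * toPerm f * σ⁻¹ := fun f hf => by
    have h1 := comp_spec (hFv f hf) hvi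
    have h2 := comp_spec hv h1.1
    refine ⟨?_, h2.1, ?_⟩
    · rw [beq_iff_eq.1 hJ]; exact List.mem_map.2 ⟨f, hf, rfl⟩
    · rw [h2.2, h1.2, hσi, mul_assoc]
  have hf0 : m22f ∈ m22F := by rw [m22f_pows]; simp
  have hJ0 : m22J.getD 0 0 = comp m22Shift (comp m22f m22ShiftInv) := by decide +kernel
  have hJv : ∀ j ∈ m22J, valid j = true := by
    intro j hj
    rw [beq_iff_eq.1 hJ] at hj
    obtain ⟨f, hf, rfl⟩ := List.mem_map.1 hj
    exact (hJmem f hf).2.1
  have hspec := search_exact (s := m22J.getD 0 0) (J := m22J)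
    (hJ0 ▸ (hJmem _ hf0).2.1) hJv (n := 5) (k := 2) rfl m22_search m22Norm_ok.1
  set S : Set (Equiv.Perm GolayPt) := {x | x ∈ level 2 ∧ Twines (m22J.getD 0 0) m22J x}
  have hS : S.ncard = 20 := (ncard_coded m22Norm_ok.2.1 hspec).trans m22Norm_ok.2.2
  rw [← hS, ← Nat.card_coe_set_eq]
  refine Nat.card_le_card_of_injective (fun x => ⟨σ * x.1 * σ⁻¹, ?_, ?_⟩)
    (fun x y e => Subtype.ext (mul_left_cancel (mul_right_cancel (congrArg Subtype.val e))))
  · refine mem_level.2 ⟨mul_mem (mul_mem (toPerm_mem_M24 hM) x.2.1.1.1) (inv_mem (toPerm_mem_M24 hM)),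
      fun q hq => ?_⟩
    have e23 : σ none = pt 0 := by
      rw [hσ, show (none : GolayPt) = pt 23 from rfl, toPerm_pt hv (by norm_num), hs23]
    have e0 : σ (some 0) = pt 1 := by
      rw [hσ, show (some 0 : GolayPt) = pt 0 from rfl, toPerm_pt hv (by norm_num), hs0]
    have hq' : q = pt 0 ∨ q = pt 1 := by revert q; decide +kernel
    have h1 : x.1 none = none := x.2.1.1.2
    have h2 : x.1 (some 0) = some 0 := x.2.1.2
    rcases hq' with rfl | rfl
    · show σ (x.1 (σ⁻¹ (pt 0))) = pt 0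
      rw [← e23, Equiv.Perm.inv_def, Equiv.symm_apply_apply, h1]
    · show σ (x.1 (σ⁻¹ (pt 1))) = pt 1
      rw [← e0, Equiv.Perm.inv_def, Equiv.symm_apply_apply, h2]
  · have hxn := (Subgroup.mem_normalizer_iff.1 x.2.2 (toPerm m22f)).1 (Subgroup.mem_zpowers _)
    haveI : Fact (Nat.Prime 5) := ⟨by norm_num⟩
    have hf5 : toPerm m22f ^ 5 = 1 := by
      have := hok _ hf0
      simp only [Bool.and_eq_true] at this
      exact pow_one_of_powId (hFv _ hf0) this.1.1.1.2
    obtain ⟨n, hn⟩ := Subgroup.mem_zpowers_iff.1 hxn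
    have hn' : (x.1 * toPerm m22f * x.1⁻¹) = toPerm m22f ^ ((n % 5).toNat) := by
      rw [← hn, ← zpow_natCast, Int.toNat_of_nonneg (Int.emod_nonneg _ (by norm_num))]
      exact zpow_eq_zpow_emod' n hf5
    have hlt : (n % 5).toNat < 5 := by omega
    have hc2 := comp_spec (hFv _ hf0) (hFv _ hf0)
    have hc3 := comp_spec (hFv _ hf0) hc2.1
    have hc4 := comp_spec (hFv _ hf0) hc3.1
    have hex : ∃ f ∈ m22F, toPerm f = x.1 * toPerm m22f * x.1⁻¹ := by
      generalize (n % 5).toNat = k at hn' hlt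
      rw [hn', m22f_pows]
      interval_cases k
      · exfalso
        rw [pow_zero, mul_inv_eq_one, mul_eq_left] at hn'
        have := hok _ hf0
        simp only [Bool.and_eq_true, Bool.not_eq_true'] at this
        have h1 := powId_of_pow (n := 1) (hFv _ hf0) (by rw [pow_one, hn'])
        rw [this.1.1.2] at h1
        exact Bool.noConfusion h1
      · exact ⟨m22f, by simp, by simp⟩
      · exact ⟨comp m22f m22f, by simp, by rw [hc2.2, sq]⟩
      · exact ⟨_, List.mem_cons_of_mem _ (List.mem_cons_of_mem _ (List.mem_cons_self ..)),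
          by rw [hc3.2, hc2.2]; simp [pow_succ, mul_assoc]⟩
      · exact ⟨comp m22f (comp m22f (comp m22f m22f)), by simp,
          by rw [hc4.2, hc3.2, hc2.2]; simp [pow_succ, mul_assoc]⟩
    obtain ⟨f, hf, hfe⟩ := hex
    refine ⟨_, (hJmem f hf).1, ?_⟩
    rw [hJ0, (hJmem f hf).2.2, (hJmem _ hf0).2.2, hfe]
    group

theorem sub_index_false' (G : Subgroup (Equiv.Perm GolayPt)) (hG : G = st2 none (some 0))
    (H : Subgroup G) : H.index ≠ 56 ∧ H.index ≠ 210 := by
  classical
  haveI : Fact (Nat.Prime 11) := ⟨by norm_num⟩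
  haveI : Fact (Nat.Prime 5) := ⟨by norm_num⟩
  haveI : Fact (Nat.Prime 7) := ⟨by norm_num⟩
  have hGc : Nat.card G = 443520 := hG ▸ st2_card (by simp)
  set P0 : Subgroup G := p11.subgroupOf G with hP0
  have hP0c : Nat.card P0 = 11 := by
    rw [hP0, Nat.card_congr (Subgroup.subgroupOfEquivOfLe (hG ▸ p11_le)).toEquiv, p11_card]
  have hN : Nat.card (Subgroup.normalizer (P0 : Set G)) = 55 := by
    rw [hP0, norm_subgroupOf_card (hG ▸ p11_le), hG, norm11_card]
  suffices main : ∀ m, Nat.card H = 11 * m → ¬ 11 ∣ m → (m = 720 ∨ m = 192) → False by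
    constructor <;> intro hi
    · exact main 720 (by have := H.card_mul_index; rw [hi, hGc] at this; omega) (by norm_num) (Or.inl rfl)
    · exact main 192 (by have := H.card_mul_index; rw [hi, hGc] at this; omega) (by norm_num) (Or.inr rfl)
  intro m hm hnd hcases
  obtain ⟨x, hx⟩ := exists_prime_orderOf_dvd_card' (G := H) 11 (hm ▸ Dvd.intro m rfl)
  set Q : Subgroup G := Subgroup.zpowers (x : G)
  have hQc : Nat.card Q = 11 := by rw [Nat.card_zpowers, Subgroup.orderOf_coe, hx]
  have hfac : (443520 : ℕ).factorization 11 = 1 := by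
    rw [show (443520 : ℕ) = 11 * 40320 by norm_num,
      Nat.factorization_mul (by norm_num) (by norm_num), Finsupp.add_apply,
      (Fact.out : Nat.Prime 11).factorization_self,
      Nat.factorization_eq_zero_of_not_dvd (by norm_num)]
  let SQ : Sylow 11 G := Sylow.ofCard Q (by rw [hQc, hGc, hfac, pow_one])
  let S0 : Sylow 11 G := Sylow.ofCard P0 (by rw [hP0c, hGc, hfac, pow_one])
  obtain ⟨g, hg⟩ := MulAction.exists_smul_eq G SQ S0
  set K := H.map (MulAut.conj g).toMonoidHom
  have hKc : Nat.card K = 11 * m := by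
    rw [Subgroup.card_map_of_injective (MulAut.conj g).injective, hm]
  have hP0K : P0 ≤ K := by
    intro y hy
    have : y ∈ (g • SQ : Sylow 11 G) := hg ▸ hy
    obtain ⟨z, hz, rfl⟩ : y ∈ MulAut.conj g • Q := this
    exact ⟨z, Subgroup.zpowers_le.2 x.2 hz, rfl⟩
  obtain ⟨a, ha, ham, hmod⟩ := sylow_count hP0K hP0c hKc hnd
  have hle : 11 * a ∣ 55 := by rw [← ha, ← hN]; exact Subgroup.card_dvd_of_le inf_le_right
  have ha5 : a ∣ 5 := Nat.dvd_of_mul_dvd_mul_left (by norm_num : 0 < 11) hle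
  have ha' : a = 1 ∨ a = 5 := (Nat.dvd_prime (by norm_num)).1 ha5
  obtain ⟨rfl, rfl⟩ : m = 720 ∧ a = 5 := by
    rcases hcases with rfl | rfl <;> rcases ha' with rfl | rfl <;>
      first | exact ⟨rfl, rfl⟩ | norm_num at hmod | norm_num at ham
  have hNK : Subgroup.normalizer (P0 : Set G) ≤ K :=
    inf_eq_right.1 (Subgroup.eq_of_le_of_card_ge inf_le_right (by rw [ha, hN]))
  have hin : ∀ c ∈ [m22f, m22Nx], ∀ hc : toPerm c ∈ G, (⟨toPerm c, hc⟩ : G) ∈ K := by
    intro c hc hcG
    refine hNK ?_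
    rw [hP0, ← Subgroup.subgroupOf_normalizer_eq (hG ▸ p11_le)]
    obtain ⟨k, -, hk⟩ := List.any_eq_true.1 (m22_normU c hc)
    have hv : valid c = true := by
      have : ∀ c ∈ [m22f, m22Nx], valid c = true := by decide +kernel
      exact this c hc
    have hu : valid codeU = true := by decide +kernel
    have hk' := congrArg toPerm (beq_iff_eq.1 hk)
    rw [(comp_spec hv hu).2, (comp_spec (toPerm_iter hu k).1 hv).2, (toPerm_iter hu k).2,
      toPerm_codeU] at hk'
    exact mem_norm_of_conj hk'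
  have hf0 : m22f ∈ m22F := by rw [m22f_pows]; simp
  have hfok := List.all_eq_true.1 m22F_ok _ hf0
  simp only [Bool.and_eq_true, Bool.not_eq_true', beq_iff_eq] at hfok
  obtain ⟨⟨⟨⟨hfM, hf5⟩, hf1⟩, hf23⟩, hf00⟩ := hfok
  have hfv := valid_of_inM24 hfM
  have hfG : toPerm m22f ∈ G := hG ▸ code_st2 hfM hf23 hf00
  have hford : orderOf (toPerm m22f) = 5 := orderOf_eq_prime (pow_one_of_powId hfv hf5)
    fun e => by
      have h1 := powId_of_pow (n := 1) hfv (by rw [pow_one, e])
      rw [hf1] at h1; exact Bool.noConfusion h1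
  set f : G := ⟨toPerm m22f, hfG⟩
  set P5 : Subgroup G := Subgroup.zpowers f
  have hP5c : Nat.card P5 = 5 := by rw [Nat.card_zpowers, ← Subgroup.orderOf_coe, hford]
  have hP5eq : P5 = (Subgroup.zpowers (toPerm m22f)).subgroupOf G := by
    apply Subgroup.map_injective G.subtype_injective
    rw [MonoidHom.map_zpowers, Subgroup.subgroupOf_map_subtype,
      inf_eq_left.2 (Subgroup.zpowers_le.2 hfG)]
    rfl
  have h20 : Nat.card (Subgroup.normalizer (P5 : Set G)) ≤ 20 := by
    rw [hP5eq, norm_subgroupOf_card (Subgroup.zpowers_le.2 hfG)]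
    rw [hG]; exact m22_norm5_le
  obtain ⟨b, hb, hbm, hbmod⟩ := sylow_count (m := 1584)
    (Subgroup.zpowers_le.2 (hin m22f (by simp) hfG) : P5 ≤ K) hP5c (by rw [hKc]) (by norm_num)
  have hb20 : 5 * b ≤ 20 :=
    hb ▸ (Nat.le_of_dvd Nat.card_pos (Subgroup.card_dvd_of_le inf_le_right)).trans h20
  have key : ∀ b < 5, b ∣ 1584 → 1584 / b % 5 = 1 → b = 4 := by decide +kernel
  obtain rfl := key b (by omega) hbm hbmod
  have hN5K : Subgroup.normalizer (P5 : Set G) ≤ K :=
    inf_eq_right.1 (Subgroup.eq_of_le_of_card_ge inf_le_right (by rw [hb]; exact h20))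
  obtain ⟨hHM, hXM, hYM, hH23, hH0, hX23, hX0, hHX, hY7, hY1, hHf⟩ := m22_extra
  have hhG : toPerm m22H ∈ G := hG ▸ code_st2 hHM hH23 hH0
  have hxG : toPerm m22Nx ∈ G := hG ▸ code_st2 hXM hX23 hX0
  have hhK : (⟨toPerm m22H, hhG⟩ : G) ∈ K := by
    refine hN5K ?_
    rw [hP5eq, ← Subgroup.subgroupOf_normalizer_eq (Subgroup.zpowers_le.2 hfG)]
    obtain ⟨j, hj, hje⟩ := List.any_eq_true.1 hHf
    have hjv : valid j = true := by
      have := List.all_eq_true.1 m22F_ok j hj
      simp only [Bool.and_eq_true] at this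
      exact valid_of_inM24 this.1.1.1.1
    have h' := congrArg toPerm (beq_iff_eq.1 hje)
    rw [(comp_spec (valid_of_inM24 hHM) hfv).2, (comp_spec hjv (valid_of_inM24 hHM)).2] at h'
    have hpow : ∃ k : ℕ, toPerm j = toPerm m22f ^ k := by
      have hc2 := comp_spec hfv hfv
      have hc3 := comp_spec hfv hc2.1
      have hc4 := comp_spec hfv hc3.1
      rw [m22f_pows] at hj
      simp only [List.mem_cons, List.not_mem_nil, or_false] at hj
      rcases hj with rfl | rfl | rfl | rfl
      · exact ⟨1, (pow_one _).symm⟩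
      · exact ⟨2, by rw [hc2.2, sq]⟩
      · exact ⟨3, by rw [hc3.2, hc2.2]; simp [pow_succ, mul_assoc]⟩
      · exact ⟨4, by rw [hc4.2, hc3.2, hc2.2]; simp [pow_succ, mul_assoc]⟩
    obtain ⟨k, hk⟩ := hpow
    rw [hk] at h'
    exact mem_norm_of_conj h'
  have hy := mul_mem hhK (hin m22Nx (by simp) hxG)
  have hord : orderOf ((⟨toPerm m22H, hhG⟩ : G) * ⟨toPerm m22Nx, hxG⟩) = 7 := by
    rw [← Subgroup.orderOf_coe, Subgroup.coe_mul]
    show orderOf (toPerm m22H * toPerm m22Nx) = 7
    rw [← (comp_spec (valid_of_inM24 hHM) (valid_of_inM24 hXM)).2, hHX]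
    refine orderOf_eq_prime (pow_one_of_powId (valid_of_inM24 hYM) hY7) fun e => ?_
    have h1 := powId_of_pow (n := 1) (valid_of_inM24 hYM) (by rw [pow_one, e])
    rw [hY1] at h1; exact Bool.noConfusion h1
  have hdvd := orderOf_dvd_natCard (⟨_, hy⟩ : K)
  rw [← Subgroup.orderOf_coe, hord, hKc] at hdvd
  norm_num at hdvd

theorem sub_index_false (H : Subgroup (st2 none (some 0))) :
    H.index ≠ 56 ∧ H.index ≠ 210 :=
  sub_index_false' _ rfl H

end Cfsg.Agent.Lib.Golay
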