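import Cfsg.Agent.Lib.Golay.Six
import Cfsg.Agent.Lib.Golay.Classes

/-! # Subgroups of index 253 in the point stabiliser -/

set_option autoImplicit false

namespace Cfsg.Agent.Lib.Golay

open Cfsg
open scoped Pointwise

theorem fix_bound {g : Equiv.Perm GolayPt} (hg : g ∈ M24) (h1 : g ≠ 1) {F : Finset GolayPt}
    (hF : ∀ p ∈ F, g p = p) (h7 : 7 ≤ F.card) : ∃ o ∈ octads, F ⊆ o := by
  classical
  obtain ⟨E, hEF, hE⟩ := Finset.exists_subset_card_eq (show 6 ≤ F.card by omega)
  have hgE : g ∈ ptFix E := mem_ptFix.2 ⟨hg, fun p hp => hF p (hEF hp)⟩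
  by_cases h : ∃ o ∈ octads, E ⊆ o
  · obtain ⟨o, ho, hs⟩ := h
    refine ⟨o, ho, fun y hy => ?_⟩
    by_contra hyo
    exact h1 ((octFix_facts ho).2.1 g (six_in_octad_fix ho hs hE ▸ hgE) y hyo (hF y hy))
  · exfalso
    have hc := six_out_fix hE h
    have hord : orderOf g = 3 := by
      have := orderOf_dvd_natCard (⟨g, hgE⟩ : ptFix E)
      rw [← Subgroup.orderOf_coe, hc] at this
      exact ((Nat.dvd_prime Nat.prime_three).1 this).resolve_left (orderOf_eq_one_iff.not.2 h1)
    have hle : F.card ≤ (fixedPts g).card :=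
      Finset.card_le_card fun p hp => mem_fixedPts.2 (hF p hp)
    obtain ⟨c, -, ⟨h6, -⟩ | ⟨h0, -⟩⟩ := three_classes hg hord <;> omega

theorem fixedPts_le_eight {g : Equiv.Perm GolayPt} (hg : g ∈ M24) (h1 : g ≠ 1) :
    (fixedPts g).card ≤ 8 := by
  by_contra! h
  obtain ⟨o, ho, hs⟩ := fix_bound hg h1 (fun p hp => mem_fixedPts.1 hp) (by omega)
  have := Finset.card_le_card hs
  rw [octads_card ho] at this
  omega

theorem fixedPts_mod {g : Equiv.Perm GolayPt} {p : ℕ} [Fact p.Prime] (ho : orderOf g = p)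
    (O : Finset GolayPt) (hO : g • O = O) :
    O.card % p = (O.filter fun x => g x = x).card % p := by
  classical
  have hmem : ∀ x, g x ∈ O ↔ x ∈ O := smul_mem_iff_of_fix hO
  let σ : Equiv.Perm O := g.subtypePerm hmem
  have hσ : σ ^ p ^ 1 = 1 := by
    refine Equiv.ext fun x => Subtype.ext ?_
    simp only [σ, pow_one, Equiv.Perm.subtypePerm_pow]
    show (g ^ p) (x : GolayPt) = (x : GolayPt)
    rw [← ho, pow_orderOf_eq_one]
    rfl
  have h := Equiv.Perm.card_compl_support_modEq (p := p) (n := 1) hσ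
  rw [Fintype.card_coe] at h
  refine Eq.trans h.symm (congrArg (· % p) ?_)
  refine Finset.card_bij (fun x _ => (x : GolayPt)) ?_ (fun _ _ _ _ e => Subtype.ext e) ?_
  · intro x hx
    rw [Finset.mem_compl, Equiv.Perm.notMem_support] at hx
    exact Finset.mem_filter.2 ⟨x.2, congrArg Subtype.val hx⟩
  · intro y hy
    obtain ⟨hy1, hy2⟩ := Finset.mem_filter.1 hy
    exact ⟨⟨y, hy1⟩, by rw [Finset.mem_compl, Equiv.Perm.notMem_support]; exact Subtype.ext hy2, rfl⟩

theorem fixedPts_seven {g : Equiv.Perm GolayPt} (hg : g ∈ M24) (ho : orderOf g = 7) :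
    (fixedPts g).card = 3 := by
  haveI : Fact (Nat.Prime 7) := ⟨by norm_num⟩
  have h8 := fixedPts_le_eight hg (fun e => by rw [e, orderOf_one] at ho; omega)
  have h := fixedPts_mod ho Finset.univ (smul_eq_of_mapsTo fun p _ => Finset.mem_univ _)
  rw [Finset.card_univ, show Fintype.card GolayPt = 24 from rfl,
    show (Finset.univ.filter fun x => g x = x) = fixedPts g by ext; simp [mem_fixedPts]] at h
  omega

theorem fixedPts_five {g : Equiv.Perm GolayPt} (hg : g ∈ M24) (ho : orderOf g = 5) :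
    (fixedPts g).card = 4 := by
  haveI : Fact (Nat.Prime 5) := ⟨by norm_num⟩
  have h8 := fixedPts_le_eight hg (fun e => by rw [e, orderOf_one] at ho; omega)
  have h := fixedPts_mod ho Finset.univ (smul_eq_of_mapsTo fun p _ => Finset.mem_univ _)
  rw [Finset.card_univ, show Fintype.card GolayPt = 24 from rfl,
    show (Finset.univ.filter fun x => g x = x) = fixedPts g by ext; simp [mem_fixedPts]] at h
  omega

theorem restr_bound {H : Subgroup (Equiv.Perm GolayPt)} {S : Finset GolayPt} (hH : H ≤ stSet S) :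
    (∀ g ∈ H, (∀ p ∈ S, g p = p) → g = 1) →
      Nat.card H ≤ (S.card).factorial ∧
        (Nat.card H = (S.card).factorial → ∀ e : Equiv.Perm S, ∃ g ∈ H, ∀ x : S, g x = e x) := by
  classical
  intro hk
  let f : H →* Equiv.Perm S := (restrHom S).comp (Subgroup.inclusion hH)
  have hinj : Function.Injective f := by
    refine (injective_iff_map_eq_one f).2 fun g hg => Subtype.ext (hk g.1 g.2 fun p hp => ?_)
    exact congrArg Subtype.val (DFunLike.congr_fun hg (⟨p, hp⟩ : S))
  have hc : Nat.card (Equiv.Perm S) = (S.card).factorial := by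
    rw [Nat.card_perm, Nat.card_eq_fintype_card (α := ↥S), Fintype.card_coe]
  refine ⟨hc ▸ Nat.card_le_card_of_injective f hinj, fun h e => ?_⟩
  obtain ⟨g, hg⟩ := (hinj.bijective_of_nat_card_le (by rw [hc, h])).2 e
  exact ⟨g.1, g.2, fun x => congrArg Subtype.val (DFunLike.congr_fun hg x)⟩

theorem eight_set_false {H : Subgroup (Equiv.Perm GolayPt)} {x : GolayPt} (hH : H ≤ st1 x)
    (hc : Nat.card H = 40320) {S : Finset GolayPt} (hS : S.card = 8) (hx : x ∉ S)
    (hinv : ∀ g ∈ H, g • S = S) : False := by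
  classical
  have hker : ∀ g ∈ H, (∀ p ∈ S, g p = p) → g = 1 := by
    intro g hg hf
    by_contra h1
    have h8 := fixedPts_le_eight (hH hg).1 h1
    have hsub : insert x S ⊆ fixedPts g := Finset.insert_subset
      (mem_fixedPts.2 (hH hg).2) fun p hp => mem_fixedPts.2 (hf p hp)
    have := Finset.card_le_card hsub
    rw [Finset.card_insert_of_notMem hx, hS] at this
    omega
  obtain ⟨-, hall⟩ := restr_bound (fun g hg => ⟨(hH hg).1, hinv g hg⟩) hker
  have hall := hall (by rw [hc, hS]; rfl)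
  have key : ∀ a b : S, a ≠ b → ∃ o ∈ octads, insert x ((S.erase a.1).erase b.1) ⊆ o := by
    intro a b hab
    obtain ⟨g, hg, he⟩ := hall (Equiv.swap a b)
    have hne : g ≠ 1 := fun e => hab (by
      have := he a
      rw [e, Equiv.swap_apply_left] at this
      exact Subtype.ext this)
    refine fix_bound (hH hg).1 hne (fun p hp => ?_) ?_
    · rcases Finset.mem_insert.1 hp with rfl | hp
      · exact (hH hg).2
      · simp only [Finset.mem_erase] at hp
        obtain ⟨hpb, hpa, hpS⟩ := hp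
        rw [he ⟨p, hpS⟩, Equiv.swap_apply_of_ne_of_ne (fun e => hpa (congrArg Subtype.val e))
          (fun e => hpb (congrArg Subtype.val e))]
    · rw [Finset.card_insert_of_notMem (by simp [hx]), Finset.card_erase_of_mem (by
        simp [Subtype.coe_ne_coe.2 hab.symm]), Finset.card_erase_of_mem a.2, hS]
  obtain ⟨R, hRS, hR⟩ := Finset.exists_subset_card_eq (show 4 ≤ S.card by omega)
  obtain ⟨a, b, c, d, hab, hac, had, hbc, hbd, hcd, rfl⟩ := Finset.card_eq_four.1 hR
  simp only [Finset.insert_subset_iff, Finset.singleton_subset_iff] at hRS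
  obtain ⟨haS, hbS, hcS, hdS⟩ := hRS
  obtain ⟨o, ho, hs⟩ := key ⟨a, haS⟩ ⟨b, hbS⟩ (fun e => hab (congrArg Subtype.val e))
  obtain ⟨o', ho', hs'⟩ := key ⟨c, hcS⟩ ⟨d, hdS⟩ (fun e => hcd (congrArg Subtype.val e))
  have hsub : insert x (S \ {a, b, c, d}) ⊆ o ∩ o' := by
    intro p hp
    simp only [Finset.mem_insert, Finset.mem_sdiff, Finset.mem_singleton, not_or] at hp
    rw [Finset.mem_inter]
    rcases hp with rfl | ⟨hpS, n1, n2, n3, n4⟩
    · exact ⟨hs (Finset.mem_insert_self _ _), hs' (Finset.mem_insert_self _ _)⟩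
    · exact ⟨hs (Finset.mem_insert_of_mem (by simp [n1, n2, hpS])),
        hs' (Finset.mem_insert_of_mem (by simp [n3, n4, hpS]))⟩
  have heq : o = o' := by
    refine octad_eq_of_five ho ho' (le_trans ?_ (Finset.card_le_card hsub))
    rw [Finset.card_insert_of_notMem (by simp [hx]), Finset.card_sdiff_of_subset (by
      simp [Finset.insert_subset_iff, haS, hbS, hcS, hdS]), hR, hS]
  subst heq
  have hall' : insert x S ⊆ o := by
    intro p hp
    rcases Finset.mem_insert.1 hp with rfl | hp
    · exact hs (Finset.mem_insert_self _ _)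
    by_cases h : p = a ∨ p = b
    · refine hs' (Finset.mem_insert_of_mem ?_)
      rcases h with rfl | rfl
      · simp [hac, had, haS]
      · simp [hbc, hbd, hbS]
    · push Not at h
      exact hs (Finset.mem_insert_of_mem (by simp [h.1, h.2, hp]))
  have := Finset.card_le_card hall'
  rw [Finset.card_insert_of_notMem hx, hS, octads_card ho] at this
  omega

theorem orbit_cases (s : ℕ) (hs : s < 24) (hd : s ∣ 40320) (h7 : s % 7 = 1 ∨ s % 7 = 2)
    (h5 : s % 5 ≤ 3) : s = 1 ∨ s = 2 ∨ s = 8 ∨ s = 15 ∨ s = 16 := by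
  have h0 : 40320 % s = 0 := Nat.mod_eq_zero_of_dvd hd
  interval_cases s <;> omega

theorem orbit_cases' (s : ℕ) (hs : s < 23) (hd : s ∣ 40320) (h7 : s % 7 = 1) (h5 : s % 5 ≤ 2) :
    s = 1 ∨ s = 15 := by
  have h0 : 40320 % s = 0 := Nat.mod_eq_zero_of_dvd hd
  interval_cases s <;> omega

theorem orbit_finset (H : Subgroup (Equiv.Perm GolayPt)) (a : GolayPt) :
    ∃ O : Finset GolayPt, a ∈ O ∧ (∀ g ∈ H, g • O = O) ∧ (∀ b ∈ O, ∃ g ∈ H, g a = b) ∧
      O.card ∣ Nat.card H := by
  classical
  refine ⟨Finset.univ.filter fun b => ∃ g ∈ H, g a = b,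
    Finset.mem_filter.2 ⟨Finset.mem_univ _, 1, one_mem _, rfl⟩, fun g hg => ?_,
    fun b hb => (Finset.mem_filter.1 hb).2, ?_⟩
  · refine smul_eq_of_mapsTo fun b hb => ?_
    obtain ⟨-, k, hk, rfl⟩ := Finset.mem_filter.1 hb
    exact Finset.mem_filter.2 ⟨Finset.mem_univ _, g * k, mul_mem hg hk, rfl⟩
  · have h := card_eq_orbit_mul H a ↑(Finset.univ.filter fun b => ∃ g ∈ H, g a = b)
      (fun σ hσ => by simpa using ⟨σ, hσ, rfl⟩) (fun b hb => by
        simpa [Equiv.Perm.smul_def] using hb)
    rw [Set.ncard_coe_finset] at h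
    exact Dvd.intro _ h.symm

theorem index_253 {H : Subgroup (Equiv.Perm GolayPt)} {x : GolayPt} (hH : H ≤ st1 x)
    (hc : Nat.card H = 40320) :
    (∃ s : Finset GolayPt, s.card = 2 ∧ x ∉ s ∧ ∀ g ∈ H, g • s = s) ∨
      ∃ o ∈ octads, x ∈ o ∧ ∀ g ∈ H, g • o = o := by
  classical
  haveI : Fact (Nat.Prime 7) := ⟨by norm_num⟩
  haveI : Fact (Nat.Prime 5) := ⟨by norm_num⟩
  obtain ⟨u', hu'⟩ := exists_prime_orderOf_dvd_card' (G := H) 7 (by rw [hc]; norm_num)
  obtain ⟨v', hv'⟩ := exists_prime_orderOf_dvd_card' (G := H) 5 (by rw [hc]; norm_num)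
  have hu : orderOf (u' : Equiv.Perm GolayPt) = 7 := by rw [Subgroup.orderOf_coe, hu']
  have hv : orderOf (v' : Equiv.Perm GolayPt) = 5 := by rw [Subgroup.orderOf_coe, hv']
  have hF3 := fixedPts_seven (hH u'.2).1 hu
  have hG4 := fixedPts_five (hH v'.2).1 hv
  have hxu : x ∈ fixedPts u'.1 := mem_fixedPts.2 (hH u'.2).2
  have hxv : x ∈ fixedPts v'.1 := mem_fixedPts.2 (hH v'.2).2
  -- a seven-set complementing one point to an octad
  have hseven : ∀ S : Finset GolayPt, S.card = 7 → x ∉ S → (∀ g ∈ H, g • S = S) →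
      ∃ o ∈ octads, x ∈ o ∧ ∀ g ∈ H, g • o = o := by
    intro S hS hx hinv
    obtain ⟨g, hg, hgf, hg1⟩ : ∃ g ∈ H, (∀ p ∈ S, g p = p) ∧ g ≠ 1 := by
      by_contra! h
      have := (restr_bound (fun g hg => ⟨(hH hg).1, hinv g hg⟩) h).1
      rw [hc, hS] at this
      exact absurd this (by decide)
    obtain ⟨o, ho, hs⟩ := fix_bound (hH hg).1 hg1 (F := insert x S) (fun p hp => by
      rcases Finset.mem_insert.1 hp with rfl | hp
      exacts [(hH hg).2, hgf p hp]) (by rw [Finset.card_insert_of_notMem hx, hS]; norm_num)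
    have he : insert x S = o := Finset.eq_of_subset_of_card_le hs (by
      rw [octads_card ho, Finset.card_insert_of_notMem hx, hS])
    refine ⟨o, ho, he ▸ Finset.mem_insert_self _ _, fun k hk => ?_⟩
    rw [← he, Finset.smul_finset_insert, hinv k hk, Equiv.Perm.smul_def,
      show k x = x from (hH hk).2]
  obtain ⟨a, ha⟩ : ((fixedPts u'.1).erase x).Nonempty := by
    rw [← Finset.card_pos, Finset.card_erase_of_mem hxu]; omega
  obtain ⟨hax, hau⟩ := Finset.mem_erase.1 ha
  obtain ⟨O, haO, hinv, hreach, hdvd⟩ := orbit_finset H a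
  have hxO : x ∉ O := fun h => by
    obtain ⟨g, hg, e⟩ := hreach x h
    exact hax (g.injective (e.trans (hH hg).2.symm))
  have h7 := fixedPts_mod hu O (hinv _ u'.2)
  have h5 := fixedPts_mod hv O (hinv _ v'.2)
  have f7 : (O.filter fun p => u'.1 p = p).card ≤ 2 := by
    refine (Finset.card_le_card (t := (fixedPts u'.1).erase x) fun p hp => ?_).trans
      (by rw [Finset.card_erase_of_mem hxu, hF3])
    obtain ⟨h1, h2⟩ := Finset.mem_filter.1 hp
    exact Finset.mem_erase.2 ⟨fun e => hxO (e ▸ h1), mem_fixedPts.2 h2⟩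
  have f7' : 1 ≤ (O.filter fun p => u'.1 p = p).card :=
    Finset.card_pos.2 ⟨a, Finset.mem_filter.2 ⟨haO, mem_fixedPts.1 hau⟩⟩
  have f5 : (O.filter fun p => v'.1 p = p).card ≤ 3 := by
    refine (Finset.card_le_card (t := (fixedPts v'.1).erase x) fun p hp => ?_).trans
      (by rw [Finset.card_erase_of_mem hxv, hG4])
    obtain ⟨h1, h2⟩ := Finset.mem_filter.1 hp
    exact Finset.mem_erase.2 ⟨fun e => hxO (e ▸ h1), mem_fixedPts.2 h2⟩
  have h23 : O.card ≤ 23 := by
    have := Finset.card_le_card (Finset.subset_univ (insert x O))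
    rw [Finset.card_insert_of_notMem hxO, Finset.card_univ,
      show Fintype.card GolayPt = 24 from rfl] at this
    omega
  have hcompl : ∀ g ∈ H, g • ((Finset.univ \ O).erase x) = (Finset.univ \ O).erase x := by
    intro g hg
    refine smul_eq_of_mapsTo fun p hp => ?_
    simp only [Finset.mem_erase, Finset.mem_sdiff, Finset.mem_univ, true_and] at hp ⊢
    exact ⟨fun e => hp.1 (g.injective (e.trans (hH hg).2.symm)),
      fun e => hp.2 ((smul_mem_iff_of_fix (hinv g hg) p).1 e)⟩
  have hcomplcard : ((Finset.univ \ O).erase x).card = 23 - O.card := by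
    rw [Finset.card_erase_of_mem (Finset.mem_sdiff.2 ⟨Finset.mem_univ _, hxO⟩),
      Finset.card_univ_sdiff, show Fintype.card GolayPt = 24 from rfl]
    omega
  rcases orbit_cases O.card (by omega) (hc ▸ hdvd) (by omega)
      (h5 ▸ (Nat.mod_le _ _).trans f5) with h | h | h | h | h
  · -- two fixed points: impossible
    exfalso
    have hfa : ∀ g ∈ H, g a = a := fun g hg => by
      obtain ⟨b, hb⟩ := Finset.card_eq_one.1 h
      have h1 : g a ∈ O := (smul_mem_iff_of_fix (hinv g hg) a).2 haO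
      rw [hb, Finset.mem_singleton] at h1 haO
      rw [h1, haO]
    obtain ⟨b, hb⟩ : (((fixedPts u'.1).erase x).erase a).Nonempty := by
      rw [← Finset.card_pos, Finset.card_erase_of_mem ha, Finset.card_erase_of_mem hxu]; omega
    simp only [Finset.mem_erase] at hb
    obtain ⟨hba, hbx, hbu⟩ := hb
    obtain ⟨P, hbP, hPinv, hPreach, hPdvd⟩ := orbit_finset H b
    have hxP : x ∉ P := fun h => by
      obtain ⟨g, hg, e⟩ := hPreach x h
      exact hbx (g.injective (e.trans (hH hg).2.symm))
    have haP : a ∉ P := fun h => by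
      obtain ⟨g, hg, e⟩ := hPreach a h
      exact hba (g.injective (e.trans (hfa g hg).symm))
    have p7 := fixedPts_mod hu P (hPinv _ u'.2)
    have p5 := fixedPts_mod hv P (hPinv _ v'.2)
    have hav : a ∈ (fixedPts v'.1).erase x := Finset.mem_erase.2 ⟨hax, mem_fixedPts.2 (hfa _ v'.2)⟩
    have g7 : (P.filter fun p => u'.1 p = p).card ≤ 1 := by
      refine (Finset.card_le_card (t := ((fixedPts u'.1).erase x).erase a) fun p hp => ?_).trans
        (by rw [Finset.card_erase_of_mem ha, Finset.card_erase_of_mem hxu, hF3])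
      obtain ⟨h1, h2⟩ := Finset.mem_filter.1 hp
      exact Finset.mem_erase.2 ⟨fun e => haP (e ▸ h1),
        Finset.mem_erase.2 ⟨fun e => hxP (e ▸ h1), mem_fixedPts.2 h2⟩⟩
    have g7' : 1 ≤ (P.filter fun p => u'.1 p = p).card :=
      Finset.card_pos.2 ⟨b, Finset.mem_filter.2 ⟨hbP, mem_fixedPts.1 hbu⟩⟩
    have g5 : (P.filter fun p => v'.1 p = p).card ≤ 2 := by
      refine (Finset.card_le_card (t := ((fixedPts v'.1).erase x).erase a) fun p hp => ?_).trans
        (by rw [Finset.card_erase_of_mem hav, Finset.card_erase_of_mem hxv, hG4])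
      obtain ⟨h1, h2⟩ := Finset.mem_filter.1 hp
      exact Finset.mem_erase.2 ⟨fun e => haP (e ▸ h1),
        Finset.mem_erase.2 ⟨fun e => hxP (e ▸ h1), mem_fixedPts.2 h2⟩⟩
    have h22 : P.card ≤ 22 := by
      have := Finset.card_le_card (Finset.subset_univ (insert x (insert a P)))
      rw [Finset.card_insert_of_notMem (by simp [hxP, hax.symm]),
        Finset.card_insert_of_notMem haP, Finset.card_univ,
        show Fintype.card GolayPt = 24 from rfl] at this
      omega
    rcases orbit_cases' P.card (by omega) (hc ▸ hPdvd) (by omega)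
      (p5 ▸ (Nat.mod_le _ _).trans g5) with h' | h'
    · -- three fixed points
      have h3 : ∀ g ∈ H, g b = b := fun g hg => by
        obtain ⟨c, hc'⟩ := Finset.card_eq_one.1 h'
        have h1 : g b ∈ P := (smul_mem_iff_of_fix (hPinv g hg) b).2 hbP
        rw [hc', Finset.mem_singleton] at h1 hbP
        rw [h1, hbP]
      have h2 : H ≤ st2 x a := fun g hg => ⟨hH hg, hfa g hg⟩
      obtain ⟨σ, hσ, hσx, hσa⟩ := M24_trans_pairs hax.symm hbx.symm
      have hle : H ≤ st2 x a ⊓ MulAction.stabilizer (Equiv.Perm GolayPt) b :=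
        le_inf h2 fun g hg => h3 g hg
      have hlt := Nat.le_of_dvd Nat.card_pos (Subgroup.card_dvd_of_le hle)
      rw [hc] at hlt
      have hcard := card_eq_orbit_mul (st2 x a) b {p | p ≠ x ∧ p ≠ a}
        (fun g hg => ⟨fun e => hbx (g.injective (e.trans hg.1.2.symm)),
          fun e => hba (g.injective (e.trans hg.2.symm))⟩)
        (fun p hp => by
          obtain ⟨g, hg, he⟩ := exists_M24_map (k := 3) (by norm_num) ![x, a, b] ![x, a, p]
            (by intro i j; fin_cases i <;> fin_cases j <;>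
              simp [hax, hbx, hba, Ne.symm hax, Ne.symm hbx, Ne.symm hba])
            (by intro i j; fin_cases i <;> fin_cases j <;>
              simp [hax, hp.1, hp.2, Ne.symm hax, Ne.symm hp.1, Ne.symm hp.2])
          exact ⟨g, ⟨⟨hg, he 0⟩, he 1⟩, he 2⟩)
      have hn : ({p | p ≠ x ∧ p ≠ a} : Set GolayPt).ncard = 22 := by
        rw [show ({p | p ≠ x ∧ p ≠ a} : Set GolayPt) = ({x, a} : Set GolayPt)ᶜ by
          ext p; simp, Set.ncard_compl, Set.ncard_pair hax.symm, Nat.card_eq_fintype_card]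
        rfl
      rw [st2_card hax.symm, hn] at hcard
      omega
    · -- a seven-set with two fixed points
      set T := ((Finset.univ \ P).erase x).erase a with hT
      have hTinv : ∀ g ∈ H, g • T = T := by
        intro g hg
        refine smul_eq_of_mapsTo fun p hp => ?_
        simp only [hT, Finset.mem_erase, Finset.mem_sdiff, Finset.mem_univ, true_and] at hp ⊢
        exact ⟨fun e => hp.1 (g.injective (e.trans (hfa g hg).symm)),
          fun e => hp.2.1 (g.injective (e.trans (hH hg).2.symm)),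
          fun e => hp.2.2 ((smul_mem_iff_of_fix (hPinv g hg) p).1 e)⟩
      have hTc : T.card = 7 := by
        rw [hT, Finset.card_erase_of_mem (by simp [haP, hax]), Finset.card_erase_of_mem
          (by simp [hxP]), Finset.card_univ_sdiff, show Fintype.card GolayPt = 24 from rfl, h']
      have hk : ∀ g ∈ H, (∀ p ∈ T, g p = p) → g = 1 := by
        intro g hg hf
        by_contra h1
        have h8 := fixedPts_le_eight (hH hg).1 h1
        have hsub : insert x (insert a T) ⊆ fixedPts g := Finset.insert_subset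
          (mem_fixedPts.2 (hH hg).2) (Finset.insert_subset (mem_fixedPts.2 (hfa g hg))
            fun p hp => mem_fixedPts.2 (hf p hp))
        have := Finset.card_le_card hsub
        rw [Finset.card_insert_of_notMem (by simp [hT, hax.symm]),
          Finset.card_insert_of_notMem (by simp [hT]), hTc] at this
        omega
      have := (restr_bound (fun g hg => ⟨(hH hg).1, hTinv g hg⟩) hk).1
      rw [hc, hTc] at this
      exact absurd this (by decide)
  · exact Or.inl ⟨O, h, hxO, hinv⟩
  · exact (eight_set_false hH hc h hxO hinv).elim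
  · exact (eight_set_false hH hc (by rw [hcomplcard, h]) (by simp) hcompl).elim
  · exact Or.inr (hseven _ (by rw [hcomplcard, h]) (by simp) hcompl)

theorem duad_stab_card {s : Finset GolayPt} {x : GolayPt} (hs : s.card = 2) (hx : x ∉ s) :
    Nat.card ↥(st1 x ⊓ MulAction.stabilizer (Equiv.Perm GolayPt) s) = 40320 := by
  classical
  have h := card_eq_orbit_mul (st1 x) s
    (((Finset.univ.erase x).powersetCard 2 : Finset (Finset GolayPt)) : Set (Finset GolayPt))
    (fun g hg => by
      rw [Finset.mem_coe, Finset.mem_powersetCard, Finset.card_smul_finset]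
      refine ⟨fun p hp => ?_, hs⟩
      obtain ⟨q, hq, rfl⟩ := Finset.mem_smul_finset.1 hp
      exact Finset.mem_erase.2 ⟨fun e => hx (g.injective (e.trans hg.2.symm) ▸ hq), Finset.mem_univ _⟩)
    (fun t ht => by
      rw [Finset.mem_coe, Finset.mem_powersetCard] at ht
      obtain ⟨a, b, hab, rfl⟩ := Finset.card_eq_two.1 hs
      obtain ⟨c, d, hcd, rfl⟩ := Finset.card_eq_two.1 ht.2
      simp only [Finset.mem_insert, Finset.mem_singleton, not_or] at hx
      obtain ⟨hc', hd'⟩ : c ≠ x ∧ d ≠ x :=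
        ⟨(Finset.mem_erase.1 (ht.1 (by simp))).1, (Finset.mem_erase.1 (ht.1 (by simp))).1⟩
      obtain ⟨g, hg, he⟩ := exists_M24_map (k := 3) (by norm_num) ![x, a, b] ![x, c, d]
        (by intro i j; fin_cases i <;> fin_cases j <;>
          simp [hab, hx.1, hx.2, Ne.symm hab, Ne.symm hx.1, Ne.symm hx.2])
        (by intro i j; fin_cases i <;> fin_cases j <;>
          simp [hcd, hc', hd', Ne.symm hcd, Ne.symm hc', Ne.symm hd'])
      refine ⟨g, ⟨hg, he 0⟩, ?_⟩
      simp only [Finset.smul_finset_insert, Finset.smul_finset_singleton, Equiv.Perm.smul_def]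
      rw [show g a = c from he 1, show g b = d from he 2])
  rw [st1_card, Set.ncard_coe_finset, Finset.card_powersetCard,
    Finset.card_erase_of_mem (Finset.mem_univ _), Finset.card_univ,
    show Fintype.card GolayPt = 24 from rfl, show Nat.choose (24 - 1) 2 = 253 by decide] at h
  change 10200960 = 253 * _ at h
  omega

theorem octad_pt_card {o : Finset GolayPt} {x : GolayPt} (ho : o ∈ octads) (hx : x ∈ o) :
    Nat.card ↥(st1 x ⊓ MulAction.stabilizer (Equiv.Perm GolayPt) o) = 40320 := by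
  classical
  have h := card_eq_orbit_mul (stSet o) x (o : Set GolayPt)
    (fun g hg => (smul_mem_iff_of_fix hg.2 x).2 hx)
    (fun y hy => by
      obtain ⟨g, hg, he⟩ := six_in_octad_induce ho (Finset.singleton_subset_iff.2 hx)
        (by simp) (Equiv.refl _)
      obtain ⟨e, hev, hex⟩ : ∃ e ∈ alternatingGroup o, e ⟨x, hx⟩ = ⟨y, hy⟩ := by
        by_cases hxy : (⟨x, hx⟩ : o) = ⟨y, hy⟩
        · exact ⟨1, one_mem _, hxy⟩
        · obtain ⟨c, hc⟩ : (((Finset.univ : Finset o).erase ⟨x, hx⟩).erase ⟨y, hy⟩).Nonempty := by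
            rw [← Finset.card_pos, Finset.card_erase_of_mem (Finset.mem_erase.2
              ⟨Ne.symm hxy, Finset.mem_univ _⟩), Finset.card_erase_of_mem (Finset.mem_univ _),
              Finset.card_univ, Fintype.card_coe, octads_card ho]
            norm_num
          simp only [Finset.mem_erase] at hc
          refine ⟨Equiv.swap ⟨x, hx⟩ ⟨y, hy⟩ * Equiv.swap ⟨y, hy⟩ c, ?_, ?_⟩
          · rw [Equiv.Perm.mem_alternatingGroup, map_mul, Equiv.Perm.sign_swap hxy,
              Equiv.Perm.sign_swap (Ne.symm hc.1)]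
            rfl
          · rw [Equiv.Perm.mul_apply, Equiv.swap_apply_of_ne_of_ne hxy (Ne.symm hc.2.1),
              Equiv.swap_apply_left]
      obtain ⟨g, hg, hgo, hgx⟩ := octad_induce ho hev
      exact ⟨g, ⟨hg, hgo⟩, by rw [Equiv.Perm.smul_def, hgx ⟨x, hx⟩, hex]⟩)
  have he : stSet o ⊓ MulAction.stabilizer (Equiv.Perm GolayPt) x =
      st1 x ⊓ MulAction.stabilizer (Equiv.Perm GolayPt) o := by
    simp only [stSet, st1, inf_assoc, inf_comm (MulAction.stabilizer (Equiv.Perm GolayPt) o)]
  rw [stSet_octad_card ho, Set.ncard_coe_finset, octads_card ho, he] at h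
  omega

end Cfsg.Agent.Lib.Golay
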