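import Cfsg.Agent.Lib.Golay.M24Index
import Cfsg.Agent.Lib.Golay.M22Index
import Cfsg.Agent.Lib.Golay.M23Index
import Cfsg.Agent.Lib.Golay.M23TriplesData
import Cfsg.Agent.Lib.TripleGen.Scott
import Cfsg.Prelude.Def_Spor_Mathieu

/-! # Generation of the point stabiliser by triples of prime order -/

set_option autoImplicit false
set_option maxRecDepth 100000

namespace Cfsg.Agent.Lib.Golay

open Cfsg
open scoped Pointwise

theorem toPerm_iter_pt {w : ℕ} (hv : valid w = true) : ∀ k, ∀ i < 24,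
    (fun j => img w j)^[k] i < 24 ∧ (toPerm w ^ k) (pt i) = pt ((fun j => img w j)^[k] i)
  | 0, i, hi => ⟨hi, by simp⟩
  | k + 1, i, hi => by
    obtain ⟨h1, h2⟩ := toPerm_iter_pt hv k i hi
    rw [Function.iterate_succ_apply']
    exact ⟨img_lt hv h1, by
      rw [pow_succ', Equiv.Perm.mul_apply, h2, toPerm_pt hv h1]⟩

/-- A subgroup of the point stabiliser above a Sylow 23-subgroup that it does not normalise. -/
theorem p23_over {K : Subgroup (Equiv.Perm GolayPt)} (hK : K ≤ st1 none) (hP : p23 ≤ K)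
    {x : Equiv.Perm GolayPt} (hx : x ∈ K)
    (hxn : x ∉ Subgroup.normalizer (p23 : Set (Equiv.Perm GolayPt))) : K = st1 none := by
  classical
  haveI : Fact (Nat.Prime 23) := ⟨by norm_num⟩
  obtain ⟨m, hm⟩ : 23 ∣ Nat.card K := p23_card ▸ Subgroup.card_dvd_of_le hP
  have hm2 : ¬ 23 ∣ m := fun h => by
    have h2 := (Subgroup.card_dvd_of_le hK)
    rw [hm, st1_card] at h2
    have := (Nat.mul_dvd_mul_left 23 h).trans h2
    norm_num at this
  obtain ⟨a, ha, -, -⟩ := sylow_count hP p23_card hm hm2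
  have hN : K ⊓ Subgroup.normalizer (p23 : Set (Equiv.Perm GolayPt)) ≤ frob253 :=
    frob253_eq ▸ inf_le_inf_right _ hK
  have ha11 : a ∣ 11 := by
    have := Subgroup.card_dvd_of_le hN
    rw [ha, frob253_card] at this
    exact Nat.dvd_of_mul_dvd_mul_left (show 0 < 23 by norm_num) this
  rcases (Nat.dvd_prime (by norm_num : Nat.Prime 11)).1 ha11 with rfl | rfl
  · exfalso
    have hN' : Nat.card (Subgroup.normalizer (p23.subgroupOf K : Set K)) = 23 := by
      rw [norm_subgroupOf_card hP, ha]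
    have hPc : Nat.card (p23.subgroupOf K) = 23 := by
      rw [Nat.card_congr (Subgroup.subgroupOfEquivOfLe hP).toEquiv, p23_card]
    let S : Sylow 23 K := Sylow.ofCard (p23.subgroupOf K) (by
      rw [hPc, hm, Nat.factorization_mul (by norm_num) (by rintro rfl; exact hm2 (dvd_zero _)),
        Finsupp.add_apply, Nat.Prime.factorization_self (by norm_num),
        Nat.factorization_eq_zero_of_not_dvd hm2, add_zero, pow_one])
    have hle : Subgroup.normalizer (p23.subgroupOf K : Set K) ≤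
        Subgroup.centralizer (p23.subgroupOf K : Set K) := by
      rw [← Subgroup.eq_of_le_of_card_ge Subgroup.le_normalizer (by rw [hN', hPc])]
      intro g hg
      rw [Subgroup.mem_centralizer_iff]
      intro h hh
      obtain ⟨i, hi⟩ : (g : Equiv.Perm GolayPt) ∈ Subgroup.zpowers trT := hg
      obtain ⟨j, hj⟩ : (h : Equiv.Perm GolayPt) ∈ Subgroup.zpowers trT := hh
      refine Subtype.ext ?_
      simp only [Subgroup.coe_mul, ← hi, ← hj]
      exact ((Commute.refl trT).zpow_zpow j i).eq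
    have hcomp := MonoidHom.ker_transferSylow_isComplement' S hle
    have hcard := hcomp.card_mul
    rw [show Nat.card (S : Subgroup K) = 23 from hPc, hm] at hcard
    obtain ⟨M, hMn, hMm⟩ : ∃ M : Subgroup K, M.Normal ∧ Nat.card M = m :=
      ⟨_, MonoidHom.normal_ker (MonoidHom.transferSylow S hle), by omega⟩
    set M' := M.map K.subtype with hM'
    have hM'c : Nat.card M' = m := by
      rw [hM', Subgroup.card_map_of_injective K.subtype_injective, hMm]
    have hM'K : M' ≤ K := Subgroup.map_subtype_le _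
    have hconj : ∀ g ∈ K, ∀ k ∈ M', g * k * g⁻¹ ∈ M' := by
      rintro g hg _ ⟨k, hk, rfl⟩
      refine ⟨(⟨g, hg⟩ : K) * k * (⟨g, hg⟩ : K)⁻¹, hMn.conj_mem k hk (⟨g, hg⟩ : K), ?_⟩
      simp
    let F : GolayPt → Finset GolayPt := fun p => Finset.univ.filter fun q => ∃ g ∈ M', g p = q
    have hF : ∀ g ∈ K, ∀ p, g • F p = F (g p) := by
      intro g hg p
      ext q
      simp only [F, Finset.mem_smul_finset, Finset.mem_filter, Finset.mem_univ, true_and,
        Equiv.Perm.smul_def]
      constructor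
      · rintro ⟨_, ⟨k, hk, rfl⟩, rfl⟩
        exact ⟨g * k * g⁻¹, hconj g hg k hk, by simp⟩
      · rintro ⟨k, hk, rfl⟩
        refine ⟨g⁻¹ (k (g p)), ⟨g⁻¹ * k * g, ?_, by simp⟩, by simp⟩
        have := hconj g⁻¹ (inv_mem hg) k hk
        rwa [inv_inv] at this
    have hreach : ∀ p, p ≠ none → ∃ g ∈ K, g (some 0) = p := fun p hp => by
      cases p with
      | none => exact absurd rfl hp
      | some z => exact ⟨trT ^ z.val, pow_mem (hP (Subgroup.mem_zpowers _)) _, trT_pow_zero z⟩
    have hconst : ∀ p, p ≠ none → (F p).card = (F (some 0)).card := fun p hp => by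
      obtain ⟨g, hg, rfl⟩ := hreach p hp
      rw [← hF g hg, Finset.card_smul_finset]
    have hblk := partition_dvd (F := F) (k := (F (some 0)).card)
      (S := Finset.univ.erase none) (fun p hp => hconst p (Finset.mem_erase.1 hp).1)
      (fun p _ => Finset.mem_filter.2 ⟨Finset.mem_univ _, 1, one_mem _, rfl⟩)
      (fun p hp q hq => by
        obtain ⟨-, g, hg, rfl⟩ := Finset.mem_filter.1 hq
        exact Finset.mem_erase.2 ⟨fun e => (Finset.mem_erase.1 hp).1
          (g.injective (e.trans (hK (hM'K hg)).2.symm)), Finset.mem_univ _⟩)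
      (fun p _ q hq => by
        obtain ⟨-, g, hg, rfl⟩ := Finset.mem_filter.1 hq
        ext q
        simp only [F, Finset.mem_filter, Finset.mem_univ, true_and]
        exact ⟨fun ⟨k, hk, e⟩ => ⟨k * g, mul_mem hk hg, e⟩,
          fun ⟨k, hk, e⟩ => ⟨k * g⁻¹, mul_mem hk (inv_mem hg), by simp [e]⟩⟩)
    have h23 : (Finset.univ.erase (none : GolayPt)).card = 23 := by decide
    rw [h23] at hblk
    have hdiv : (F (some 0)).card ∣ m := by
      have h := card_eq_orbit_mul M' (some 0 : GolayPt) ↑(F (some 0))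
        (fun g hg => by simp only [F, Finset.coe_filter]; exact ⟨Finset.mem_univ _, g, hg, rfl⟩)
        (fun q hq => (Finset.mem_filter.1 (Finset.mem_coe.1 hq)).2)
      rw [Set.ncard_coe_finset, hM'c] at h
      exact Dvd.intro _ h.symm
    rcases (Nat.dvd_prime (by norm_num : Nat.Prime 23)).1 hblk with h | h
    · have hbot : M' = ⊥ := (Subgroup.eq_bot_iff_forall _).2 fun g hg => Equiv.ext fun p => by
        by_cases hp : p = none
        · subst hp; exact (hK (hM'K hg)).2
        obtain ⟨q, hq⟩ := Finset.card_eq_one.1 ((hconst p hp).trans h)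
        have h1 : g p ∈ F p := Finset.mem_filter.2 ⟨Finset.mem_univ _, g, hg, rfl⟩
        have h2 : p ∈ F p := Finset.mem_filter.2 ⟨Finset.mem_univ _, 1, one_mem _, rfl⟩
        rw [hq, Finset.mem_singleton] at h1 h2
        rw [h1, Equiv.Perm.one_apply, h2]
      rw [hbot, Subgroup.card_bot] at hM'c
      have hKP : p23 = K := Subgroup.eq_of_le_of_card_ge hP (by rw [p23_card, hm, ← hM'c])
      exact hxn (Subgroup.le_normalizer (hKP ▸ hx))
    · exact hm2 (h ▸ hdiv)
  · have hfrob : frob253 ≤ K := by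
      rw [← Subgroup.eq_of_le_of_card_ge hN (by rw [ha, frob253_card])]
      exact inf_le_left
    rcases frob253_between hfrob hK with h | h
    · subst h
      exact absurd ((frob253_eq ▸ hx : x ∈ st1 none ⊓
        Subgroup.normalizer (p23 : Set (Equiv.Perm GolayPt))).2) hxn
    · exact h

theorem gen_of_23 {K : Subgroup (Equiv.Perm GolayPt)} (hK : K ≤ st1 none)
    {w c : Equiv.Perm GolayPt} (hw : w ∈ K) (hw23 : orderOf w = 23) (hc : c ∈ K)
    (hcn : ∀ k < 23, c * w ≠ w ^ k * c) : K = st1 none := by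
  classical
  haveI : Fact (Nat.Prime 23) := ⟨by norm_num⟩
  let w' : st1 none := ⟨w, hK hw⟩
  let t' : st1 none := ⟨trT, trT_mem⟩
  have hord : ∀ g : st1 none, orderOf g = 23 → Nat.card (Subgroup.zpowers g) =
      23 ^ (Nat.card (st1 none)).factorization 23 := by
    intro g hg
    rw [Nat.card_zpowers, hg, st1_card, show (10200960 : ℕ) = 23 * 443520 by norm_num,
      Nat.factorization_mul (by norm_num) (by norm_num), Finsupp.add_apply,
      Nat.Prime.factorization_self (by norm_num),
      Nat.factorization_eq_zero_of_not_dvd (by norm_num), add_zero, pow_one]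
  let S1 : Sylow 23 (st1 none) := Sylow.ofCard (Subgroup.zpowers w')
    (hord w' (by rw [← Subgroup.orderOf_coe]; exact hw23))
  let S2 : Sylow 23 (st1 none) := Sylow.ofCard (Subgroup.zpowers t')
    (hord t' (by rw [← Subgroup.orderOf_coe]; exact orderOf_trT))
  obtain ⟨σ, hσ⟩ := MulAction.exists_smul_eq (st1 none) S1 S2
  have hmem : σ * w' * σ⁻¹ ∈ (S2 : Subgroup (st1 none)) := by
    rw [← hσ]
    exact Subgroup.smul_mem_pointwise_smul w' (MulAut.conj σ) _ (Subgroup.mem_zpowers w')
  obtain ⟨i, hi⟩ : σ * w' * σ⁻¹ ∈ Subgroup.zpowers t' := hmem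
  set s : Equiv.Perm GolayPt := σ.1 with hs
  have hw2 : s * w * s⁻¹ ∈ p23 := ⟨i, congrArg Subtype.val hi⟩
  have hw2o : orderOf (MulAut.conj s w) = 23 := by rw [MulEquiv.orderOf_eq, hw23]
  set K' := K.map (MulAut.conj s).toMonoidHom with hK'
  have hK'le : K' ≤ st1 none := by
    rintro _ ⟨g, hg, rfl⟩
    exact mul_mem (mul_mem σ.2 (hK hg)) (inv_mem σ.2)
  have hP' : p23 ≤ K' := by
    have : Subgroup.zpowers (MulAut.conj s w) = p23 :=
      Subgroup.eq_of_le_of_card_ge (Subgroup.zpowers_le.2 hw2)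
        (by rw [p23_card, Nat.card_zpowers, hw2o])
    rw [← this, Subgroup.zpowers_le]
    exact Subgroup.mem_map_of_mem _ hw
  have hx : MulAut.conj s c ∈ K' := Subgroup.mem_map_of_mem _ hc
  have hxn : MulAut.conj s c ∉ Subgroup.normalizer (p23 : Set (Equiv.Perm GolayPt)) := by
    intro h
    have h1 : Subgroup.zpowers (MulAut.conj s w) = p23 :=
      Subgroup.eq_of_le_of_card_ge (Subgroup.zpowers_le.2 hw2)
        (by rw [p23_card, Nat.card_zpowers, hw2o])
    have h2 := (Subgroup.mem_normalizer_iff.1 h (MulAut.conj s w)).1 hw2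
    rw [← h1, ← map_inv, ← map_mul, ← map_mul] at h2
    obtain ⟨k, hk⟩ := Subgroup.mem_zpowers_iff.1 h2
    rw [← map_zpow] at hk
    have hk' := (MulAut.conj s).injective hk
    refine hcn (k % 23).toNat (by omega) ?_
    rw [← zpow_natCast, Int.toNat_of_nonneg (by omega),
      show (23 : ℤ) = ((orderOf w : ℕ) : ℤ) by rw [hw23]; rfl, zpow_mod_orderOf, hk']
    group
  have h := p23_over hK'le hP' hx hxn
  refine Subgroup.eq_of_le_of_card_ge hK (le_of_eq ?_)
  rw [← h, hK', Subgroup.card_map_of_injective (MulAut.conj s).injective]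

/-- A certificate for a generating triple. -/
def tripleOK (e : (ℕ × ℕ × ℕ) × (ℕ × ℕ × ℕ) × (ℕ × List (ℕ × ℕ × ℕ) × ℕ)) : Bool :=
  let (p, q, r) := e.1
  let (x, y, z) := e.2.1
  let (w, st, cj) := e.2.2
  let E := [x, y] ++ st.map fun s => s.2.2
  let c := if cj = 0 then x else y
  inM24 x && img x 23 == 23 && powId p x && !(powId 1 x) &&
  inM24 y && img y 23 == 23 && powId q y && !(powId 1 y) &&
  isComp x y z && powId r z && !(powId 1 z) &&
  progOK E 2 st && E.elem w && valid w && powId 23 w && !(powId 1 w) &&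
  (List.range 23).all fun k => idx.any fun i =>
    img c (img w i) != (fun j => img w j)^[k] (img c i)

theorem triples_ok : tripleData.all tripleOK = true := by decide +kernel

theorem order_of_powId {x p : ℕ} (hp : p.Prime) (hv : valid x = true) (h : powId p x = true)
    (h1 : powId 1 x = false) : orderOf (toPerm x) = p := by
  haveI : Fact p.Prime := ⟨hp⟩
  refine orderOf_eq_prime (pow_eq_one_of_img hv fun i hi => ?_) fun e => ?_
  · simp only [powId, List.all_eq_true, beq_iff_eq] at h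
    exact h i (mem_idx.2 hi)
  · exact Bool.false_ne_true (h1.symm.trans (powId_of_pow hv (by rw [e, one_pow])))

theorem toPerm_none {x : ℕ} (hv : valid x = true) (h : img x 23 = 23) :
    toPerm x none = none := by
  rw [show (none : GolayPt) = pt 23 from rfl, toPerm_pt hv (by norm_num), h]

theorem triple_exists {p q r : ℕ} (hp : p.Prime) (hq : q.Prime) (hr : r.Prime)
    (hmem : (p, q, r) ∈ tripleData.map Prod.fst) :
    ∃ x y z : Cfsg.Spor.M23, orderOf x = p ∧ orderOf y = q ∧ orderOf z = r ∧ x * y * z = 1 ∧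
      Subgroup.closure {x, y} = ⊤ := by
  classical
  obtain ⟨⟨⟨p', q', r'⟩, ⟨x, y, z⟩, ⟨w, st, cj⟩⟩, he, heq⟩ := List.mem_map.1 hmem
  obtain ⟨rfl, rfl, rfl⟩ : p' = p ∧ q' = q ∧ r' = r := by simpa using heq
  have hok := List.all_eq_true.1 triples_ok _ he
  simp only [tripleOK, Bool.and_eq_true, Bool.not_eq_true', beq_iff_eq] at hok
  obtain ⟨⟨⟨⟨⟨⟨⟨⟨⟨⟨⟨⟨⟨⟨⟨⟨hxM, hx23⟩, hxp⟩, hx1⟩, hyM⟩, hy23⟩, hyq⟩, hy1⟩, hz⟩, hzr⟩, hz1⟩,
    hprog⟩, hwE⟩, hwv⟩, hw23⟩, hw1⟩, hconj⟩ := hok
  have hxv := valid_of_inM24 hxM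
  have hyv := valid_of_inM24 hyM
  have hzv : valid z = true := by
    simp only [isComp, Bool.and_eq_true] at hz; exact hz.1.2
  have hxm : toPerm x ∈ st1 none := ⟨toPerm_mem_M24 hxM, toPerm_none hxv hx23⟩
  have hym : toPerm y ∈ st1 none := ⟨toPerm_mem_M24 hyM, toPerm_none hyv hy23⟩
  set K := Subgroup.closure ({toPerm x, toPerm y} : Set (Equiv.Perm GolayPt)) with hKdef
  have hK : K ≤ st1 none := (Subgroup.closure_le _).2 (by
    rintro g (rfl | rfl)
    exacts [hxm, hym])
  have hxy : ∀ g ∈ [x, y], toPerm g ∈ K := by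
    intro g hg
    simp only [List.mem_cons, List.not_mem_nil, or_false] at hg
    rcases hg with rfl | rfl
    exacts [Subgroup.subset_closure (Set.mem_insert _ _),
      Subgroup.subset_closure (Set.mem_insert_of_mem _ rfl)]
  have hwK : toPerm w ∈ K := prog_mem K [x, y] st (by simpa using hprog) hxy
    (List.elem_iff.1 hwE)
  have hcK : toPerm (if cj = 0 then x else y) ∈ K := hxy _ (by split_ifs <;> simp)
  have hcv : valid (if cj = 0 then x else y) = true := by split_ifs <;> assumption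
  have hKtop : K = st1 none := by
    refine gen_of_23 hK hwK (order_of_powId (by norm_num) hwv hw23 hw1) hcK fun k hk e => ?_
    have := List.all_eq_true.1 hconj k (List.mem_range.2 hk)
    simp only [List.any_eq_true, bne_iff_ne] at this
    obtain ⟨i, hi, hne⟩ := this
    have hi' := mem_idx.1 hi
    have h1 := DFunLike.congr_fun e (pt i)
    rw [Equiv.Perm.mul_apply, Equiv.Perm.mul_apply, toPerm_pt hwv hi',
      toPerm_pt hcv (img_lt hwv hi'), toPerm_pt hcv hi',
      (toPerm_iter_pt hwv k _ (img_lt hcv hi')).2] at h1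
    have h2 := congrArg ix h1
    rw [ix_pt (img_lt hcv (img_lt hwv hi')),
      ix_pt (toPerm_iter_pt hwv k _ (img_lt hcv hi')).1] at h2
    exact hne h2
  have hxy' : toPerm z = toPerm x * toPerm y := toPerm_isComp hz
  refine ⟨⟨toPerm x, hxm⟩, ⟨toPerm y, hym⟩, (⟨toPerm x, hxm⟩ * ⟨toPerm y, hym⟩)⁻¹,
    by rw [← Subgroup.orderOf_coe]; exact order_of_powId hp hxv hxp hx1,
    by rw [← Subgroup.orderOf_coe]; exact order_of_powId hq hyv hyq hy1, ?_,
    mul_inv_cancel _, ?_⟩
  · rw [orderOf_inv, ← Subgroup.orderOf_coe]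
    show orderOf (toPerm x * toPerm y) = r'
    rw [← hxy']
    exact order_of_powId hr hzv hzr hz1
  · refine Subgroup.map_injective Cfsg.Spor.M23.subtype_injective ?_
    rw [MonoidHom.map_closure, Set.image_pair, ← MonoidHom.range_eq_map, Subgroup.range_subtype]
    exact hKtop

/-! ### Non-existence -/

/-- An upper bound for the moved part of an element of prime order fixing a point. -/
def movedBound (p : ℕ) : ℕ :=
  if p = 2 then 8 else if p = 3 then 12 else if p = 5 then 16 else if p = 7 then 18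
  else if p = 11 then 20 else 22

theorem moved_le {g : Equiv.Perm GolayPt} (hg : g ∈ st1 none) {p : ℕ} (hp : orderOf g = p)
    (hmem : p ∈ [2, 3, 5, 7, 11, 23]) :
    Module.finrank ℚ (TripleGen.moved g) ≤ movedBound p := by
  have hone : 1 ≤ (fixedPts g).card := Finset.card_pos.2 ⟨none, mem_fixedPts.2 hg.2⟩
  have hcard : Fintype.card GolayPt = 24 := rfl
  simp only [List.mem_cons, List.not_mem_nil, or_false] at hmem
  rcases hmem with rfl | rfl | rfl | rfl | rfl | rfl
  · have h8 : (fixedPts g).card = 8 := by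
      obtain ⟨_, _, ⟨h, -⟩ | ⟨h, -⟩⟩ := inv_classes hg.1 hp <;> omega
    have := TripleGen.finrank_moved_le g hp (f := 8) (c := 16) h8.ge (by rw [hcard]; norm_num)
    simp only [movedBound, if_true]; omega
  · have h6 : (fixedPts g).card = 6 := by
      obtain ⟨_, _, ⟨h, -⟩ | ⟨h, -⟩⟩ := three_classes hg.1 hp <;> omega
    have := TripleGen.finrank_moved_le g hp (f := 6) (c := 12) h6.ge (by rw [hcard]; norm_num)
    simp [movedBound]; omega
  · have := TripleGen.finrank_moved_le g hp (f := 4) (c := 8) (fixedPts_five hg.1 hp).ge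
      (by rw [hcard]; norm_num)
    simp [movedBound]; omega
  · have := TripleGen.finrank_moved_le g hp (f := 3) (c := 6) (fixedPts_seven hg.1 hp).ge
      (by rw [hcard]; norm_num)
    simp [movedBound]; omega
  · have := TripleGen.finrank_moved_le g hp (f := 1) (c := 4) hone (by rw [hcard]; norm_num)
    simp [movedBound]; omega
  · have := TripleGen.finrank_moved_le g hp (f := 1) (c := 2) hone (by rw [hcard]; norm_num)
    simp [movedBound]; omega

theorem triple_false_bound {p q r : ℕ} {x y z : Cfsg.Spor.M23} (hx : orderOf x = p)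
    (hy : orderOf y = q) (hz : orderOf z = r) (hxyz : x * y * z = 1)
    (hgen : Subgroup.closure {x, y} = ⊤) (hp : p ∈ [2, 3, 5, 7, 11, 23])
    (hq : q ∈ [2, 3, 5, 7, 11, 23]) (hr : r ∈ [2, 3, 5, 7, 11, 23]) :
    44 ≤ movedBound p + movedBound q + movedBound r := by
  have hK : Subgroup.closure ({x.1, y.1} : Set (Equiv.Perm GolayPt)) = st1 none := by
    have h := congrArg (Subgroup.map Cfsg.Spor.M23.subtype) hgen
    rw [MonoidHom.map_closure, Set.image_pair, ← MonoidHom.range_eq_map,
      Subgroup.range_subtype] at h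
    exact h
  have h := TripleGen.scott (congrArg Subtype.val hxyz : x.1 * y.1 * z.1 = 1) none (some 0)
    x.2.2 y.2.2 fun q hq => by
      cases q with
      | none => exact absurd rfl hq
      | some t => exact ⟨trT ^ t.val, hK ▸ pow_mem trT_mem _, trT_pow_zero t⟩
  have hc : Fintype.card GolayPt = 24 := rfl
  have h1 := moved_le (g := x.1) x.2 (by rw [Subgroup.orderOf_coe, hx]) hp
  have h2 := moved_le (g := y.1) y.2 (by rw [Subgroup.orderOf_coe, hy]) hq
  have h3 := moved_le (g := z.1) z.2 (by rw [Subgroup.orderOf_coe, hz]) hr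
  omega

theorem triple_split : ∀ p ∈ [2, 3, 5, 7, 11, 23], ∀ q ∈ [2, 3, 5, 7, 11, 23],
    ∀ r ∈ [2, 3, 5, 7, 11, 23], p ≤ q → q ≤ r → ¬ (p = 2 ∧ q = 2) →
      if (p = 2 ∧ q = 3) ∨ (p = 2 ∧ q = 5 ∧ r = 5) ∨ (p = 2 ∧ q = 5 ∧ r = 7) ∨
          (p = 3 ∧ q = 3 ∧ r ≤ 7) then movedBound p + movedBound q + movedBound r < 44
      else (p, q, r) ∈ tripleData.map Prod.fst := by
  decide +kernel

theorem prime_mem {p : ℕ} (hp : p.Prime) (h : p ∣ 10200960) : p ∈ [2, 3, 5, 7, 11, 23] := by
  rw [show (10200960 : ℕ) = 2 ^ 7 * 3 ^ 2 * 5 * 7 * 11 * 23 by norm_num] at h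
  simp only [hp.dvd_mul] at h
  rcases h with ((((h | h) | h) | h) | h) | h
  · rw [(Nat.prime_dvd_prime_iff_eq hp Nat.prime_two).1 (hp.dvd_of_dvd_pow h)]; simp
  · rw [(Nat.prime_dvd_prime_iff_eq hp Nat.prime_three).1 (hp.dvd_of_dvd_pow h)]; simp
  · rw [(Nat.prime_dvd_prime_iff_eq hp Nat.prime_five).1 h]; simp
  · rw [(Nat.prime_dvd_prime_iff_eq hp (by norm_num)).1 h]; simp
  · rw [(Nat.prime_dvd_prime_iff_eq hp (by norm_num)).1 h]; simp
  · rw [(Nat.prime_dvd_prime_iff_eq hp (by norm_num)).1 h]; simp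

end Cfsg.Agent.Lib.Golay
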