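import Cfsg.Agent.Lib.Golay.M23Index
import Cfsg.Agent.Lib.Golay.L223
import Cfsg.Agent.Lib.Golay.Families

/-! # Subgroups of indices 759, 276, 1771 and 253 -/

set_option autoImplicit false
set_option maxRecDepth 100000

namespace Cfsg.Agent.Lib.Golay

open Cfsg
open scoped Pointwise

/-! ### General facts -/

/-- The part of a subgroup fixing a point. -/
def ptPart (H : Subgroup (Equiv.Perm GolayPt)) (a : GolayPt) : Subgroup (Equiv.Perm GolayPt) :=
  H ⊓ MulAction.stabilizer (Equiv.Perm GolayPt) a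

theorem mem_ptPart {H : Subgroup (Equiv.Perm GolayPt)} {a : GolayPt} {g : Equiv.Perm GolayPt} :
    g ∈ ptPart H a ↔ g ∈ H ∧ g a = a := Iff.rfl

theorem ptPart_le {H : Subgroup (Equiv.Perm GolayPt)} (hH : H ≤ M24) (a : GolayPt) :
    ptPart H a ≤ st1 a := fun _ hg => ⟨hH hg.1, hg.2⟩

theorem orbit_mul (H : Subgroup (Equiv.Perm GolayPt)) (a : GolayPt) :
    ∃ O : Finset GolayPt, a ∈ O ∧ (∀ g ∈ H, g • O = O) ∧ (∀ b ∈ O, ∃ g ∈ H, g a = b) ∧
      Nat.card H = O.card * Nat.card (ptPart H a) := by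
  classical
  obtain ⟨O, haO, hinv, hreach, -⟩ := orbit_finset H a
  refine ⟨O, haO, hinv, hreach, ?_⟩
  have h := card_eq_orbit_mul H a (O : Set GolayPt)
    (fun σ hσ => (smul_mem_iff_of_fix (hinv σ hσ) a).2 haO)
    (fun b hb => hreach b hb)
  rwa [Set.ncard_coe_finset] at h

theorem exists_order {H : Subgroup (Equiv.Perm GolayPt)} (p : ℕ) [Fact p.Prime]
    (h : p ∣ Nat.card H) : ∃ g ∈ H, orderOf g = p := by
  obtain ⟨g, hg⟩ := exists_prime_orderOf_dvd_card' (G := H) p h
  exact ⟨g.1, g.2, by rw [Subgroup.orderOf_coe, hg]⟩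

theorem fix_small {g : Equiv.Perm GolayPt} {p : ℕ} [Fact p.Prime] (ho : orderOf g = p)
    {O : Finset GolayPt} (hO : g • O = O) (hlt : O.card < p) : ∀ x ∈ O, g x = x := by
  intro x hx
  have h := fixedPts_mod ho O hO
  have hle := Finset.card_filter_le O (fun x => g x = x)
  rw [Nat.mod_eq_of_lt hlt, Nat.mod_eq_of_lt (by omega)] at h
  exact Finset.filter_eq_self.1 (Finset.eq_of_subset_of_card_le (Finset.filter_subset _ _) h.le) x hx

theorem fixedPts_eleven {g : Equiv.Perm GolayPt} (hg : g ∈ M24) (ho : orderOf g = 11) :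
    (fixedPts g).card = 2 := by
  haveI : Fact (Nat.Prime 11) := ⟨by norm_num⟩
  have h8 := fixedPts_le_eight hg (fun e => by rw [e, orderOf_one] at ho; omega)
  have h := fixedPts_mod ho Finset.univ (smul_eq_of_mapsTo fun p _ => Finset.mem_univ _)
  rw [Finset.card_univ, show Fintype.card GolayPt = 24 from rfl,
    show (Finset.univ.filter fun x => g x = x) = fixedPts g by ext; simp [mem_fixedPts]] at h
  omega

theorem filter_le_fixedPts (g : Equiv.Perm GolayPt) (O : Finset GolayPt) :
    (O.filter fun x => g x = x).card ≤ (fixedPts g).card :=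
  Finset.card_le_card fun x hx => mem_fixedPts.2 (Finset.mem_filter.1 hx).2

theorem partition_dvd {F : GolayPt → Finset GolayPt} {k : ℕ} {S : Finset GolayPt}
    (hk : ∀ p ∈ S, (F p).card = k) (hself : ∀ p ∈ S, p ∈ F p) (hsub : ∀ p ∈ S, F p ⊆ S)
    (hblk : ∀ p ∈ S, ∀ q ∈ F p, F q = F p) : k ∣ S.card := by
  classical
  rw [Finset.card_eq_sum_card_image F S]
  refine Finset.dvd_sum fun T hT => ?_
  obtain ⟨p, hp, rfl⟩ := Finset.mem_image.1 hT
  rw [show S.filter (fun q => F q = F p) = F p from Finset.ext fun q => by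
    rw [Finset.mem_filter]
    exact ⟨fun h => h.2 ▸ hself q h.1, fun h => ⟨hsub p hp h, hblk p hp q h⟩⟩, hk p hp]

/-- The points fixed by the point part. -/
noncomputable def fixPart (H : Subgroup (Equiv.Perm GolayPt)) (p : GolayPt) : Finset GolayPt := by
  classical exact Finset.univ.filter fun x => ∀ g ∈ ptPart H p, g x = x

theorem mem_fixPart {H : Subgroup (Equiv.Perm GolayPt)} {p x : GolayPt} :
    x ∈ fixPart H p ↔ ∀ g ∈ ptPart H p, g x = x := by
  simp [fixPart]

theorem fixPart_self (H : Subgroup (Equiv.Perm GolayPt)) (p : GolayPt) : p ∈ fixPart H p :=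
  mem_fixPart.2 fun _ hg => hg.2

theorem ptPart_eq_of_mem {H : Subgroup (Equiv.Perm GolayPt)} {n : ℕ}
    (hcard : ∀ p, Nat.card (ptPart H p) = n) {p q : GolayPt} (h : q ∈ fixPart H p) :
    ptPart H p = ptPart H q :=
  Subgroup.eq_of_le_of_card_ge (fun g hg => ⟨hg.1, mem_fixPart.1 h g hg⟩)
    (by rw [hcard, hcard])

theorem fixPart_eq_of_mem {H : Subgroup (Equiv.Perm GolayPt)} {n : ℕ}
    (hcard : ∀ p, Nat.card (ptPart H p) = n) {p q : GolayPt} (h : q ∈ fixPart H p) :
    fixPart H q = fixPart H p :=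
  Finset.ext fun x => by rw [mem_fixPart, mem_fixPart, ptPart_eq_of_mem hcard h]

theorem ptPart_conj {H : Subgroup (Equiv.Perm GolayPt)} {g k : Equiv.Perm GolayPt} (hg : g ∈ H)
    {p : GolayPt} (hk : k ∈ ptPart H p) : g * k * g⁻¹ ∈ ptPart H (g p) :=
  mem_ptPart.2 ⟨mul_mem (mul_mem hg (mem_ptPart.1 hk).1) (inv_mem hg), by
    simp [(mem_ptPart.1 hk).2]⟩

theorem ptPart_conj' {H : Subgroup (Equiv.Perm GolayPt)} {g k : Equiv.Perm GolayPt} (hg : g ∈ H)
    {p : GolayPt} (hk : k ∈ ptPart H (g p)) : g⁻¹ * k * g ∈ ptPart H p :=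
  mem_ptPart.2 ⟨mul_mem (mul_mem (inv_mem hg) (mem_ptPart.1 hk).1) hg, by
    simp [(mem_ptPart.1 hk).2]⟩

theorem fixPart_card_map {H : Subgroup (Equiv.Perm GolayPt)} {g : Equiv.Perm GolayPt} (hg : g ∈ H)
    (p : GolayPt) : (fixPart H (g p)).card = (fixPart H p).card := by
  rw [← Finset.card_map g.toEmbedding (s := fixPart H p)]
  congr 1
  ext x
  rw [Finset.mem_map_equiv, mem_fixPart, mem_fixPart]
  constructor
  · intro h k hk
    have := h _ (ptPart_conj hg hk)
    simp only [Equiv.Perm.mul_apply, Equiv.Perm.inv_def] at this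
    exact g.injective (by rw [this, Equiv.apply_symm_apply])
  · intro h k hk
    have := h _ (ptPart_conj' hg hk)
    simp only [Equiv.Perm.mul_apply, Equiv.Perm.inv_def, Equiv.apply_symm_apply] at this
    exact g.symm.injective this

/-- An element fixing an odd number of points excludes pairing. -/
theorem pairs_false {H : Subgroup (Equiv.Perm GolayPt)} {n : ℕ}
    (hcard : ∀ p, Nat.card (ptPart H p) = n) {u : Equiv.Perm GolayPt} (hu : u ∈ H)
    (hodd : (fixedPts u).card = 3) (h2 : ∀ p ∈ fixedPts u, (fixPart H p).card = 2) : False := by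
  have := partition_dvd h2 (fun p _ => fixPart_self H p)
    (fun p hp x hx => mem_fixedPts.2 (mem_fixPart.1 hx u ⟨hu, mem_fixedPts.1 hp⟩))
    (fun p _ q hq => fixPart_eq_of_mem hcard hq)
  rw [hodd] at this
  omega

/-- Invariant pairs at every point are impossible with elements of orders five and seven. -/
theorem triple_false {H : Subgroup (Equiv.Perm GolayPt)} (hH : H ≤ M24)
    (hs : ∀ p, ∃ s : Finset GolayPt, s.card = 2 ∧ p ∉ s ∧ ∀ g ∈ ptPart H p, g • s = s)
    (h7 : ∀ p, ∃ u ∈ ptPart H p, orderOf u = 7) (h5 : ∃ p, ∃ v ∈ ptPart H p, orderOf v = 5) :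
    False := by
  classical
  haveI : Fact (Nat.Prime 7) := ⟨by norm_num⟩
  haveI : Fact (Nat.Prime 5) := ⟨by norm_num⟩
  choose s hs2 hps hinv using hs
  choose u hu hu7 using h7
  have hT : ∀ p, ∀ w ∈ ptPart H p, orderOf w = 7 → insert p (s p) = fixedPts w := by
    intro p w hw hw7
    refine Finset.eq_of_subset_of_card_le (Finset.insert_subset (mem_fixedPts.2 hw.2) fun x hx =>
      mem_fixedPts.2 (fix_small hw7 (hinv p w hw) (by rw [hs2]; norm_num) x hx)) ?_
    rw [fixedPts_seven (hH hw.1) hw7, Finset.card_insert_of_notMem (hps p), hs2]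
  obtain ⟨p, v, hv, hv5⟩ := h5
  have hsub : ∀ x ∈ fixedPts v, insert x (s x) ⊆ fixedPts v := fun x hx =>
    Finset.insert_subset hx fun y hy => mem_fixedPts.2
      (fix_small hv5 (hinv x v ⟨hv.1, mem_fixedPts.1 hx⟩) (by rw [hs2]; norm_num) y hy)
  have := partition_dvd (F := fun x => insert x (s x)) (k := 3) (S := fixedPts v)
    (fun x _ => by rw [Finset.card_insert_of_notMem (hps x), hs2])
    (fun x _ => Finset.mem_insert_self _ _) hsub (fun x _ y hy => by
      have e := hT x (u x) (hu x) (hu7 x)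
      rw [hT y (u x) ⟨(hu x).1, ?_⟩ (hu7 x), e]
      exact mem_fixedPts.1 (e ▸ hy))
  rw [fixedPts_five (hH hv.1) hv5] at this
  omega

theorem trans_of_card {H : Subgroup (Equiv.Perm GolayPt)} {a : GolayPt} {O : Finset GolayPt}
    (hreach : ∀ b ∈ O, ∃ g ∈ H, g a = b) (h : O.card = 24) :
    ∀ p q, ∃ g ∈ H, g p = q := by
  have hO : O = Finset.univ := Finset.eq_univ_of_card O h
  intro p q
  obtain ⟨g, hg, rfl⟩ := hreach p (hO ▸ Finset.mem_univ p)
  obtain ⟨k, hk, rfl⟩ := hreach q (hO ▸ Finset.mem_univ q)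
  exact ⟨k * g⁻¹, mul_mem hk (inv_mem hg), by simp⟩

theorem ptPart_card_of_trans {H : Subgroup (Equiv.Perm GolayPt)}
    (ht : ∀ p q, ∃ g ∈ H, g p = q) (p : GolayPt) : Nat.card H = 24 * Nat.card (ptPart H p) := by
  obtain ⟨O, hpO, hinv, -, hc⟩ := orbit_mul H p
  rw [hc, show O.card = 24 from ?_]
  have hO : O = Finset.univ := Finset.eq_univ_of_forall fun q => by
    obtain ⟨g, hg, rfl⟩ := ht p q
    exact (smul_mem_iff_of_fix (hinv g hg) p).2 hpO
  rw [hO]; rfl

theorem st3_card {a b c : GolayPt} (hab : a ≠ b) (hac : a ≠ c) (hbc : b ≠ c) :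
    Nat.card ↥(st2 a b ⊓ MulAction.stabilizer (Equiv.Perm GolayPt) c) = 20160 := by
  have h := card_eq_orbit_mul (st2 a b) c {x | x ≠ a ∧ x ≠ b}
    (fun g hg => ⟨fun e => hac (g.injective (e.trans hg.1.2.symm)).symm,
      fun e => hbc (g.injective (e.trans hg.2.symm)).symm⟩)
    (fun p hp => by
      obtain ⟨g, hg, he⟩ := exists_M24_map (k := 3) (by norm_num) ![a, b, c] ![a, b, p]
        (by intro i j; fin_cases i <;> fin_cases j <;>
          simp [hab, hac, hbc, Ne.symm hab, Ne.symm hac, Ne.symm hbc])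
        (by intro i j; fin_cases i <;> fin_cases j <;>
          simp [hab, hp.1, hp.2, Ne.symm hab, Ne.symm hp.1, Ne.symm hp.2])
      exact ⟨g, ⟨⟨hg, he 0⟩, he 1⟩, he 2⟩)
  have hn : ({x | x ≠ a ∧ x ≠ b} : Set GolayPt).ncard = 22 := by
    rw [show ({x | x ≠ a ∧ x ≠ b} : Set GolayPt) = ({a, b} : Set GolayPt)ᶜ by ext p; simp,
      Set.ncard_compl, Set.ncard_pair hab, Nat.card_eq_fintype_card]
    rfl
  rw [st2_card hab, hn] at h
  omega

theorem fixed_three_dvd {K : Subgroup (Equiv.Perm GolayPt)} (hK : K ≤ M24) {a b c : GolayPt}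
    (hab : a ≠ b) (hac : a ≠ c) (hbc : b ≠ c) (h : ∀ g ∈ K, g a = a ∧ g b = b ∧ g c = c) :
    Nat.card K ∣ 20160 :=
  st3_card hab hac hbc ▸ Subgroup.card_dvd_of_le fun g hg =>
    ⟨⟨⟨hK hg, (h g hg).1⟩, (h g hg).2.1⟩, (h g hg).2.2⟩

/-! ### Large subgroups of symmetric groups -/

theorem alt_le {α : Type*} [Fintype α] [DecidableEq α] (I : Subgroup (Equiv.Perm α)) (k : ℕ)
    (h5 : 5 ≤ Fintype.card α) (hk : (Fintype.card α).factorial ≤ k * Nat.card I)
    (hbig : 2 * k.factorial < (Fintype.card α).factorial) : alternatingGroup α ≤ I := by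
  have hsimp := alternatingGroup.isSimpleGroup (α := α) (by rwa [Nat.card_eq_fintype_card])
  haveI : Nontrivial α := Fintype.one_lt_card_iff_nontrivial.1 (by omega)
  set J := I.subgroupOf (alternatingGroup α)
  have hJk : J.index ≤ k := by
    have h1 : I.index ≤ k := by
      have := I.card_mul_index
      rw [Nat.card_perm, Nat.card_eq_fintype_card (α := α)] at this
      have hpos : 0 < Nat.card I := Nat.card_pos
      by_contra! hgt
      have : k * Nat.card I < Nat.card I * I.index := by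
        rw [mul_comm k]; exact Nat.mul_lt_mul_of_pos_left hgt hpos
      omega
    exact le_trans (Subgroup.relIndex_le_of_le_right le_top (by
      rw [Subgroup.relIndex_top_right]; exact Subgroup.index_ne_zero_of_finite))
      (by rwa [Subgroup.relIndex_top_right])
  rcases hsimp.eq_bot_or_eq_top_of_normal J.normalCore inferInstance with h | h
  · exfalso
    let φ := MulAction.toPermHom (alternatingGroup α) (alternatingGroup α ⧸ J)
    have hinj : Function.Injective φ := (MonoidHom.ker_eq_bot_iff φ).1 (by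
      rw [← Subgroup.normalCore_eq_ker, h])
    have h1 := Nat.card_le_card_of_injective φ hinj
    rw [Nat.card_perm, ← Subgroup.index] at h1
    have h2 := two_mul_nat_card_alternatingGroup (α := α)
    rw [Nat.card_perm, Nat.card_eq_fintype_card (α := α)] at h2
    have h3 := Nat.factorial_le hJk
    omega
  · intro g hg
    have : (⟨g, hg⟩ : alternatingGroup α) ∈ J :=
      (top_le_iff.1 (h ▸ J.normalCore_le) : J = ⊤) ▸ Subgroup.mem_top _
    exact this

/-- A subgroup of a set stabiliser: its image and kernel. -/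
theorem restr_split {K : Subgroup (Equiv.Perm GolayPt)} {S : Finset GolayPt} (hK : K ≤ stSet S) :
    ∃ I : Subgroup (Equiv.Perm S),
      Nat.card K = Nat.card ↥(K ⊓ ptFix S) * Nat.card I := by
  classical
  let f : K →* Equiv.Perm S := (restrHom S).comp (Subgroup.inclusion hK)
  refine ⟨f.range, ?_⟩
  rw [← Subgroup.card_mul_index f.ker, Subgroup.index_ker]
  congr 1
  refine Nat.card_congr
    { toFun := fun g => ⟨g.1.1, g.1.2, mem_ptFix.2 ⟨(hK g.1.2).1, fun p hp =>
        congrArg Subtype.val (DFunLike.congr_fun (MonoidHom.mem_ker.1 g.2) (⟨p, hp⟩ : S))⟩⟩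
      invFun := fun g => ⟨⟨g.1, g.2.1⟩, MonoidHom.mem_ker.2
        (Equiv.ext fun x => Subtype.ext ((mem_ptFix.1 g.2.2).2 x x.2))⟩
      left_inv := fun _ => rfl
      right_inv := fun _ => rfl }

theorem sym_card (S : Finset GolayPt) : Nat.card (Equiv.Perm S) = S.card.factorial := by
  rw [Nat.card_perm, Nat.card_eq_fintype_card (α := ↥S), Fintype.card_coe]

/-- An invariant set of eight points and a fixed point outside: a large image. -/
theorem eight_image_false {K : Subgroup (Equiv.Perm GolayPt)} {x : GolayPt} (hK : K ≤ st1 x)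
    {S : Finset GolayPt} (hS : S.card = 8) (hx : x ∉ S) (hinv : ∀ g ∈ K, g • S = S)
    (hbig : 40320 ≤ 7 * Nat.card K) (hnd : ¬ 20160 ∣ Nat.card K) : False := by
  classical
  obtain ⟨I, hI⟩ := restr_split (fun g hg => ⟨(hK hg).1, hinv g hg⟩ : K ≤ stSet S)
  have hker : K ⊓ ptFix S = ⊥ := (Subgroup.eq_bot_iff_forall _).2 fun g hg => by
    by_contra h1
    have h8 := fixedPts_le_eight (hK hg.1).1 h1
    have hsub : insert x S ⊆ fixedPts g := Finset.insert_subset
      (mem_fixedPts.2 (hK hg.1).2) fun p hp => mem_fixedPts.2 ((mem_ptFix.1 hg.2).2 p hp)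
    have := Finset.card_le_card hsub
    rw [Finset.card_insert_of_notMem hx, hS] at this
    omega
  rw [hker, Subgroup.card_bot, one_mul] at hI
  have hle := alt_le I 7 (by rw [Fintype.card_coe, hS]; norm_num)
    (by rw [Fintype.card_coe, hS, ← hI]; exact hbig) (by rw [Fintype.card_coe, hS]; decide)
  haveI : Nontrivial S := Fintype.one_lt_card_iff_nontrivial.1 (by rw [Fintype.card_coe, hS]; norm_num)
  have h2 := Subgroup.card_dvd_of_le hle
  rw [← hI, nat_card_alternatingGroup, Nat.card_eq_fintype_card (α := ↥S), Fintype.card_coe,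
    hS] at h2
  exact hnd h2

/-- An invariant set of seven points and a fixed point outside: a large image. -/
theorem seven_image_false {K : Subgroup (Equiv.Perm GolayPt)} {x : GolayPt} (hK : K ≤ st1 x)
    {S : Finset GolayPt} (hS : S.card = 7) (hx : x ∉ S) (hinv : ∀ g ∈ K, g • S = S)
    (hbig : 16 * 5040 ≤ 6 * Nat.card K) (hnd : ¬ 2520 ∣ Nat.card K) : False := by
  classical
  obtain ⟨I, hI⟩ := restr_split (fun g hg => ⟨(hK hg).1, hinv g hg⟩ : K ≤ stSet S)
  have hker : Nat.card ↥(K ⊓ ptFix S) ≤ 16 := by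
    by_cases h : K ⊓ ptFix S = ⊥
    · rw [h, Subgroup.card_bot]; norm_num
    obtain ⟨g, hg, hg1⟩ : ∃ g ∈ K ⊓ ptFix S, g ≠ 1 := by
      by_contra! hall
      exact h ((Subgroup.eq_bot_iff_forall _).2 hall)
    obtain ⟨o, ho, hs⟩ := fix_bound (hK hg.1).1 hg1 (F := insert x S) (fun p hp => by
      rcases Finset.mem_insert.1 hp with rfl | hp
      exacts [(hK hg.1).2, (mem_ptFix.1 hg.2).2 p hp])
      (by rw [Finset.card_insert_of_notMem hx, hS]; norm_num)
    have he : insert x S = o := Finset.eq_of_subset_of_card_le hs (by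
      rw [octads_card ho, Finset.card_insert_of_notMem hx, hS])
    rw [← octFix_card ho]
    refine Nat.le_of_dvd Nat.card_pos (Subgroup.card_dvd_of_le fun k hk => mem_ptFix.2
      ⟨(hK hk.1).1, fun p hp => ?_⟩)
    rw [← he] at hp
    rcases Finset.mem_insert.1 hp with rfl | hp
    exacts [(hK hk.1).2, (mem_ptFix.1 hk.2).2 p hp]
  have hle := alt_le I 6 (by rw [Fintype.card_coe, hS]; norm_num)
    (by
      rw [Fintype.card_coe, hS, show Nat.factorial 7 = 5040 from rfl]
      have := Nat.mul_le_mul_right (Nat.card I) hker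
      omega) (by rw [Fintype.card_coe, hS]; decide)
  haveI : Nontrivial S := Fintype.one_lt_card_iff_nontrivial.1 (by rw [Fintype.card_coe, hS]; norm_num)
  have h2 := Subgroup.card_dvd_of_le hle
  rw [nat_card_alternatingGroup, Nat.card_eq_fintype_card (α := ↥S), Fintype.card_coe, hS] at h2
  exact hnd (hI ▸ Dvd.dvd.mul_left h2 _)

/-! ### Index 276 -/

theorem cases_276 (s : ℕ) (hs : s ≤ 24) (h11 : s % 11 = 1 ∨ s % 11 = 2) (h7 : s % 7 ≤ 3)
    (hd : s ∣ 887040) (hd' : 887040 / s ∣ 10200960) : s = 2 ∨ s = 24 := by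
  have h0 : 887040 % s = 0 := Nat.mod_eq_zero_of_dvd hd
  interval_cases s <;> first | omega | norm_num at hd'

theorem cases_276' (s : ℕ) (hs : s ≤ 23) (h11 : s % 11 = 1) (h7 : s % 7 ≤ 2)
    (hd : s ∣ 36960) : s = 1 := by
  have h0 : 36960 % s = 0 := Nat.mod_eq_zero_of_dvd hd
  interval_cases s <;> omega

theorem index_276 {H : Subgroup (Equiv.Perm GolayPt)} (hH : H ≤ M24)
    (hc : Nat.card H = 887040) :
    ∃ s : Finset GolayPt, s.card = 2 ∧ ∀ g ∈ H, g • s = s := by
  classical
  haveI : Fact (Nat.Prime 11) := ⟨by norm_num⟩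
  haveI : Fact (Nat.Prime 7) := ⟨by norm_num⟩
  obtain ⟨z, hz, hz11⟩ := exists_order (H := H) 11 (by rw [hc]; norm_num)
  obtain ⟨u, hu, hu7⟩ := exists_order (H := H) 7 (by rw [hc]; norm_num)
  have hz2 := fixedPts_eleven (hH hz) hz11
  have hu3 := fixedPts_seven (hH hu) hu7
  obtain ⟨a, ha⟩ := Finset.card_pos.1 (by rw [hz2]; norm_num : 0 < (fixedPts z).card)
  obtain ⟨O, haO, hinv, hreach, hmul⟩ := orbit_mul H a
  have hle := Subgroup.card_dvd_of_le (ptPart_le hH a)
  rw [st1_card] at hle
  rw [hc] at hmul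
  have m11 := fixedPts_mod hz11 O (hinv z hz)
  have f11 := (filter_le_fixedPts z O).trans hz2.le
  have f11' : 1 ≤ (O.filter fun p => z p = p).card :=
    Finset.card_pos.2 ⟨a, Finset.mem_filter.2 ⟨haO, mem_fixedPts.1 ha⟩⟩
  have m7 := fixedPts_mod hu7 O (hinv u hu)
  have f7 := (filter_le_fixedPts u O).trans hu3.le
  have h24 : O.card ≤ 24 := by simpa using Finset.card_le_univ O
  have hs0 : 0 < O.card := Finset.card_pos.2 ⟨a, haO⟩
  rcases cases_276 O.card h24 (by omega) (m7 ▸ (Nat.mod_le _ _).trans f7) (Dvd.intro _ hmul.symm)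
      (by rw [hmul, Nat.mul_div_cancel_left _ hs0]; exact hle) with h | h
  · exact ⟨O, h, hinv⟩
  exfalso
  have ht := trans_of_card hreach h
  have hcard : ∀ p, Nat.card (ptPart H p) = 36960 := fun p => by
    have := ptPart_card_of_trans ht p
    omega
  refine pairs_false hcard hu hu3 fun p _ => ?_
  obtain ⟨z', hz', hz'11⟩ := exists_order (H := ptPart H p) 11 (by rw [hcard]; norm_num)
  obtain ⟨u', hu', hu'7⟩ := exists_order (H := ptPart H p) 7 (by rw [hcard]; norm_num)
  have hz'2 := fixedPts_eleven (hH hz'.1) hz'11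
  have hu'3 := fixedPts_seven (hH hu'.1) hu'7
  have hpz : p ∈ fixedPts z' := mem_fixedPts.2 hz'.2
  obtain ⟨q, hq⟩ : ((fixedPts z').erase p).Nonempty := by
    rw [← Finset.card_pos, Finset.card_erase_of_mem hpz, hz'2]; norm_num
  obtain ⟨hqp, hqz⟩ := Finset.mem_erase.1 hq
  obtain ⟨P, hqP, hPinv, hPreach, hPmul⟩ := orbit_mul (ptPart H p) q
  have hpP : p ∉ P := fun h => by
    obtain ⟨g, hg, e⟩ := hPreach p h
    exact hqp (g.injective (e.trans hg.2.symm))
  have g11 : (P.filter fun x => z' x = x).card ≤ 1 := by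
    refine (Finset.card_le_card (t := (fixedPts z').erase p) fun x hx => ?_).trans
      (by rw [Finset.card_erase_of_mem hpz, hz'2])
    obtain ⟨h1, h2⟩ := Finset.mem_filter.1 hx
    exact Finset.mem_erase.2 ⟨fun e => hpP (e ▸ h1), mem_fixedPts.2 h2⟩
  have g11' : 1 ≤ (P.filter fun x => z' x = x).card :=
    Finset.card_pos.2 ⟨q, Finset.mem_filter.2 ⟨hqP, mem_fixedPts.1 hqz⟩⟩
  have g7 : (P.filter fun x => u' x = x).card ≤ 2 := by
    refine (Finset.card_le_card (t := (fixedPts u').erase p) fun x hx => ?_).trans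
      (by rw [Finset.card_erase_of_mem (mem_fixedPts.2 hu'.2), hu'3])
    obtain ⟨h1, h2⟩ := Finset.mem_filter.1 hx
    exact Finset.mem_erase.2 ⟨fun e => hpP (e ▸ h1), mem_fixedPts.2 h2⟩
  have p11 := fixedPts_mod hz'11 P (hPinv z' hz')
  have p7 := fixedPts_mod hu'7 P (hPinv u' hu')
  have h23 : P.card ≤ 23 := by
    have := Finset.card_le_univ (insert p P)
    rw [Finset.card_insert_of_notMem hpP, show Fintype.card GolayPt = 24 from rfl] at this
    omega
  rw [hcard] at hPmul
  have h1 := cases_276' P.card h23 (by omega) (p7 ▸ (Nat.mod_le _ _).trans g7) (Dvd.intro _ hPmul.symm)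
  have hqF : q ∈ fixPart H p := mem_fixPart.2 fun g hg => by
    obtain ⟨b, hb⟩ := Finset.card_eq_one.1 h1
    have h1 : g q ∈ P := (smul_mem_iff_of_fix (hPinv g hg) q).2 hqP
    rw [hb, Finset.mem_singleton] at h1 hqP
    rw [h1, hqP]
  refine le_antisymm (hz'2 ▸ Finset.card_le_card fun x hx =>
    mem_fixedPts.2 (mem_fixPart.1 hx z' hz')) ?_
  rw [← Finset.card_pair hqp]
  exact Finset.card_le_card (Finset.insert_subset hqF (Finset.singleton_subset_iff.2
    (fixPart_self H p)))

/-! ### Index 759 -/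

theorem cases_759 (s : ℕ) (hs : s ≤ 24) (hd : s ∣ 322560) (hd' : 322560 / s ∣ 10200960) :
    s = 8 ∨ s = 16 ∨ s = 24 := by
  have h0 : 322560 % s = 0 := Nat.mod_eq_zero_of_dvd hd
  interval_cases s <;> first | omega | norm_num at hd'

theorem cases_759' (s : ℕ) (hs : s ≤ 23) (h7 : s % 7 = 1 ∨ s % 7 = 2) (h5 : s % 5 ≤ 3)
    (hd : s ∣ 13440) : s = 1 ∨ s = 2 ∨ s = 8 ∨ s = 15 ∨ s = 16 := by
  have h0 : 13440 % s = 0 := Nat.mod_eq_zero_of_dvd hd
  interval_cases s <;> omega

theorem trans_759_false {H : Subgroup (Equiv.Perm GolayPt)} (hH : H ≤ M24)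
    (ht : ∀ p q, ∃ g ∈ H, g p = q) (hcard : ∀ p, Nat.card (ptPart H p) = 13440) : False := by
  classical
  haveI : Fact (Nat.Prime 7) := ⟨by norm_num⟩
  haveI : Fact (Nat.Prime 5) := ⟨by norm_num⟩
  have hu : ∀ p, ∃ u ∈ ptPart H p, orderOf u = 7 := fun p =>
    exists_order 7 (by rw [hcard]; norm_num)
  have hv : ∀ p, ∃ v ∈ ptPart H p, orderOf v = 5 := fun p =>
    exists_order 5 (by rw [hcard]; norm_num)
  -- at each point a fixed companion or an invariant pair
  have key : ∀ p, (fixPart H p).card = 2 ∨ ∃ s : Finset GolayPt, s.card = 2 ∧ p ∉ s ∧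
      ∀ g ∈ ptPart H p, g • s = s := by
    intro p
    obtain ⟨u, hu, hu7⟩ := hu p
    obtain ⟨v, hv, hv5⟩ := hv p
    have hu3 := fixedPts_seven (hH hu.1) hu7
    have hpu : p ∈ fixedPts u := mem_fixedPts.2 hu.2
    have hpv : p ∈ fixedPts v := mem_fixedPts.2 hv.2
    obtain ⟨q, hq⟩ : ((fixedPts u).erase p).Nonempty := by
      rw [← Finset.card_pos, Finset.card_erase_of_mem hpu, hu3]; norm_num
    obtain ⟨hqp, hqu⟩ := Finset.mem_erase.1 hq
    obtain ⟨P, hqP, hPinv, hPreach, hPmul⟩ := orbit_mul (ptPart H p) q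
    have hpP : p ∉ P := fun h => by
      obtain ⟨g, hg, e⟩ := hPreach p h
      exact hqp (g.injective (e.trans hg.2.symm))
    have g7 : (P.filter fun x => u x = x).card ≤ 2 := by
      refine (Finset.card_le_card (t := (fixedPts u).erase p) fun x hx => ?_).trans
        (by rw [Finset.card_erase_of_mem hpu, hu3])
      obtain ⟨h1, h2⟩ := Finset.mem_filter.1 hx
      exact Finset.mem_erase.2 ⟨fun e => hpP (e ▸ h1), mem_fixedPts.2 h2⟩
    have g7' : 1 ≤ (P.filter fun x => u x = x).card :=
      Finset.card_pos.2 ⟨q, Finset.mem_filter.2 ⟨hqP, mem_fixedPts.1 hqu⟩⟩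
    have g5 : (P.filter fun x => v x = x).card ≤ 3 := by
      refine (Finset.card_le_card (t := (fixedPts v).erase p) fun x hx => ?_).trans
        (by rw [Finset.card_erase_of_mem hpv, fixedPts_five (hH hv.1) hv5])
      obtain ⟨h1, h2⟩ := Finset.mem_filter.1 hx
      exact Finset.mem_erase.2 ⟨fun e => hpP (e ▸ h1), mem_fixedPts.2 h2⟩
    have p7 := fixedPts_mod hu7 P (hPinv u hu)
    have p5 := fixedPts_mod hv5 P (hPinv v hv)
    have h23 : P.card ≤ 23 := by
      have := Finset.card_le_univ (insert p P)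
      rw [Finset.card_insert_of_notMem hpP, show Fintype.card GolayPt = 24 from rfl] at this
      omega
    rw [hcard] at hPmul
    have hK := ptPart_le hH p
    have hTinv : ∀ g ∈ ptPart H p, g • ((Finset.univ \ P).erase p) = (Finset.univ \ P).erase p := by
      intro g hg
      refine smul_eq_of_mapsTo fun x hx => ?_
      simp only [Finset.mem_erase, Finset.mem_sdiff, Finset.mem_univ, true_and] at hx ⊢
      exact ⟨fun e => hx.1 (g.injective (e.trans hg.2.symm)),
        fun e => hx.2 ((smul_mem_iff_of_fix (hPinv g hg) x).1 e)⟩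
    have hTc : ((Finset.univ \ P).erase p).card = 23 - P.card := by
      rw [Finset.card_erase_of_mem (Finset.mem_sdiff.2 ⟨Finset.mem_univ _, hpP⟩),
        Finset.card_univ_sdiff, show Fintype.card GolayPt = 24 from rfl]
      omega
    rcases cases_759' P.card h23 (by omega) (p5 ▸ (Nat.mod_le _ _).trans g5)
      (Dvd.intro _ hPmul.symm) with h | h | h | h | h
    · left
      have hqF : q ∈ fixPart H p := mem_fixPart.2 fun g hg => by
        obtain ⟨b, hb⟩ := Finset.card_eq_one.1 h
        have h1 : g q ∈ P := (smul_mem_iff_of_fix (hPinv g hg) q).2 hqP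
        rw [hb, Finset.mem_singleton] at h1 hqP
        rw [h1, hqP]
      have h2 : 2 ≤ (fixPart H p).card := by
        rw [← Finset.card_pair hqp]
        exact Finset.card_le_card (Finset.insert_subset hqF (Finset.singleton_subset_iff.2
          (fixPart_self H p)))
      refine le_antisymm ?_ h2
      by_contra! h3
      obtain ⟨r, hr, hrn⟩ := Finset.exists_mem_notMem_of_card_lt_card
        (s := ({q, p} : Finset GolayPt)) (t := fixPart H p) (by rw [Finset.card_pair hqp]; omega)
      simp only [Finset.mem_insert, Finset.mem_singleton, not_or] at hrn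
      have := fixed_three_dvd (K := ptPart H p) (fun g hg => hH hg.1) hqp.symm (Ne.symm hrn.2)
        (Ne.symm hrn.1) fun g hg => ⟨hg.2, mem_fixPart.1 hqF g hg, mem_fixPart.1 hr g hg⟩
      rw [hcard] at this
      norm_num at this
    · exact Or.inr ⟨P, h, hpP, hPinv⟩
    · exact (eight_image_false hK h hpP hPinv (by rw [hcard]; norm_num)
        (by rw [hcard]; norm_num)).elim
    · exact (eight_image_false hK (by rw [hTc, h]) (by simp) hTinv (by rw [hcard]; norm_num)
        (by rw [hcard]; norm_num)).elim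
    · exact (seven_image_false hK (by rw [hTc, h]) (by simp) hTinv (by rw [hcard])
        (by rw [hcard]; norm_num)).elim
  by_cases hall : ∀ p, ∃ s : Finset GolayPt, s.card = 2 ∧ p ∉ s ∧ ∀ g ∈ ptPart H p, g • s = s
  · exact triple_false hH hall hu ⟨none, hv none⟩
  obtain ⟨p, hp⟩ := not_forall.1 hall
  have hp2 : (fixPart H p).card = 2 := (key p).resolve_right hp
  obtain ⟨u, hu, hu7⟩ := hu p
  refine pairs_false hcard hu.1 (fixedPts_seven (hH hu.1) hu7) fun x _ => ?_
  obtain ⟨g, hg, rfl⟩ := ht p x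
  rw [fixPart_card_map hg p, hp2]

theorem index_759 {H : Subgroup (Equiv.Perm GolayPt)} (hH : H ≤ M24)
    (hc : Nat.card H = 322560) : ∃ o ∈ octads, ∀ g ∈ H, g • o = o := by
  classical
  haveI : Fact (Nat.Prime 7) := ⟨by norm_num⟩
  obtain ⟨O, haO, hinv, hreach, hmul⟩ := orbit_mul H none
  have hle := Subgroup.card_dvd_of_le (ptPart_le hH none)
  rw [st1_card] at hle
  rw [hc] at hmul
  have hs0 : 0 < O.card := Finset.card_pos.2 ⟨_, haO⟩
  have h24 : O.card ≤ 24 := by simpa using Finset.card_le_univ O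
  have h8 : ∀ S : Finset GolayPt, S.card = 8 → (∀ g ∈ H, g • S = S) →
      ∃ o ∈ octads, ∀ g ∈ H, g • o = o := by
    intro S hS hSinv
    obtain ⟨g, hg, hgf, hg1⟩ : ∃ g ∈ H, (∀ p ∈ S, g p = p) ∧ g ≠ 1 := by
      by_contra! h
      have := (restr_bound (fun g hg => ⟨hH hg, hSinv g hg⟩) h).1
      rw [hc, hS] at this
      exact absurd this (by decide)
    obtain ⟨o, ho, hs⟩ := fix_bound (hH hg) hg1 hgf (by rw [hS]; norm_num)
    obtain rfl : S = o := Finset.eq_of_subset_of_card_le hs (by rw [octads_card ho, hS])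
    exact ⟨S, ho, hSinv⟩
  rcases cases_759 O.card h24 (Dvd.intro _ hmul.symm)
      (by rw [hmul, Nat.mul_div_cancel_left _ hs0]; exact hle) with h | h | h
  · exact h8 O h hinv
  · refine h8 (Finset.univ \ O) (by rw [Finset.card_univ_sdiff, h]; rfl) fun g hg =>
      smul_eq_of_mapsTo fun x hx => ?_
    simp only [Finset.mem_sdiff, Finset.mem_univ, true_and] at hx ⊢
    exact fun e => hx ((smul_mem_iff_of_fix (hinv g hg) x).1 e)
  · have ht := trans_of_card hreach h
    exact (trans_759_false hH ht fun p => by have := ptPart_card_of_trans ht p; omega).elim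

/-! ### Index 253 -/

theorem cases_253 (s : ℕ) (hs : s ≤ 24) (hd : s ∣ 967680) (hd' : 967680 / s ∣ 10200960) :
    s = 24 := by
  have h0 : 967680 % s = 0 := Nat.mod_eq_zero_of_dvd hd
  interval_cases s <;> first | omega | norm_num at hd'

/-- An element of order seven fixes at most one point of an invariant octad. -/
theorem seven_octad {w : Equiv.Perm GolayPt} (hw : w ∈ M24) (h7 : orderOf w = 7)
    {o : Finset GolayPt} (ho : o ∈ octads) (hinv : w • o = o) {x y : GolayPt} (hx : x ∈ o)
    (hy : y ∈ o) (hwx : w x = x) (hwy : w y = y) : x = y := by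
  haveI : Fact (Nat.Prime 7) := ⟨by norm_num⟩
  have h := fixedPts_mod h7 o hinv
  have hle := (filter_le_fixedPts w o).trans (fixedPts_seven hw h7).le
  rw [octads_card ho] at h
  have h1 : (o.filter fun z => w z = z).card ≤ 1 := by omega
  exact Finset.card_le_one.1 h1 x (Finset.mem_filter.2 ⟨hx, hwx⟩) y
    (Finset.mem_filter.2 ⟨hy, hwy⟩)

theorem inter_fixed {g : Equiv.Perm GolayPt} {p : ℕ} [Fact p.Prime] (hord : orderOf g = p)
    {o o' : Finset GolayPt} (h : g • o = o) (h' : g • o' = o') (hlt : (o ∩ o').card < p) :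
    ∀ x ∈ o ∩ o', g x = x :=
  fix_small hord (by rw [Finset.smul_finset_inter, h, h']) hlt

theorem octad_sys_false {H : Subgroup (Equiv.Perm GolayPt)} (hH : H ≤ M24)
    (ht : ∀ p q, ∃ g ∈ H, g p = q) (hcard : ∀ p, Nat.card (ptPart H p) = 40320)
    (hex : ∀ p, ∃ o ∈ octads, p ∈ o ∧ ∀ g ∈ ptPart H p, g • o = o) : False := by
  classical
  haveI : Fact (Nat.Prime 7) := ⟨by norm_num⟩
  haveI : Fact (Nat.Prime 5) := ⟨by norm_num⟩
  have hu : ∀ p, ∃ u ∈ ptPart H p, orderOf u = 7 := fun p =>
    exists_order 7 (by rw [hcard]; norm_num)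
  have hv : ∀ p, ∃ v ∈ ptPart H p, orderOf v = 5 := fun p =>
    exists_order 5 (by rw [hcard]; norm_num)
  choose u hu hu7 using hu
  choose v hv hv5 using hv
  choose o ho hpo hoinv using hex
  have uniq : ∀ p, ∀ o' ∈ octads, p ∈ o' → (∀ g ∈ ptPart H p, g • o' = o') → o' = o p := by
    intro p o' ho' hp' hinv'
    by_contra hne
    have hle := octad_inter_le (ho p) ho' (Ne.symm hne)
    have hfx := inter_fixed (hu7 p) (hoinv p _ (hu p)) (hinv' _ (hu p)) (by omega)
    have h1 : (o p ∩ o').card ≤ 1 := Finset.card_le_one.2 fun x hx y hy =>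
      seven_octad (hH (hu p).1) (hu7 p) (ho p) (hoinv p _ (hu p))
        (Finset.mem_inter.1 hx).1 (Finset.mem_inter.1 hy).1 (hfx x hx) (hfx y hy)
    have h2 : 0 < (o p ∩ o').card := Finset.card_pos.2 ⟨p, Finset.mem_inter.2 ⟨hpo p, hp'⟩⟩
    rcases octad_inter_cases ho' (ho p) with h | h | h | ⟨h, -⟩ <;> omega
  have heq : ∀ g ∈ H, ∀ p, o (g p) = g • o p := fun g hg p =>
    (uniq _ _ (smul_mem_octads (hH hg) (ho p))
      ((Finset.smul_mem_smul_finset_iff g).2 (hpo p)) fun k hk => by
        rw [show k • g • o p = g • (g⁻¹ * k * g) • o p by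
          rw [smul_smul, smul_smul]; congr 1; group,
          hoinv p _ (ptPart_conj' hg hk)]).symm
  obtain ⟨p⟩ : Nonempty GolayPt := ⟨none⟩
  set F := fixedPts (v p) with hF
  have hF4 : F.card = 4 := fixedPts_five (hH (hv p).1) (hv5 p)
  have hvx : ∀ x ∈ F, v p ∈ ptPart H x := fun x hx => ⟨(hv p).1, mem_fixedPts.1 hx⟩
  have hF3 : ∀ x ∈ F, (F ∩ o x).card = 3 := by
    intro x hx
    have h := fixedPts_mod (hv5 p) (o x) (hoinv x _ (hvx x hx))
    rw [octads_card (ho x), show ((o x).filter fun z => v p z = z) = F ∩ o x by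
      ext z; simp [hF, mem_fixedPts, and_comm]] at h
    have := Finset.card_le_card (Finset.inter_subset_left (s₁ := F) (s₂ := o x))
    omega
  have hpF : p ∈ F := mem_fixedPts.2 (hv p).2
  obtain ⟨b, hb⟩ : ∃ b, F \ o p = {b} := Finset.card_eq_one.1 (by
    have := Finset.card_inter_add_card_sdiff F (o p)
    rw [hF3 p hpF] at this
    omega)
  have hbm : b ∈ F ∧ b ∉ o p := Finset.mem_sdiff.1 (hb ▸ Finset.mem_singleton_self b)
  have hbp : b ≠ p := fun e => hbm.2 (e ▸ hpo p)
  -- the part at `p` is transitive outside its octad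
  obtain ⟨P, hbP, hPinv, hPreach, -⟩ := orbit_mul (ptPart H p) b
  have hPout : ∀ x ∈ P, x ∉ o p := fun x hx hxo => by
    obtain ⟨g, hg, rfl⟩ := hPreach x hx
    exact hbm.2 ((smul_mem_iff_of_fix (hoinv p g hg) b).1 hxo)
  have hPsub : P ⊆ Finset.univ \ o p := fun x hx =>
    Finset.mem_sdiff.2 ⟨Finset.mem_univ _, hPout x hx⟩
  have hW : (Finset.univ \ o p).card = 16 := by
    rw [Finset.card_univ_sdiff, octads_card (ho p)]; rfl
  have hP16 : P.card ≤ 16 := (Finset.card_le_card hPsub).trans hW.le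
  have hP5 : (P.filter fun z => v p z = z).card = 1 := by
    rw [Finset.card_eq_one]
    refine ⟨b, Finset.eq_singleton_iff_unique_mem.2
      ⟨Finset.mem_filter.2 ⟨hbP, mem_fixedPts.1 hbm.1⟩, fun x hx => ?_⟩⟩
    obtain ⟨h1, h2⟩ := Finset.mem_filter.1 hx
    have : x ∈ F \ o p := Finset.mem_sdiff.2 ⟨mem_fixedPts.2 h2, hPout x h1⟩
    rwa [hb, Finset.mem_singleton] at this
  have m5 := fixedPts_mod (hv5 p) P (hPinv _ (hv p))
  have m7 := fixedPts_mod (hu7 p) P (hPinv _ (hu p))
  have f7 := (filter_le_fixedPts (u p) P).trans (fixedPts_seven (hH (hu p).1) (hu7 p)).le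
  rw [Nat.mod_eq_of_lt (show (P.filter fun z => u p z = z).card < 7 by omega)] at m7
  have hP : P.card = 1 ∨ P.card = 16 := by
    have : P.card % 7 ≤ 3 := by omega
    interval_cases hn : P.card <;> omega
  rcases hP with hP | hP
  · have hbF : b ∈ fixPart H p := mem_fixPart.2 fun g hg => by
      obtain ⟨z, hz⟩ := Finset.card_eq_one.1 hP
      have h1 : g b ∈ P := (smul_mem_iff_of_fix (hPinv g hg) b).2 hbP
      rw [hz, Finset.mem_singleton] at h1 hbP
      rw [h1, hbP]
    have hK := ptPart_eq_of_mem hcard hbF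
    have hne : o b ≠ o p := fun e => hbm.2 (e ▸ hpo b)
    have hle := octad_inter_le (ho p) (ho b) (Ne.symm hne)
    have hub : u p ∈ ptPart H b := hK ▸ hu p
    have hfx := inter_fixed (hu7 p) (hoinv p _ (hu p)) (hoinv b _ hub) (by omega)
    have hdis : Disjoint (F ∩ o p) (F ∩ o b) := by
      rw [Finset.disjoint_left]
      intro x hx hx'
      have hxp := (Finset.mem_inter.1 hx).2
      have hxb := (Finset.mem_inter.1 hx').2
      have h0 := hfx x (Finset.mem_inter.2 ⟨hxp, hxb⟩)
      have e1 := seven_octad (hH (hu p).1) (hu7 p) (ho p) (hoinv p _ (hu p)) hxp (hpo p) h0 (hu p).2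
      have e2 := seven_octad (hH (hu p).1) (hu7 p) (ho b) (hoinv b _ hub) hxb (hpo b) h0 hub.2
      exact hbp (e2.symm.trans e1)
    have := Finset.card_le_card (Finset.union_subset (Finset.inter_subset_left (s₂ := o p))
      (Finset.inter_subset_left (s₁ := F) (s₂ := o b)))
    rw [Finset.card_union_of_disjoint hdis, hF3 p hpF, hF3 b hbm.1, hF4] at this
    omega
  have hPW : P = Finset.univ \ o p := Finset.eq_of_subset_of_card_le hPsub (by omega)
  obtain ⟨c, hc⟩ : ((F ∩ o p).erase p).Nonempty := by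
    rw [← Finset.card_pos, Finset.card_erase_of_mem (Finset.mem_inter.2 ⟨hpF, hpo p⟩),
      hF3 p hpF]
    norm_num
  simp only [Finset.mem_erase, Finset.mem_inter] at hc
  obtain ⟨hcp, hcF, hco⟩ := hc
  -- and transitive on the rest of the octad
  obtain ⟨Q, hcQ, hQinv, hQreach, -⟩ := orbit_mul (ptPart H p) c
  have hQsub : Q ⊆ (o p).erase p := fun x hx => by
    obtain ⟨g, hg, rfl⟩ := hQreach x hx
    exact Finset.mem_erase.2 ⟨fun e => hcp (g.injective (e.trans hg.2.symm)),
      (smul_mem_iff_of_fix (hoinv p g hg) c).2 hco⟩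
  have hQ7 : (Q.filter fun z => u p z = z).card = 0 := by
    rw [Finset.card_eq_zero, Finset.filter_eq_empty_iff]
    intro x hx e
    exact (Finset.mem_erase.1 (hQsub hx)).1 (seven_octad (hH (hu p).1) (hu7 p) (ho p)
      (hoinv p _ (hu p)) (Finset.mem_erase.1 (hQsub hx)).2 (hpo p) e (hu p).2)
  have he7 : ((o p).erase p).card = 7 := by
    rw [Finset.card_erase_of_mem (hpo p), octads_card (ho p)]
  have hQe : Q = (o p).erase p := Finset.eq_of_subset_of_card_le hQsub (by
    have h := fixedPts_mod (hu7 p) Q (hQinv _ (hu p))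
    have h1 := he7 ▸ Finset.card_le_card hQsub
    have h2 : 0 < Q.card := Finset.card_pos.2 ⟨c, hcQ⟩
    omega)
  by_cases hcc : o c = o p
  · have h1 : ∀ y ∈ o p, o y = o p := by
      intro y hy
      by_cases hyp : y = p
      · rw [hyp]
      obtain ⟨g, hg, rfl⟩ := hQreach y (hQe ▸ Finset.mem_erase.2 ⟨hyp, hy⟩)
      rw [heq g hg.1 c, hcc, hoinv p g hg]
    have hall : ∀ x, ∀ y ∈ o x, o y = o x := by
      intro x y hy
      obtain ⟨g, hg, rfl⟩ := ht p x
      rw [heq g hg p] at hy ⊢
      obtain ⟨z, hz, rfl⟩ := Finset.mem_smul_finset.1 hy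
      rw [Equiv.Perm.smul_def, heq g hg z, h1 z hz]
    have := partition_dvd (F := fun x => F ∩ o x) (S := F) (k := 3) hF3
      (fun x hx => Finset.mem_inter.2 ⟨hx, hpo x⟩) (fun x _ => Finset.inter_subset_left)
      (fun x _ y hy => by
        show F ∩ o y = F ∩ o x
        rw [hall x y (Finset.mem_inter.1 hy).2])
    omega
  have hle := octad_inter_le (ho p) (ho c) (Ne.symm hcc)
  have hfx := inter_fixed (hv5 p) (hoinv p _ (hv p)) (hoinv c _ (hvx c hcF)) (by omega)
  have hT3 : (o p ∩ o c).card ≤ 3 := hF3 p hpF ▸ Finset.card_le_card fun x hx =>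
    Finset.mem_inter.2 ⟨mem_fixedPts.2 (hfx x hx), (Finset.mem_inter.1 hx).1⟩
  have hT1 : 0 < (o p ∩ o c).card :=
    Finset.card_pos.2 ⟨c, Finset.mem_inter.2 ⟨hco, hpo c⟩⟩
  have hT2 : (o p ∩ o c).card = 2 := by
    rcases octad_inter_cases (ho c) (ho p) with h | h | h | ⟨h, -⟩ <;> omega
  -- count the incidences between the octad and the outside
  have h := Finset.card_mul_eq_card_mul (fun y w => w ∈ o y) (s := (o p).erase p) (t := P)
    (m := 6) (n := (((o p).erase p).filter fun y => b ∈ o y).card)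
    (fun y hy => by
      obtain ⟨g, hg, rfl⟩ := hQreach y (hQe ▸ hy)
      rw [show P.bipartiteAbove (fun y w => w ∈ o y) (g c) = o (g c) \ (o (g c) ∩ o p) by
        ext w; simp [hPW, Finset.mem_bipartiteAbove, and_comm],
        Finset.card_sdiff_of_subset Finset.inter_subset_left, octads_card (ho _), heq g hg.1 c]
      conv_lhs => rw [← hoinv p g hg]
      rw [← Finset.smul_finset_inter, Finset.card_smul_finset, Finset.inter_comm, hT2])
    (fun w hw => by
      obtain ⟨g, hg, rfl⟩ := hPreach w hw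
      rw [← Finset.card_smul_finset g (((o p).erase p).filter fun y => b ∈ o y)]
      congr 1
      ext y
      simp only [Finset.mem_bipartiteBelow, Finset.mem_smul_finset, Finset.mem_filter]
      constructor
      · rintro ⟨hy, hw'⟩
        refine ⟨g⁻¹ y, ⟨?_, ?_⟩, by simp⟩
        · obtain ⟨hyp, hyo⟩ := Finset.mem_erase.1 hy
          refine Finset.mem_erase.2 ⟨fun e => hyp ?_, (smul_mem_iff_of_fix (hoinv p g hg) _).1 ?_⟩
          · rw [← hg.2, ← e]; simp
          · simpa using hyo
        · have := heq g hg.1 (g⁻¹ y)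
          rw [show g (g⁻¹ y) = y by simp] at this
          rw [this] at hw'
          exact (Finset.smul_mem_smul_finset_iff g).1 hw'
      · rintro ⟨z, ⟨hz, hbz⟩, rfl⟩
        obtain ⟨hzp, hzo⟩ := Finset.mem_erase.1 hz
        refine ⟨Finset.mem_erase.2 ⟨fun e => hzp (g.injective (e.trans hg.2.symm)),
          (smul_mem_iff_of_fix (hoinv p g hg) z).2 hzo⟩, ?_⟩
        rw [Equiv.Perm.smul_def, heq g hg.1 z]
        exact (Finset.smul_mem_smul_finset_iff g).2 hbz)
  rw [he7, hP] at h
  omega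

theorem index_253_false {H : Subgroup (Equiv.Perm GolayPt)} (hH : H ≤ M24)
    (hc : Nat.card H = 967680) : False := by
  classical
  haveI : Fact (Nat.Prime 7) := ⟨by norm_num⟩
  haveI : Fact (Nat.Prime 5) := ⟨by norm_num⟩
  obtain ⟨O, haO, hinv, hreach, hmul⟩ := orbit_mul H none
  have hle := Subgroup.card_dvd_of_le (ptPart_le hH none)
  rw [st1_card] at hle
  rw [hc] at hmul
  have hs0 : 0 < O.card := Finset.card_pos.2 ⟨_, haO⟩
  have h24 : O.card ≤ 24 := by simpa using Finset.card_le_univ O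
  have h := cases_253 O.card h24 (Dvd.intro _ hmul.symm)
    (by rw [hmul, Nat.mul_div_cancel_left _ hs0]; exact hle)
  have ht := trans_of_card hreach h
  have hcard : ∀ p, Nat.card (ptPart H p) = 40320 := fun p => by
    have := ptPart_card_of_trans ht p
    omega
  have key := fun p => index_253 (ptPart_le hH p) (hcard p)
  by_cases hall : ∀ p, ∃ s : Finset GolayPt, s.card = 2 ∧ p ∉ s ∧ ∀ g ∈ ptPart H p, g • s = s
  · exact triple_false hH hall (fun p => exists_order 7 (by rw [hcard]; norm_num))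
      ⟨none, exists_order (H := ptPart H none) 5 (by rw [hcard]; norm_num)⟩
  obtain ⟨p, hp⟩ := not_forall.1 hall
  obtain ⟨o, ho, hpo, hoinv⟩ := (key p).resolve_left hp
  refine octad_sys_false hH ht hcard fun x => ?_
  obtain ⟨g, hg, rfl⟩ := ht p x
  refine ⟨g • o, smul_mem_octads (hH hg) ho, (Finset.smul_mem_smul_finset_iff g).2 hpo,
    fun k hk => ?_⟩
  rw [show k • g • o = g • (g⁻¹ * k * g) • o by rw [smul_smul, smul_smul]; congr 1; group,
    hoinv _ (ptPart_conj' hg hk)]

/-! ### Index 1771 -/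

theorem semireg {v z : Equiv.Perm GolayPt} (hv5 : orderOf v = 5)
    (hz : z ∈ Subgroup.zpowers v) (h1 : z ≠ 1) : Subgroup.zpowers z = Subgroup.zpowers v := by
  refine Subgroup.eq_of_le_of_card_ge (Subgroup.zpowers_le.2 hz) ?_
  have h := Subgroup.card_dvd_of_le (Subgroup.zpowers_le.2 hz)
  rw [Nat.card_zpowers, Nat.card_zpowers, hv5] at h
  rw [Nat.card_zpowers, Nat.card_zpowers, hv5,
    ((Nat.dvd_prime Nat.prime_five).1 h).resolve_left (orderOf_eq_one_iff.not.2 h1)]

/-- An involution with a common fixed point does not commute with an element of order five. -/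
theorem five_no_inv {v t : Equiv.Perm GolayPt} (hv : v ∈ M24) (hv5 : orderOf v = 5) (ht : t ∈ M24)
    (ht2 : orderOf t = 2) (hcomm : Commute t v) {a : GolayPt} (hva : v a = a) (hta : t a = a) :
    False := by
  haveI : Fact (Nat.Prime 5) := ⟨Nat.prime_five⟩
  haveI : Fact (Nat.Prime 2) := ⟨Nat.prime_two⟩
  have h8 : (fixedPts t).card = 8 := by
    obtain ⟨_, _, ⟨h, -⟩ | ⟨h, -⟩⟩ := inv_classes ht ht2
    · exact h
    · exact absurd hta (fixedPts_card_zero.1 h a)
  have hvt : v • fixedPts t = fixedPts t := smul_eq_of_mapsTo fun x hx => by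
    rw [mem_fixedPts] at hx ⊢
    rw [← Equiv.Perm.mul_apply, hcomm.eq, Equiv.Perm.mul_apply, hx]
  have htv : t • fixedPts v = fixedPts v := smul_eq_of_mapsTo fun x hx => by
    rw [mem_fixedPts] at hx ⊢
    rw [← Equiv.Perm.mul_apply, ← hcomm.eq, Equiv.Perm.mul_apply, hx]
  have h1 := fixedPts_mod hv5 _ hvt
  have h2 := fixedPts_mod ht2 _ htv
  have e : ((fixedPts t).filter fun x => v x = x) = (fixedPts v).filter fun x => t x = x := by
    ext x; simp [mem_fixedPts, and_comm]
  rw [h8, e] at h1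
  rw [fixedPts_five hv hv5] at h2
  have := Finset.card_filter_le (fixedPts v) fun x => t x = x
  rw [fixedPts_five hv hv5] at this
  omega

/-- An element of order three commuting with one of order five does not fix its four points. -/
theorem five_no_three {v w : Equiv.Perm GolayPt} (hv : v ∈ M24) (hv5 : orderOf v = 5) (hw : w ∈ M24)
    (hw3 : orderOf w = 3) (hcomm : Commute w v) (hfix : ∀ x ∈ fixedPts v, w x = x) : False := by
  haveI : Fact (Nat.Prime 5) := ⟨Nat.prime_five⟩
  have h6 : (fixedPts w).card = 6 := by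
    obtain ⟨_, _, ⟨h, -⟩ | ⟨h, -⟩⟩ := three_classes hw hw3
    · exact h
    · obtain ⟨x, hx⟩ := Finset.card_pos.1 (by rw [fixedPts_five hv hv5]; norm_num :
        0 < (fixedPts v).card)
      exact absurd (hfix x hx) (fixedPts_card_zero.1 h x)
  have hvw : v • fixedPts w = fixedPts w := smul_eq_of_mapsTo fun x hx => by
    rw [mem_fixedPts] at hx ⊢
    rw [← Equiv.Perm.mul_apply, hcomm.eq, Equiv.Perm.mul_apply, hx]
  have h1 := fixedPts_mod hv5 _ hvw
  rw [h6, show ((fixedPts w).filter fun x => v x = x) = fixedPts v from Finset.ext fun x => by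
    rw [Finset.mem_filter, mem_fixedPts, mem_fixedPts]
    exact ⟨fun h => h.2, fun h => ⟨hfix x (mem_fixedPts.2 h), h⟩⟩, fixedPts_five hv hv5] at h1
  omega

theorem five_norm {A : Subgroup (Equiv.Perm GolayPt)} {a : GolayPt} (hA : A ≤ st1 a)
    (hc : Nat.card A = 5760) {v : Equiv.Perm GolayPt} (hv : v ∈ A) (hv5 : orderOf v = 5) :
    (Nat.card ↥(A ⊓ Subgroup.normalizer (Subgroup.zpowers v : Set (Equiv.Perm GolayPt))) = 10 ∧
        ∀ x ∈ fixedPts v, A ⊓ Subgroup.normalizer (Subgroup.zpowers v : Set (Equiv.Perm GolayPt)) ≤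
          MulAction.stabilizer (Equiv.Perm GolayPt) x) ∨
      ∃ w ∈ A, orderOf w = 3 ∧ Commute w v := by
  classical
  haveI : Fact (Nat.Prime 5) := ⟨Nat.prime_five⟩
  haveI : Fact (Nat.Prime 2) := ⟨Nat.prime_two⟩
  haveI : Fact (Nat.Prime 3) := ⟨Nat.prime_three⟩
  set P := Subgroup.zpowers v with hP
  have hPc : Nat.card P = 5 := by rw [hP, Nat.card_zpowers, hv5]
  set C := A ⊓ Subgroup.centralizer (P : Set (Equiv.Perm GolayPt)) with hC
  have hCv : ∀ g ∈ C, Commute g v := fun g hg =>
    (Subgroup.mem_centralizer_iff.1 hg.2 v (Subgroup.mem_zpowers v)).symm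
  have hCst : C ≤ stSet (fixedPts v) := fun g hg => ⟨(hA hg.1).1, smul_eq_of_mapsTo fun x hx => by
    rw [mem_fixedPts] at hx ⊢
    rw [← Equiv.Perm.mul_apply, ← (hCv g hg).eq, Equiv.Perm.mul_apply, hx]⟩
  have hno2 : ¬ 2 ∣ Nat.card C := fun h => by
    obtain ⟨t, ht, ht2⟩ := exists_order (H := C) 2 h
    exact five_no_inv (hA hv).1 hv5 (hA ht.1).1 ht2 (hCv t ht) (hA hv).2 (hA ht.1).2
  have hC15 : Nat.card C ∣ 15 := by
    obtain ⟨I, hI⟩ := restr_split hCst
    have hI2 : Nat.Coprime (Nat.card I) 8 := (Nat.Coprime.pow_right 3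
      ((Nat.prime_two.coprime_iff_not_dvd.2 fun h => hno2 (hI ▸ h.mul_left _)).symm))
    have hI24 : Nat.card I ∣ 8 * 3 := by
      have := Subgroup.card_subgroup_dvd_card I
      rwa [sym_card, fixedPts_five (hA hv).1 hv5] at this
    have hK : Nat.card ↥(C ⊓ ptFix (fixedPts v)) ∣ 5 := by
      have hd : Nat.card ↥(C ⊓ ptFix (fixedPts v)) ∣ 128 * 9 * 5 :=
        (Subgroup.card_dvd_of_le (inf_le_left.trans inf_le_left)).trans (dvd_of_eq hc)
      refine Nat.Coprime.dvd_of_dvd_mul_left (Nat.Coprime.mul_right ?_ ?_) hd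
      · refine Nat.Coprime.pow_right 7 (Nat.prime_two.coprime_iff_not_dvd.2 fun h => hno2 ?_).symm
        exact h.trans (Subgroup.card_dvd_of_le inf_le_left)
      · refine Nat.Coprime.pow_right 2 (Nat.prime_three.coprime_iff_not_dvd.2 fun h => ?_).symm
        obtain ⟨w, hw, hw3⟩ := exists_order (H := C ⊓ ptFix (fixedPts v)) 3 h
        exact five_no_three (hA hv).1 hv5 (hA hw.1.1).1 hw3 (hCv w hw.1) (mem_ptFix.1 hw.2).2
    rw [hI]
    exact Nat.mul_dvd_mul hK (hI2.dvd_of_dvd_mul_left hI24)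
  obtain ⟨n, hn, hnd, hnm⟩ := sylow_count (G := A) (m := 1152) (Subgroup.zpowers_le.2 hv) hPc
    (by rw [hc]) (by norm_num)
  have hN := normalizer_dvd (G := A) hPc
  rw [hn, ← hC] at hN
  have hn12 : n ∣ 12 := Nat.dvd_of_mul_dvd_mul_left (show 0 < 5 by norm_num)
    (hN.trans (Nat.mul_dvd_mul_left 4 hC15))
  have key : ∀ n < 13, n ∣ 12 → 1152 / n % 5 = 1 → n = 2 ∨ n = 12 := by decide
  rcases key n (Nat.lt_succ_of_le (Nat.le_of_dvd (by norm_num) hn12)) hn12 hnm with rfl | rfl
  · left
    obtain ⟨t, ht, ht2⟩ := exists_order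
      (H := A ⊓ Subgroup.normalizer (P : Set (Equiv.Perm GolayPt))) 2 (by rw [hn]; norm_num)
    have hta : t a = a := (hA ht.1).2
    have htn : t * v * t⁻¹ ∈ P :=
      (Subgroup.mem_normalizer_iff.1 ht.2 v).1 (Subgroup.mem_zpowers v)
    have hfix : ∀ x, v x = x → v (t x) = t x := by
      intro x hx
      have hinv : t⁻¹ * v * t ∈ P := by
        have := (Subgroup.mem_normalizer_iff.1 (inv_mem ht.2) v).1 (Subgroup.mem_zpowers v)
        rwa [inv_inv] at this
      have : (t⁻¹ * v * t) x = x := by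
        obtain ⟨k, hk⟩ := hinv
        rw [← hk]
        exact Function.IsFixedPt.perm_zpow hx k
      simpa using congrArg t this
    have htst : t • fixedPts v = fixedPts v := smul_eq_of_mapsTo fun x hx =>
      mem_fixedPts.2 (hfix x (mem_fixedPts.1 hx))
    refine ⟨by rw [hn], ?_⟩
    have h8 : (fixedPts t).card = 8 := by
      obtain ⟨_, _, ⟨h, -⟩ | ⟨h, -⟩⟩ := inv_classes (hA ht.1).1 ht2
      · exact h
      · exact absurd hta (fixedPts_card_zero.1 h a)
    -- translates of the moved part of the fixed points are disjoint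
    set W := fixedPts t \ fixedPts v with hW
    have hbad : ∀ x ∈ W, ∀ i : ℕ, 0 < i → i < 5 → t ((v ^ i) x) ≠ (v ^ i) x := by
      intro x hx i hi hi5 he
      simp only [hW, Finset.mem_sdiff, mem_fixedPts] at hx
      have hne : v ^ i ≠ 1 := pow_ne_one_of_lt_orderOf (by omega) (by omega)
      have hconj : t * v ^ i * t⁻¹ ∈ P := by
        rw [← conj_pow]; exact pow_mem htn i
      have heq : t * v ^ i * t⁻¹ = v ^ i := by
        by_contra hne'
        have hz : (t * v ^ i * t⁻¹)⁻¹ * v ^ i ∈ P :=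
          mul_mem (inv_mem hconj) (pow_mem (Subgroup.mem_zpowers v) i)
        have hz1 : (t * v ^ i * t⁻¹)⁻¹ * v ^ i ≠ 1 := fun e => hne' (inv_mul_eq_one.1 e)
        have hzx : (t * v ^ i * t⁻¹)⁻¹ * v ^ i ∈ MulAction.stabilizer (Equiv.Perm GolayPt) x := by
          rw [MulAction.mem_stabilizer_iff, Equiv.Perm.smul_def, Equiv.Perm.mul_apply,
            Equiv.Perm.inv_def, Equiv.symm_apply_eq, Equiv.Perm.mul_apply, Equiv.Perm.mul_apply,
            show t⁻¹ x = x by rw [Equiv.Perm.inv_def, Equiv.symm_apply_eq, hx.1], he]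
        have := Subgroup.zpowers_le.2 hzx
        rw [semireg hv5 hz hz1] at this
        exact hx.2 (this (Subgroup.mem_zpowers v))
      have hcomm : Commute t (v ^ i) := by
        show t * v ^ i = v ^ i * t
        nth_rewrite 2 [← heq]
        group
      have hv' : v ∈ Subgroup.zpowers (v ^ i) := by
        rw [semireg hv5 (pow_mem (Subgroup.mem_zpowers v) i) hne]
        exact Subgroup.mem_zpowers v
      obtain ⟨k, hk⟩ := hv'
      exact five_no_inv (hA hv).1 hv5 (hA ht.1).1 ht2 (hk ▸ hcomm.zpow_right k) (hA hv).2 hta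
    have hW4 : 5 * W.card ≤ 20 := by
      have hmem : ∀ y ∈ W ×ˢ Finset.range 5, (v ^ y.2) y.1 ∈ Finset.univ \ fixedPts v := by
        intro y hy
        rw [Finset.mem_product] at hy
        simp only [Finset.mem_sdiff, Finset.mem_univ, true_and, mem_fixedPts]
        intro e
        have h1 : (v * v ^ y.2) y.1 = (v ^ y.2) y.1 := e
        rw [(Commute.self_pow v y.2).eq, Equiv.Perm.mul_apply] at h1
        exact (Finset.mem_sdiff.1 hy.1).2 (mem_fixedPts.2 ((v ^ y.2).injective h1))
      have := Finset.card_le_card_of_injOn (fun y : GolayPt × ℕ => (v ^ y.2) y.1) hmem ?_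
      · rw [Finset.card_product, Finset.card_range, Finset.card_univ_sdiff,
          fixedPts_five (hA hv).1 hv5] at this
        rw [mul_comm]; exact this
      rintro ⟨x, i⟩ hx ⟨y, j⟩ hy he
      simp only [Finset.coe_product, Set.mem_prod, Finset.mem_coe, Finset.mem_range] at hx hy he
      have main : ∀ x y : GolayPt, x ∈ W → y ∈ W → ∀ i j : ℕ, i ≤ j → j < 5 →
          (v ^ i) x = (v ^ j) y → x = y ∧ i = j := by
        intro x y hx hy i j hij hj he
        have hxy : x = (v ^ (j - i)) y := by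
          refine (v ^ i).injective ?_
          rw [he, ← Equiv.Perm.mul_apply, ← pow_add, Nat.add_sub_cancel' hij]
        rcases Nat.eq_zero_or_pos (j - i) with h0 | h0
        · rw [h0, pow_zero] at hxy
          exact ⟨hxy, by omega⟩
        · refine (hbad y hy (j - i) h0 (by omega) ?_).elim
          rw [← hxy]
          exact mem_fixedPts.1 (Finset.mem_sdiff.1 hx).1
      rcases le_total i j with h | h
      · obtain ⟨rfl, rfl⟩ := main x y hx.1 hy.1 i j h hy.2 he
        rfl
      · obtain ⟨rfl, rfl⟩ := main y x hy.1 hx.1 j i h hx.2 he.symm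
        rfl
    have h1 := Finset.card_inter_add_card_sdiff (fixedPts t) (fixedPts v)
    rw [h8] at h1
    have h2 : fixedPts t ∩ fixedPts v = fixedPts v :=
      Finset.eq_of_subset_of_card_le Finset.inter_subset_right
        (by
          rw [fixedPts_five (hA hv).1 hv5]
          change (fixedPts t ∩ fixedPts v).card + W.card = 8 at h1
          have h2 := fixedPts_mod ht2 _ htst
          rw [fixedPts_five (hA hv).1 hv5, show ((fixedPts v).filter fun x => t x = x) =
            fixedPts t ∩ fixedPts v by ext; simp [mem_fixedPts, and_comm]] at h2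
          omega)
    intro x hx
    set N := A ⊓ Subgroup.normalizer (P : Set (Equiv.Perm GolayPt)) with hNdef
    set Nx := N ⊓ MulAction.stabilizer (Equiv.Perm GolayPt) x with hNx
    have hvN : v ∈ Nx := ⟨⟨hv, Subgroup.le_normalizer (Subgroup.mem_zpowers v)⟩, mem_fixedPts.1 hx⟩
    have htN : t ∈ Nx := ⟨ht, by
      rw [← h2] at hx
      exact mem_fixedPts.1 (Finset.mem_inter.1 hx).1⟩
    have h5 : 5 ∣ Nat.card Nx := by
      have := orderOf_dvd_natCard (⟨v, hvN⟩ : Nx)
      rwa [← Subgroup.orderOf_coe, hv5] at this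
    have h2' : 2 ∣ Nat.card Nx := by
      have := orderOf_dvd_natCard (⟨t, htN⟩ : Nx)
      rwa [← Subgroup.orderOf_coe, ht2] at this
    have : Nx = N := Subgroup.eq_of_le_of_card_ge inf_le_left (by
      rw [hn]
      exact Nat.le_of_dvd Nat.card_pos (Nat.Coprime.mul_dvd_of_dvd_of_dvd (by norm_num) h5 h2'))
    exact this.ge.trans inf_le_right
  · right
    have h3 : 3 ∣ Nat.card C := by
      have h3 : 3 ∣ 4 * Nat.card C := (show 3 ∣ 5 * 12 by norm_num).trans hN
      exact ((Nat.prime_three.dvd_mul).1 h3).resolve_left (by norm_num)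
    obtain ⟨w, hw, hw3⟩ := exists_order (H := C) 3 h3
    exact ⟨w, hw.1, hw3, hCv w hw⟩

theorem six_fix_le {E : Finset GolayPt} (hE : E.card = 6) : Nat.card (ptFix E) ≤ 16 := by
  by_cases h : ∃ o ∈ octads, E ⊆ o
  · obtain ⟨o, ho, hs⟩ := h
    rw [six_in_octad_fix ho hs hE, octFix_card ho]
  · rw [six_out_fix hE h]; norm_num

/-- Five points left over are too few for a group of order 5760. -/
theorem five_set_false {A : Subgroup (Equiv.Perm GolayPt)} {a : GolayPt} (hA : A ≤ st1 a)
    (hc : Nat.card A = 5760) {S : Finset GolayPt} (hS : S.card = 5) (ha : a ∉ S)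
    (hinv : ∀ g ∈ A, g • S = S) : False := by
  classical
  obtain ⟨I, hI⟩ := restr_split (fun g hg => ⟨(hA hg).1, hinv g hg⟩ : A ≤ stSet S)
  have h1 : Nat.card I ≤ 120 := by
    have := Subgroup.card_le_card_group I
    rwa [sym_card, hS] at this
  have h2 : Nat.card ↥(A ⊓ ptFix S) ≤ 16 :=
    (Subgroup.card_le_of_le fun g (hg : g ∈ A ⊓ ptFix S) => mem_ptFix.2 ⟨(hA hg.1).1, fun p hp => by
      rcases Finset.mem_insert.1 hp with rfl | hp
      exacts [(hA hg.1).2, (mem_ptFix.1 hg.2).2 p hp]⟩).trans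
      (six_fix_le (E := insert a S) (by rw [Finset.card_insert_of_notMem ha, hS]))
  have := Nat.mul_le_mul h2 h1
  omega

theorem cases_six (s : ℕ) (hs : s ≤ 23) (h5 : s % 5 = 1) (hd : s ∣ 576) :
    s = 1 ∨ s = 6 ∨ s = 16 := by
  have h0 : 576 % s = 0 := Nat.mod_eq_zero_of_dvd hd
  interval_cases s <;> omega

theorem cases_three (s : ℕ) (hs : s ≤ 23) (h5 : s % 5 = 3) (hd : s ∣ 5760) :
    s = 3 ∨ s = 8 ∨ s = 18 := by
  have h0 : 5760 % s = 0 := Nat.mod_eq_zero_of_dvd hd
  interval_cases s <;> omega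

/-- In a transitive group of order 138240 the four points of an element of order five form an
invariant set of the point parts. -/
theorem tetrad_inv {H : Subgroup (Equiv.Perm GolayPt)} (hH : H ≤ M24)
    (ht : ∀ p q, ∃ g ∈ H, g p = q) (hcard : ∀ p, Nat.card (ptPart H p) = 5760) {a : GolayPt}
    {v : Equiv.Perm GolayPt} (hv : v ∈ ptPart H a) (hv5 : orderOf v = 5) :
    ∀ g ∈ ptPart H a, g • fixedPts v = fixedPts v := by
  classical
  haveI : Fact (Nat.Prime 5) := ⟨Nat.prime_five⟩
  haveI : Fact (Nat.Prime 3) := ⟨Nat.prime_three⟩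
  have hA := ptPart_le hH a
  have hF4 := fixedPts_five (hA hv).1 hv5
  have haF : a ∈ fixedPts v := mem_fixedPts.2 hv.2
  have hE3 : ((fixedPts v).erase a).card = 3 := by rw [Finset.card_erase_of_mem haF, hF4]
  have hreachE : ∀ x ∈ (fixedPts v).erase a, x ≠ a ∧ v x = x := fun x hx =>
    ⟨(Finset.mem_erase.1 hx).1, mem_fixedPts.1 (Finset.mem_erase.1 hx).2⟩
  have hPa : ∀ (x : GolayPt) (P : Finset GolayPt), x ≠ a →
      (∀ b ∈ P, ∃ g ∈ ptPart H a, g x = b) → a ∉ P := fun x P hxa hr h => by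
    obtain ⟨g, hg, e⟩ := hr a h
    exact hxa (g.injective (e.trans hg.2.symm))
  have hP23 : ∀ P : Finset GolayPt, a ∉ P → P.card ≤ 23 := fun P h => by
    have := Finset.card_le_univ (insert a P)
    rw [Finset.card_insert_of_notMem h, show Fintype.card GolayPt = 24 from rfl] at this
    omega
  have hrest : ∀ U : Finset GolayPt, a ∉ U → U.card = 18 →
      (∀ g ∈ ptPart H a, g • U = U) → False := by
    intro U haU hU hinv
    refine five_set_false hA (hcard a) (S := (Finset.univ \ U).erase a) ?_ (by simp) fun g hg =>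
      smul_eq_of_mapsTo fun x hx => ?_
    · rw [Finset.card_erase_of_mem (Finset.mem_sdiff.2 ⟨Finset.mem_univ _, haU⟩),
        Finset.card_univ_sdiff, hU]
      rfl
    · simp only [Finset.mem_erase, Finset.mem_sdiff, Finset.mem_univ, true_and] at hx ⊢
      exact ⟨fun e => hx.1 (g.injective (e.trans hg.2.symm)),
        fun e => hx.2 ((smul_mem_iff_of_fix (hinv g hg) x).1 e)⟩
  rcases five_norm hA (hcard a) hv hv5 with ⟨hN, hNfix⟩ | ⟨w, hwA, hw3, hcomm⟩
  · -- the orbits of the three other fixed points are separate, of length one, six or sixteen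
    exfalso
    set N := ptPart H a ⊓ Subgroup.normalizer (Subgroup.zpowers v : Set (Equiv.Perm GolayPt))
      with hNdef
    have horb : ∀ x ∈ (fixedPts v).erase a, ∃ P : Finset GolayPt, x ∈ P ∧ a ∉ P ∧
        (∀ g ∈ ptPart H a, g • P = P) ∧ (∀ b ∈ P, ∃ g ∈ ptPart H a, g x = b) ∧
        P.card * Nat.card (ptPart (ptPart H a) x) = 5760 ∧
        (∀ y ∈ P, v y = y → y = x) ∧ (P.card = 1 ∨ P.card = 6 ∨ P.card = 16) := by
      intro x hx
      obtain ⟨hxa, hvx⟩ := hreachE x hx
      obtain ⟨P, hxP, hinv, hreach, hmul⟩ := orbit_mul (ptPart H a) x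
      rw [hcard] at hmul
      have haP := hPa x P hxa hreach
      have hvA : v ∈ ptPart (ptPart H a) x := ⟨hv, hvx⟩
      obtain ⟨m, hm⟩ : 5 ∣ Nat.card (ptPart (ptPart H a) x) := by
        have := orderOf_dvd_natCard (⟨v, hvA⟩ : ptPart (ptPart H a) x)
        rwa [← Subgroup.orderOf_coe, hv5] at this
      have hPm : P.card * m = 1152 := by rw [hm, mul_left_comm] at hmul; omega
      have hm5 : ¬ 5 ∣ m := fun h => absurd (hPm ▸ h.mul_left P.card) (by norm_num)
      obtain ⟨k, hk, ⟨l, hl⟩, hkm⟩ := sylow_count (Subgroup.zpowers_le.2 hvA)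
        (by rw [Nat.card_zpowers, hv5]) hm hm5
      have hNx : ptPart (ptPart H a) x ⊓ Subgroup.normalizer
          (Subgroup.zpowers v : Set (Equiv.Perm GolayPt)) = N :=
        le_antisymm (fun g hg => ⟨hg.1.1, hg.2⟩)
          fun g hg => ⟨⟨hg.1, hNfix x (Finset.mem_erase.1 hx).2 hg⟩, hg.2⟩
      rw [hNx, hN] at hk
      obtain rfl : k = 2 := by omega
      subst hl
      rw [Nat.mul_div_cancel_left _ (by norm_num : 0 < 2)] at hkm
      have hPl : P.card * l = 576 := by rw [mul_left_comm] at hPm; omega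
      have hP5 : P.card % 5 = 1 := by
        have h := Nat.mul_mod P.card l 5
        rw [hPl, hkm, mul_one, Nat.mod_mod] at h
        exact h.symm
      have hm := fixedPts_mod hv5 P (hinv v hv)
      have hle : (P.filter fun y => v y = y).card ≤ 3 := hE3 ▸ Finset.card_le_card fun y hy => by
        obtain ⟨h1, h2⟩ := Finset.mem_filter.1 hy
        exact Finset.mem_erase.2 ⟨fun e => haP (e ▸ h1), mem_fixedPts.2 h2⟩
      refine ⟨P, hxP, haP, hinv, hreach, hmul.symm, fun y hy hvy => ?_,
        cases_six _ (hP23 P haP) hP5 (Dvd.intro _ hPl)⟩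
      have h1 : (P.filter fun y => v y = y).card ≤ 1 := by omega
      exact Finset.card_le_one.1 h1 y (Finset.mem_filter.2 ⟨hy, hvy⟩) x
        (Finset.mem_filter.2 ⟨hxP, hvx⟩)
    choose! P hxP haP hinv hreach hmul huniq hsz using horb
    have hdisj : ((fixedPts v).erase a : Set GolayPt).PairwiseDisjoint P := by
      intro x hx y hy hxy
      rw [Function.onFun, Finset.disjoint_left]
      intro z hzx hzy
      obtain ⟨g, hg, rfl⟩ := hreach y hy z hzy
      exact hxy (huniq x hx y ((smul_mem_iff_of_fix (hinv x hx g hg) y).1 hzx)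
        (hreachE y hy).2).symm
    have hsum : ∑ x ∈ (fixedPts v).erase a, (P x).card ≤ 23 := by
      rw [← Finset.card_biUnion hdisj]
      refine hP23 _ fun h => ?_
      obtain ⟨x, hx, h⟩ := Finset.mem_biUnion.1 h
      exact haP x hx h
    by_cases hone : ∃ b ∈ (fixedPts v).erase a, (P b).card = 1
    · obtain ⟨b, hb, hb1⟩ := hone
      have hbF : b ∈ fixPart H a := mem_fixPart.2 fun g hg => by
        obtain ⟨z, hz⟩ := Finset.card_eq_one.1 hb1
        have h1 : g b ∈ P b := (smul_mem_iff_of_fix (hinv b hb g hg) b).2 (hxP b hb)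
        have h2 := hxP b hb
        rw [hz, Finset.mem_singleton] at h1 h2
        rw [h1, ← h2]
      obtain ⟨hba, hvb⟩ := hreachE b hb
      have hthree : ∀ c, c ≠ a → c ≠ b → c ∉ fixPart H a := by
        intro c hca hcb hc
        have := fixed_three_dvd (K := ptPart H a) (fun g hg => hH hg.1) hba.symm (Ne.symm hca)
          (Ne.symm hcb) fun g hg => ⟨hg.2, mem_fixPart.1 hbF g hg, mem_fixPart.1 hc g hg⟩
        rw [hcard] at this
        norm_num at this
      obtain ⟨c, d, hcd, hE⟩ := Finset.card_eq_two.1 (show (((fixedPts v).erase a).erase b).card = 2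
        by rw [Finset.card_erase_of_mem hb, hE3])
      have hcm : c ≠ b ∧ c ∈ (fixedPts v).erase a := Finset.mem_erase.1 (hE ▸ by simp)
      have hdm : d ≠ b ∧ d ∈ (fixedPts v).erase a := Finset.mem_erase.1 (hE ▸ by simp)
      obtain ⟨hca, hvc⟩ := hreachE c hcm.2
      -- the companion of `c` is `d`
      obtain ⟨g, hg, hgc⟩ := ht a c
      have he : g b ∈ fixPart H c := mem_fixPart.2 fun k hk => by
        have := mem_fixPart.1 hbF _ (ptPart_conj' hg (hgc ▸ hk))
        simp only [Equiv.Perm.mul_apply, Equiv.Perm.inv_def, Equiv.symm_apply_eq] at this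
        exact this
      have hgd : g b = d := by
        have h1 : g b ≠ c := fun e => hba (g.injective (e.trans hgc.symm))
        have h2 : g b ∈ fixedPts v :=
          mem_fixedPts.2 (mem_fixPart.1 he v ⟨hv.1, hvc⟩)
        have h3 : ∀ z, z ∈ fixPart H a → z ≠ g b := fun z hz e => by
          have hK : ptPart H c = ptPart H a := by
            rw [ptPart_eq_of_mem hcard he, ptPart_eq_of_mem hcard hz, e]
          exact hthree c hca hcm.1 (mem_fixPart.2 fun k hk => (hK ▸ hk : k ∈ ptPart H c).2)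
        by_contra hne
        have h4 : g b ∈ ((fixedPts v).erase a).erase b :=
          Finset.mem_erase.2 ⟨(h3 b hbF).symm, Finset.mem_erase.2
            ⟨(h3 a (fixPart_self H a)).symm, h2⟩⟩
        rw [hE, Finset.mem_insert, Finset.mem_singleton] at h4
        exact h4.elim h1 hne
      have hK : ptPart H c = ptPart H d := hgd ▸ ptPart_eq_of_mem hcard he
      have hK' : ptPart (ptPart H a) c = ptPart (ptPart H a) d := by
        ext k
        simp only [mem_ptPart]
        exact ⟨fun h => ⟨h.1, ((hK ▸ ⟨h.1.1, h.2⟩ : k ∈ ptPart H d)).2⟩,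
          fun h => ⟨h.1, ((hK.symm ▸ ⟨h.1.1, h.2⟩ : k ∈ ptPart H c)).2⟩⟩
      have hsize : (P c).card = (P d).card := by
        have h1 := hmul c hcm.2
        rw [hK'] at h1
        exact Nat.eq_of_mul_eq_mul_right Nat.card_pos (h1.trans (hmul d hdm.2).symm)
      have hsum' : (P c).card + (P d).card ≤ 23 := by
        refine le_trans (le_of_eq ?_) ((Finset.sum_le_sum_of_subset
          (Finset.erase_subset b _)).trans hsum)
        rw [hE, Finset.sum_pair hcd]
      have h6 : (P c).card = 6 := by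
        rcases hsz c hcm.2 with h | h | h
        · refine absurd (mem_fixPart.2 fun k hk => ?_) (hthree c hca hcm.1)
          obtain ⟨z, hz⟩ := Finset.card_eq_one.1 h
          have h1 : k c ∈ P c :=
            (smul_mem_iff_of_fix (hinv c hcm.2 k hk) c).2 (hxP c hcm.2)
          have h2 := hxP c hcm.2
          rw [hz, Finset.mem_singleton] at h1 h2
          rw [h1, ← h2]
        · exact h
        · omega
      obtain ⟨I, hI⟩ := restr_split (fun k hk => ⟨hH hk.1, hinv c hcm.2 k hk⟩ :
        ptPart H a ≤ stSet (P c))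
      have hker : ptPart H a ⊓ ptFix (P c) = ⊥ := (Subgroup.eq_bot_iff_forall _).2 fun k hk => by
        by_contra hk1
        have h8 := fixedPts_le_eight (hH hk.1.1) hk1
        have hsub : insert a (insert b (P c ∪ P d)) ⊆ fixedPts k := by
          intro y hy
          rw [mem_fixedPts]
          simp only [Finset.mem_insert, Finset.mem_union] at hy
          rcases hy with rfl | rfl | hy | hy
          · exact hk.1.2
          · exact mem_fixPart.1 hbF k hk.1
          · exact (mem_ptFix.1 hk.2).2 y hy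
          · obtain ⟨l, hl, rfl⟩ := hreach d hdm.2 y hy
            have hlc : k (l c) = l c := (mem_ptFix.1 hk.2).2 _
              ((smul_mem_iff_of_fix (hinv c hcm.2 l hl) c).2 (hxP c hcm.2))
            have h : l⁻¹ * k * l ∈ ptPart (ptPart H a) c :=
              mem_ptPart.2 ⟨mul_mem (mul_mem (inv_mem hl) hk.1) hl, by simp [hlc]⟩
            rw [hK'] at h
            have := congrArg l h.2
            simpa using this
        have hcard14 := Finset.card_le_card hsub
        rw [Finset.card_insert_of_notMem, Finset.card_insert_of_notMem,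
          Finset.card_union_of_disjoint (hdisj hcm.2 hdm.2 hcd), ← hsize, h6] at hcard14
        · omega
        · rw [Finset.mem_union]
          rintro (h | h)
          · exact hcm.1 (huniq c hcm.2 b h hvb).symm
          · exact hdm.1 (huniq d hdm.2 b h hvb).symm
        · simp [Ne.symm hba, haP c hcm.2, haP d hdm.2]
      rw [hker, Subgroup.card_bot, one_mul, hcard] at hI
      have := Subgroup.card_le_card_group I
      rw [sym_card, h6, ← hI] at this
      exact absurd this (by decide)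
    · push Not at hone
      have hall : ∀ x ∈ (fixedPts v).erase a, 6 ≤ (P x).card := fun x hx => by
        rcases hsz x hx with h | h | h
        · exact absurd h (hone x hx)
        all_goals omega
      have h6 : ∀ x ∈ (fixedPts v).erase a, (P x).card = 6 := by
        intro x hx
        rcases hsz x hx with h | h | h
        · exact absurd h (hone x hx)
        · exact h
        · exfalso
          have h1 := Finset.add_sum_erase _ (fun y => (P y).card) hx
          have h2 := Finset.card_nsmul_le_sum (((fixedPts v).erase a).erase x) (fun y => (P y).card) 6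
            fun y hy => hall y (Finset.mem_of_mem_erase hy)
          rw [Finset.card_erase_of_mem hx, hE3, smul_eq_mul] at h2
          omega
      refine hrest (((fixedPts v).erase a).biUnion P) ?_ ?_ fun g hg =>
        smul_eq_of_mapsTo fun y hy => ?_
      · intro h
        obtain ⟨x, hx, h⟩ := Finset.mem_biUnion.1 h
        exact haP x hx h
      · rw [Finset.card_biUnion hdisj, Finset.sum_const_nat h6, hE3]
      · obtain ⟨x, hx, h⟩ := Finset.mem_biUnion.1 hy
        exact Finset.mem_biUnion.2 ⟨x, hx, (smul_mem_iff_of_fix (hinv x hx g hg) y).2 h⟩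
  · have hwfix : ∀ x, v x = x → v (w x) = w x := fun x hx => by
      rw [← Equiv.Perm.mul_apply, ← hcomm.eq, Equiv.Perm.mul_apply, hx]
    have hwF : w • fixedPts v = fixedPts v := smul_eq_of_mapsTo fun x hx =>
      mem_fixedPts.2 (hwfix x (mem_fixedPts.1 hx))
    have hone : ∀ x ∈ fixedPts v, w x = x → x = a := by
      have hm := fixedPts_mod hw3 _ hwF
      rw [hF4] at hm
      have hlt : ((fixedPts v).filter fun x => w x = x).card < 4 := by
        refine lt_of_le_of_ne (hF4 ▸ Finset.card_filter_le _ _) fun e => ?_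
        exact five_no_three (hA hv).1 hv5 (hA hwA).1 hw3 hcomm
          (Finset.filter_eq_self.1 (Finset.eq_of_subset_of_card_le (Finset.filter_subset _ _)
            (by rw [e, hF4])))
      have h1 : ((fixedPts v).filter fun x => w x = x).card ≤ 1 := by omega
      exact fun x hx e => Finset.card_le_one.1 h1 x (Finset.mem_filter.2 ⟨hx, e⟩) a
        (Finset.mem_filter.2 ⟨haF, hwA.2⟩)
    obtain ⟨b, hb⟩ := Finset.card_pos.1 (by rw [hE3]; norm_num :
      0 < ((fixedPts v).erase a).card)
    obtain ⟨P, hbP, hinv, hreach, hmul⟩ := orbit_mul (ptPart H a) b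
    rw [hcard] at hmul
    obtain ⟨hba, hvb⟩ := hreachE b hb
    have haP := hPa b P hba hreach
    have hsub : (fixedPts v).erase a ⊆ P := by
      have hwb : w b ≠ b := fun e => hba (hone b (mem_fixedPts.2 hvb) e)
      have hwwb : w (w b) ≠ b := fun e => hwb (by
        have h3 : w (w (w b)) = b := by
          have := DFunLike.congr_fun (hw3 ▸ pow_orderOf_eq_one w : w ^ 3 = 1) b
          simpa [pow_succ] using this
        rwa [e] at h3)
      have he : ({b, w b, w (w b)} : Finset GolayPt) = (fixedPts v).erase a := by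
        refine Finset.eq_of_subset_of_card_le ?_ ?_
        · intro y hy
          simp only [Finset.mem_insert, Finset.mem_singleton] at hy
          have hk : ∀ z, v z = z → z ≠ a → w z ∈ (fixedPts v).erase a := fun z h1 h2 =>
            Finset.mem_erase.2 ⟨fun e => h2 (w.injective (e.trans hwA.2.symm)),
              mem_fixedPts.2 (hwfix z h1)⟩
          rcases hy with rfl | rfl | rfl
          · exact hb
          · exact hk b hvb hba
          · exact hk _ (hreachE _ (hk b hvb hba)).2 (hreachE _ (hk b hvb hba)).1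
        · rw [hE3, Finset.card_insert_of_notMem, Finset.card_pair]
          · exact fun e => hwb (w.injective e).symm
          · simp [Ne.symm hwb, Ne.symm hwwb]
      rw [← he]
      intro y hy
      simp only [Finset.mem_insert, Finset.mem_singleton] at hy
      have hkP : ∀ z ∈ P, w z ∈ P := fun z hz => (smul_mem_iff_of_fix (hinv w hwA) z).2 hz
      rcases hy with rfl | rfl | rfl
      exacts [hbP, hkP _ hbP, hkP _ (hkP _ hbP)]
    have hfil : (P.filter fun y => v y = y) = (fixedPts v).erase a := by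
      ext y
      rw [Finset.mem_filter, Finset.mem_erase, mem_fixedPts]
      exact ⟨fun h => ⟨fun e => haP (e ▸ h.1), h.2⟩,
        fun h => ⟨hsub (Finset.mem_erase.2 ⟨h.1, mem_fixedPts.2 h.2⟩), h.2⟩⟩
    have hm := fixedPts_mod hv5 P (hinv v hv)
    rw [hfil, hE3] at hm
    rcases cases_three P.card (hP23 P haP) hm (Dvd.intro _ hmul.symm) with h | h | h
    · intro g hg
      have hPE : (fixedPts v).erase a = P := Finset.eq_of_subset_of_card_le hsub (by omega)
      refine smul_eq_of_mapsTo fun y hy => ?_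
      by_cases hya : y = a
      · rw [hya, (show g a = a from hg.2)]; exact haF
      · have h1 : g y ∈ P :=
          (smul_mem_iff_of_fix (hinv g hg) y).2 (hPE ▸ Finset.mem_erase.2 ⟨hya, hy⟩)
        rw [← hPE] at h1
        exact (Finset.mem_erase.1 h1).2
    · exact (eight_image_false hA h haP hinv (by rw [hcard]) (by rw [hcard]; norm_num)).elim
    · exact (hrest P haP h hinv).elim

theorem card_le_orbit {α : Type*} [DecidableEq α] [MulAction (Equiv.Perm GolayPt) α]
    (H : Subgroup (Equiv.Perm GolayPt)) (a : α) (X : Finset α) (h : ∀ g ∈ H, g • a ∈ X) :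
    Nat.card H ≤ X.card * Nat.card ↥(H ⊓ MulAction.stabilizer (Equiv.Perm GolayPt) a) := by
  classical
  rw [card_eq_orbit_mul H a ↑(X.filter fun b => ∃ g ∈ H, g • a = b)
    (fun g hg => Finset.mem_coe.2 (Finset.mem_filter.2 ⟨h g hg, g, hg, rfl⟩))
    (fun b hb => (Finset.mem_filter.1 (Finset.mem_coe.1 hb)).2), Set.ncard_coe_finset]
  exact Nat.mul_le_mul_right _ (Finset.card_filter_le _ _)

theorem cases_1771 (s : ℕ) (hs : s ≤ 24) (hd : s ∣ 138240) (hd' : 138240 / s ∣ 10200960) :
    s = 24 := by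
  have h0 : 138240 % s = 0 := Nat.mod_eq_zero_of_dvd hd
  interval_cases s <;> first | omega | norm_num at hd'

theorem index_1771 {H : Subgroup (Equiv.Perm GolayPt)} (hH : H ≤ M24)
    (hc : Nat.card H = 138240) : ∃ S ∈ sextets, ∀ g ∈ H, g • S = S := by
  classical
  haveI : Fact (Nat.Prime 5) := ⟨Nat.prime_five⟩
  obtain ⟨O, haO, hinv, hreach, hmul⟩ := orbit_mul H none
  have hle := Subgroup.card_dvd_of_le (ptPart_le hH none)
  rw [st1_card] at hle
  rw [hc] at hmul
  have hs0 : 0 < O.card := Finset.card_pos.2 ⟨_, haO⟩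
  have h24 : O.card ≤ 24 := by simpa using Finset.card_le_univ O
  have h := cases_1771 O.card h24 (Dvd.intro _ hmul.symm)
    (by rw [hmul, Nat.mul_div_cancel_left _ hs0]; exact hle)
  have ht := trans_of_card hreach h
  have hcard : ∀ p, Nat.card (ptPart H p) = 5760 := fun p => by
    have := ptPart_card_of_trans ht p
    omega
  have hv : ∀ p, ∃ v ∈ ptPart H p, orderOf v = 5 := fun p =>
    exists_order 5 (by rw [hcard]; norm_num)
  choose v hv hv5 using hv
  set T := fun p => fixedPts (v p) with hT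
  have hT4 : ∀ p, (T p).card = 4 := fun p => fixedPts_five (hH (hv p).1) (hv5 p)
  have hTu : ∀ p, ∀ w ∈ ptPart H p, orderOf w = 5 → fixedPts w = T p := by
    intro p w hw hw5
    refine (Finset.eq_of_subset_of_card_le (fun x hx => mem_fixedPts.2 ?_) ?_).symm
    · exact fix_small hw5 (tetrad_inv hH ht hcard (hv p) (hv5 p) w hw) (by
        rw [show (fixedPts (v p)).card = 4 from hT4 p]; norm_num) x hx
    · rw [fixedPts_five (hH hw.1) hw5, hT4]
  have hblk : ∀ p, ∀ q ∈ T p, T q = T p := fun p q hq =>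
    (hTu q (v p) ⟨(hv p).1, mem_fixedPts.1 hq⟩ (hv5 p)).symm
  have hself : ∀ p, p ∈ T p := fun p => mem_fixedPts.2 (hv p).2
  have heq : ∀ g ∈ H, ∀ p, g • T p = T (g p) := fun g hg p => by
    rw [hT]
    simp only
    rw [← fixedPts_conj, hTu (g p) _ (ptPart_conj hg (hv p)) (by
      rw [← MulAut.conj_apply, MulEquiv.orderOf_eq, hv5])]
  set S := Finset.univ.image T with hS
  have hmem : ∀ {t}, t ∈ S ↔ ∃ p, T p = t := by simp [hS]
  have hSinv : ∀ g ∈ H, ∀ t ∈ S, g • t ∈ S := fun g hg t ht => by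
    obtain ⟨p, rfl⟩ := hmem.1 ht
    exact hmem.2 ⟨g p, (heq g hg p).symm⟩
  have hS6 : S.card = 6 := by
    have h := Finset.card_eq_sum_card_image T (Finset.univ : Finset GolayPt)
    rw [Finset.sum_const_nat (m := 4), Finset.card_univ,
      show Fintype.card GolayPt = 24 from rfl] at h
    · change 24 = S.card * 4 at h
      omega
    intro t ht
    obtain ⟨p, rfl⟩ := hmem.1 ht
    rw [show (Finset.univ.filter fun q => T q = T p) = T p from Finset.ext fun q => by
      rw [Finset.mem_filter]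
      exact ⟨fun h => h.2 ▸ hself q, fun h => ⟨Finset.mem_univ _, hblk p q h⟩⟩, hT4]
  refine ⟨S, ⟨hS6, fun t ht => ?_, fun t ht u hu hne => ?_⟩, fun g hg => ?_⟩
  · obtain ⟨p, rfl⟩ := hmem.1 ht
    exact hT4 p
  · obtain ⟨p, rfl⟩ := hmem.1 ht
    obtain ⟨q, rfl⟩ := hmem.1 hu
    set L := H ⊓ MulAction.stabilizer (Equiv.Perm GolayPt) (T p) with hLdef
    set K := L ⊓ MulAction.stabilizer (Equiv.Perm GolayPt) (T q) with hKdef
    have h1 : 138240 ≤ 6 * Nat.card L := by
      have := card_le_orbit H (T p) S fun g hg => hSinv g hg _ ht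
      rwa [hc, hS6] at this
    have h2 : Nat.card L ≤ 5 * Nat.card K := by
      have := card_le_orbit L (T q) (S.erase (T p)) fun g hg =>
        Finset.mem_erase.2 ⟨fun e => hne (MulAction.injective g (hg.2.trans e.symm)),
          hSinv g hg.1 _ hu⟩
      rwa [Finset.card_erase_of_mem ht, hS6] at this
    obtain ⟨I, hI⟩ := restr_split (fun g hg => ⟨hH hg.1.1, hg.1.2⟩ : K ≤ stSet (T p))
    obtain ⟨J, hJ⟩ := restr_split (fun g hg => ⟨hH hg.1.1.1, hg.1.2⟩ :
      K ⊓ ptFix (T p) ≤ stSet (T q))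
    have hI' : Nat.card I ≤ 24 := by
      have := Subgroup.card_le_card_group I
      rwa [sym_card, hT4] at this
    have hJ' : Nat.card J ≤ 24 := by
      have := Subgroup.card_le_card_group J
      rwa [sym_card, hT4] at this
    obtain ⟨g, hg, hg1⟩ : ∃ g ∈ K ⊓ ptFix (T p) ⊓ ptFix (T q), g ≠ 1 := by
      by_contra! hall
      rw [(Subgroup.eq_bot_iff_forall _).2 hall, Subgroup.card_bot, one_mul] at hJ
      have := Nat.mul_le_mul (hJ.trans_le hJ') hI'
      omega
    have hdis : Disjoint (T p) (T q) := Finset.disjoint_left.2 fun x hx hx' =>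
      hne ((hblk p x hx).symm.trans (hblk q x hx'))
    have h8 : (T p ∪ T q).card = 8 := by
      rw [Finset.card_union_of_disjoint hdis, hT4, hT4]
    obtain ⟨o, ho, hsub⟩ := fix_bound (hH hg.1.1.1.1) hg1 (F := T p ∪ T q) (fun x hx => by
      rcases Finset.mem_union.1 hx with h | h
      exacts [(mem_ptFix.1 hg.1.2).2 x h, (mem_ptFix.1 hg.2).2 x h]) (by omega)
    rwa [Finset.eq_of_subset_of_card_le hsub (by rw [octads_card ho, h8])]
  · refine Finset.eq_of_subset_of_card_le (fun t ht => ?_) (by rw [Finset.card_smul_finset])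
    obtain ⟨u, hu, rfl⟩ := Finset.mem_smul_finset.1 ht
    exact hSinv g hg u hu

end Cfsg.Agent.Lib.Golay
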