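import Cfsg.Agent.Lib.Golay.OctadFix
import Cfsg.Agent.Lib.LargeExtra.Affine
import Cfsg.Agent.Lib.LargeExtra.Centralizer
import Cfsg.Agent.Lib.LocalChar.Core
import Mathlib.GroupTheory.FixedPointFree

/-!
The stabilizer of an octad as an affine group, and the centralizer of an involution fixing an octad.
-/

set_option autoImplicit false
set_option maxRecDepth 100000

namespace Cfsg.Agent.Lib.Golay

open Cfsg Lib.LargeExtra
open scoped Pointwise

theorem compl_rigid : rigid (FULL ^^^ o0) = true := by decide +kernel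

theorem eq_one_of_fix_compl {o : Finset GolayPt} (ho : o ∈ octads) {g : Equiv.Perm GolayPt} (hg : g ∈ M24)
    (h : ∀ p, p ∉ o → g p = p) : g = 1 := by
  obtain ⟨σ, hσ, rfl⟩ := M24_trans_octads o0_octad ho
  have h1 : σ⁻¹ * g * σ = 1 := by
    refine eq_one_of_rigid (mul_mem (mul_mem (inv_mem hσ) hg) hσ) compl_rigid fun p hp => ?_
    rw [toSet_compl, Finset.mem_compl] at hp
    have hn : σ p ∉ σ • toSet o0 := fun hm => hp ((Finset.smul_mem_smul_finset_iff σ).1 hm)
    rw [Equiv.Perm.mul_apply, Equiv.Perm.mul_apply, h _ hn]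
    simp
  rw [show g = σ * (σ⁻¹ * g * σ) * σ⁻¹ by group, h1]; simp

theorem exists_outside {o : Finset GolayPt} (ho : o ∈ octads) : ∃ p, p ∉ o := by
  by_contra! h
  have := octads_card ho
  rw [Finset.eq_univ_of_forall h] at this
  exact absurd this (by decide)

theorem card_mulAut_sixteen {U : Type*} [Group U] (e : U ≃* Multiplicative (Affine.P 3)) :
    Nat.card (U ≃* U) = 20160 := by
  let f : (U ≃* U) ≃ (Affine.P 3 ≃ₗ[ZMod 2] Affine.P 3) :=
    { toFun := fun φ =>
        let f0 : Affine.P 3 ≃+ Affine.P 3 := AddEquiv.toMultiplicative.symm ((e.symm.trans φ).trans e)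
        f0.toLinearEquiv fun c x => ZMod.map_smul f0 c x
      invFun := fun g => (e.trans (AddEquiv.toMultiplicative g.toAddEquiv)).trans e.symm
      left_inv := fun φ => by ext x; simp
      right_inv := fun g => by ext x <;> simp }
  let g : (Affine.P 3 ≃ₗ[ZMod 2] Affine.P 3) ≃ (Affine.V 4 ≃ₗ[ZMod 2] Affine.V 4) :=
    { toFun := fun h => ((Affine.pairCoord 3).symm.trans h).trans (Affine.pairCoord 3)
      invFun := fun h => ((Affine.pairCoord 3).trans h).trans (Affine.pairCoord 3).symm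
      left_inv := fun h => by ext x <;> simp
      right_inv := fun h => by ext x; simp }
  rw [Nat.card_congr f, Nat.card_congr g, Nat.card_congr (Affine.glEquiv 4).toEquiv, Matrix.card_GL_field,
    ZMod.card, Fin.prod_univ_four]
  rfl

/-- The affine structure of an octad stabilizer. -/
theorem octad_data {o : Finset GolayPt} (ho : o ∈ octads) {z : ↥(stSet o)}
    (hz : (z : Equiv.Perm GolayPt) ∈ ptFix o) (hz1 : z ≠ 1) :
    ∃ D : Affine.Data ↥(stSet o) 3, D.z = z ∧ D.T.range = (ptFix o).subgroupOf (stSet o) := by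
  obtain ⟨htr, hfree, hsq⟩ := octFix_facts ho
  obtain ⟨p, hp⟩ := exists_outside ho
  set U := (ptFix o).subgroupOf (stSet o) with hUdef
  set M := (MulAction.stabilizer (Equiv.Perm GolayPt) p).subgroupOf (stSet o)
  haveI hUn : U.Normal := by rw [hUdef, ← restrHom_ker]; infer_instance
  have hUcard : Nat.card ↥U = 16 := by
    rw [Nat.card_congr (Subgroup.subgroupOfEquivOfLe stSet_of_ptFix).toEquiv, octFix_card ho]
  have hUel : IsElementaryAbelian 2 U := by
    have h2 : ∀ u ∈ U, u * u = 1 := fun u hu => Subtype.ext (hsq _ hu)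
    refine ⟨⟨⟨fun a b => Subtype.ext ?_⟩⟩, fun u hu => by rw [pow_two]; exact h2 u hu⟩
    have ha := h2 _ a.2
    have hb := h2 _ b.2
    have hab := h2 _ (mul_mem a.2 b.2)
    show (a : ↥(stSet o)) * b = b * a
    rw [← inv_eq_of_mul_eq_one_right hab, mul_inv_rev, inv_eq_of_mul_eq_one_right ha, inv_eq_of_mul_eq_one_right hb]
  have hUM : U ⊓ M = ⊥ := (Subgroup.eq_bot_iff_forall _).2 fun n hn =>
    Subtype.ext (hfree _ hn.1 p hp hn.2)
  have hout : ∀ (g : ↥(stSet o)) {q : GolayPt}, q ∉ o → (g : Equiv.Perm GolayPt) q ∉ o := fun g q hq h =>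
    hq ((smul_mem_iff_of_fix g.2.2 q).1 h)
  have hUM' : U ⊔ M = ⊤ := by
    refine eq_top_iff.2 fun g _ => ?_
    obtain ⟨n, hn, hnp⟩ := htr p _ hp (hout g hp)
    let n' : ↥(stSet o) := ⟨n, stSet_of_ptFix hn⟩
    rw [show g = n' * (n'⁻¹ * g) by group]
    refine mul_mem (Subgroup.mem_sup_left (show n ∈ ptFix o from hn)) (Subgroup.mem_sup_right ?_)
    show n⁻¹ ((g : Equiv.Perm GolayPt) p) = p
    rw [← hnp]; simp
  have hfaith : ∀ m ∈ M, (∀ u ∈ U, m * u * m⁻¹ = u) → m = 1 := by
    intro m hm h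
    refine Subtype.ext (eq_one_of_fix_compl ho m.2.1 fun q hq => ?_)
    obtain ⟨n, hn, hnp⟩ := htr p q hp hq
    have h1 : (m : Equiv.Perm GolayPt) * n = n * m :=
      mul_inv_eq_iff_eq_mul.1 (congrArg Subtype.val (h ⟨n, stSet_of_ptFix hn⟩ hn))
    have h2 := congrArg (fun σ : Equiv.Perm GolayPt => σ p) h1
    simp only [Equiv.Perm.mul_apply, show (m : Equiv.Perm GolayPt) p = p from hm, hnp] at h2
    exact h2
  have hfull : ∀ φ : ↥U ≃* ↥U, ∃ m ∈ M, ∀ u : ↥U, ((φ u : ↥U) : ↥(stSet o)) = m * u * m⁻¹ := by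
    let c : ↥M →* MulAut ↥U := MulAut.conjNormal.comp M.subtype
    have hc : Function.Injective c := (injective_iff_map_eq_one c).2 fun m hm => Subtype.ext (hfaith m m.2 fun u hu => by
      have := congrArg Subtype.val (DFunLike.congr_fun hm ⟨u, hu⟩)
      exact this)
    obtain ⟨e, -⟩ := Affine.exists_coord (n := 3) hUel hUcard hz hz1
    have hM : Nat.card ↥M = 20160 := by
      have h := Subgroup.IsComplement'.card_mul_card
        (Subgroup.isComplement'_of_disjoint_and_mul_eq_univ (disjoint_iff.2 hUM)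
          (by rw [← Subgroup.normal_mul, hUM', Subgroup.coe_top]))
      rw [hUcard, stSet_octad_card ho] at h
      omega
    intro φ
    haveI : Finite (MulAut ↥U) := Nat.finite_of_card_ne_zero (by
      rw [show Nat.card (MulAut ↥U) = 20160 from card_mulAut_sixteen e]; norm_num)
    obtain ⟨m, hm⟩ := ((Nat.bijective_iff_injective_and_card c).2
      ⟨hc, hM.trans (card_mulAut_sixteen e).symm⟩).2 φ
    exact ⟨m, m.2, fun u => congrArg Subtype.val (DFunLike.congr_fun hm u).symm⟩
  exact Affine.exists_data 3 U M hUel hUcard hUM hUM' hfaith hfull hz hz1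

/-- The inclusion into the whole group. -/
def octIncl (o : Finset GolayPt) : ↥(stSet o) →* ↥M24 := Subgroup.inclusion inf_le_left

theorem octIncl_injective (o : Finset GolayPt) : Function.Injective (octIncl o) := Subgroup.inclusion_injective _

theorem fix_eq_of_ptFix {o : Finset GolayPt} (ho : o ∈ octads) {n : Equiv.Perm GolayPt} (hn : n ∈ ptFix o)
    (hn1 : n ≠ 1) (q : GolayPt) : n q = q ↔ q ∈ o := by
  refine ⟨fun h => ?_, fun h => (mem_ptFix.1 hn).2 q h⟩
  by_contra hq
  exact hn1 ((octFix_facts ho).2.1 n hn q hq h)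

theorem centralizer_le_octIncl {o : Finset GolayPt} (ho : o ∈ octads) {g : ↥M24} {n : ↥(stSet o)}
    (hn : (n : Equiv.Perm GolayPt) ∈ ptFix o) (hn1 : n ≠ 1)
    (hg : g ∈ Subgroup.centralizer ({octIncl o n} : Set ↥M24)) : ∃ h, octIncl o h = g := by
  have hfix := fix_eq_of_ptFix ho hn fun e => hn1 (Subtype.ext e)
  have hc : (g : Equiv.Perm GolayPt) * n = n * g := congrArg Subtype.val (Subgroup.mem_centralizer_singleton_iff.1 hg)
  have h2 : ∀ q ∈ o, (g : Equiv.Perm GolayPt) q ∈ o := fun q hq => by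
    rw [← hfix]
    have := congrArg (fun σ : Equiv.Perm GolayPt => σ q) hc
    simp only [Equiv.Perm.mul_apply, (hfix q).2 hq] at this
    exact this.symm
  refine ⟨⟨g, g.2, ?_⟩, rfl⟩
  show (g : Equiv.Perm GolayPt) • o = o
  refine Finset.eq_of_subset_of_card_le (fun x hx => ?_) (by rw [Finset.card_smul_finset])
  obtain ⟨y, hy, rfl⟩ := Finset.mem_smul_finset.1 hx
  exact h2 y hy

/-- The centralizers correspond. -/
noncomputable def centEquiv {o : Finset GolayPt} (ho : o ∈ octads) {n : ↥(stSet o)}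
    (hn : (n : Equiv.Perm GolayPt) ∈ ptFix o) (hn1 : n ≠ 1) :
    ↥(Subgroup.centralizer ({n} : Set ↥(stSet o))) ≃* ↥(Subgroup.centralizer ({octIncl o n} : Set ↥M24)) :=
  MulEquiv.ofBijective
    (((octIncl o).comp (Subgroup.centralizer ({n} : Set ↥(stSet o))).subtype).codRestrict _ fun g =>
      Subgroup.mem_centralizer_singleton_iff.2 (by
        show octIncl o g * octIncl o n = octIncl o n * octIncl o g
        rw [← map_mul, ← map_mul, Subgroup.mem_centralizer_singleton_iff.1 g.2]))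
    ⟨fun a b h => Subtype.ext (octIncl_injective o (congrArg Subtype.val h)), fun g => by
      obtain ⟨h, hh⟩ := centralizer_le_octIncl ho hn hn1 g.2
      refine ⟨⟨h, Subgroup.mem_centralizer_singleton_iff.2 (octIncl_injective o ?_)⟩, Subtype.ext hh⟩
      rw [map_mul, map_mul, hh]
      exact Subgroup.mem_centralizer_singleton_iff.1 g.2⟩

theorem centEquiv_coe {o : Finset GolayPt} (ho : o ∈ octads) {n : ↥(stSet o)}
    (hn : (n : Equiv.Perm GolayPt) ∈ ptFix o) (hn1 : n ≠ 1) (g : ↥(Subgroup.centralizer ({n} : Set ↥(stSet o)))) :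
    (centEquiv ho hn hn1 g : ↥M24) = octIncl o g := rfl

end Cfsg.Agent.Lib.Golay
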