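import Cfsg.Agent.Lib.Golay.OctadAffine

/-!
The centralizer of a translation in an affine group as the centralizer of a transvection.
-/

set_option autoImplicit false

namespace Cfsg.Agent.Lib.Golay

open Cfsg Lib.LargeExtra

local notation "F₂" => ZMod 2

/-- Coordinates. -/
def splitFive : (Fin 5 → F₂) ≃ₗ[F₂] Affine.P 3 × F₂ where
  toFun v := ((v 0, ![v 2, v 3, v 4]), v 1)
  invFun q := ![q.1.1, q.2, q.1.2 0, q.1.2 1, q.1.2 2]
  map_add' v w := by
    refine Prod.ext (Prod.ext rfl (funext fun i => ?_)) rfl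
    fin_cases i <;> rfl
  map_smul' c v := by
    refine Prod.ext (Prod.ext rfl (funext fun i => ?_)) rfl
    fin_cases i <;> rfl
  left_inv v := funext fun i => by fin_cases i <;> rfl
  right_inv q := by
    refine Prod.ext (Prod.ext rfl (funext fun i => ?_)) rfl
    fin_cases i <;> rfl

/-- An affine map as a linear map of one dimension more. -/
def affLin (x : Affine.P 3) (f : Affine.P 3 ≃ₗ[F₂] Affine.P 3) : (Affine.P 3 × F₂) ≃ₗ[F₂] (Affine.P 3 × F₂) where
  toFun q := (f q.1 + q.2 • x, q.2)
  invFun q := (f.symm (q.1 + q.2 • x), q.2)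
  map_add' q r := Prod.ext (by simp only [Prod.fst_add, Prod.snd_add, map_add, add_smul]; abel) rfl
  map_smul' c q := Prod.ext (by simp [smul_smul, smul_add]) rfl
  left_inv q := Prod.ext (by simp [add_assoc, Affine.add_self]) rfl
  right_inv q := Prod.ext (by simp [add_assoc, Affine.add_self]) rfl

theorem affLin_mul (x y : Affine.P 3) (f g : Affine.P 3 ≃ₗ[F₂] Affine.P 3) :
    affLin x f * affLin y g = affLin (x + f y) (f * g) :=
  LinearEquiv.ext fun q => Prod.ext (by
    show f (g q.1 + q.2 • y) + q.2 • x = f (g q.1) + q.2 • (x + f y)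
    rw [map_add, map_smul, smul_add]; abel) rfl

/-- The map on coordinates. -/
def fiveLin (h : (Affine.P 3 × F₂) ≃ₗ[F₂] (Affine.P 3 × F₂)) : (Fin 5 → F₂) →ₗ[F₂] (Fin 5 → F₂) :=
  ((splitFive.trans h).trans splitFive.symm).toLinearMap

theorem fiveLin_det (h : (Affine.P 3 × F₂) ≃ₗ[F₂] (Affine.P 3 × F₂)) : (LinearMap.toMatrix' (fiveLin h)).det = 1 :=
  (show ∀ a : F₂, IsUnit a → a = 1 by decide) _ (by
    rw [LinearMap.det_toMatrix']
    exact LinearEquiv.isUnit_det' ((splitFive.trans h).trans splitFive.symm))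

/-- The matrix. -/
def fiveMat : ((Affine.P 3 × F₂) ≃ₗ[F₂] (Affine.P 3 × F₂)) →* Matrix.SpecialLinearGroup (Fin 5) F₂ where
  toFun h := ⟨LinearMap.toMatrix' (fiveLin h), fiveLin_det h⟩
  map_one' := Subtype.ext (by
    show LinearMap.toMatrix' (fiveLin 1) = 1
    rw [show fiveLin 1 = LinearMap.id from LinearMap.ext fun v => splitFive.symm_apply_apply v, LinearMap.toMatrix'_id])
  map_mul' h k := Subtype.ext (by
    show LinearMap.toMatrix' (fiveLin (h * k)) = LinearMap.toMatrix' (fiveLin h) * LinearMap.toMatrix' (fiveLin k)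
    rw [← LinearMap.toMatrix'_comp]
    congr 1
    refine LinearMap.ext fun v => ?_
    show splitFive.symm (h (k (splitFive v))) = splitFive.symm (h (splitFive (splitFive.symm (k (splitFive v)))))
    rw [LinearEquiv.apply_symm_apply])

theorem fiveMat_injective : Function.Injective fiveMat := fun h k e => by
  have e' : fiveLin h = fiveLin k := LinearMap.toMatrix'.injective (congrArg Subtype.val e)
  refine LinearEquiv.ext fun q => splitFive.symm.injective ?_
  have := LinearMap.congr_fun e' (splitFive.symm q)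
  simpa [fiveLin] using this

theorem transvection_act (v : Fin 5 → F₂) :
    (Matrix.transvection (0 : Fin 5) 1 (1 : F₂)).mulVec v = v + v 1 • Pi.single 0 1 := by
  funext i
  simp [Matrix.transvection, Matrix.add_mulVec, Matrix.single_mulVec, Pi.single_apply, Function.update]

theorem commute_transvection_iff (A : Matrix (Fin 5) (Fin 5) F₂) (hA : A.det = 1) :
    A * Matrix.transvection (0 : Fin 5) 1 1 = Matrix.transvection (0 : Fin 5) 1 1 * A ↔
      A.mulVec (Pi.single 0 1) = Pi.single 0 1 ∧ ∀ v, A.mulVec v 1 = v 1 := by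
  have h0 : ∀ v, (A * Matrix.transvection (0 : Fin 5) 1 1).mulVec v = A.mulVec v + v 1 • A.mulVec (Pi.single 0 1) := fun v => by
    rw [← Matrix.mulVec_mulVec, transvection_act, Matrix.mulVec_add, Matrix.mulVec_smul]
  have h1 : ∀ v, (Matrix.transvection (0 : Fin 5) 1 1 * A).mulVec v = A.mulVec v + A.mulVec v 1 • (Pi.single 0 1 : Fin 5 → F₂) := fun v => by
    rw [← Matrix.mulVec_mulVec, transvection_act]
  constructor
  · intro h
    have key : ∀ v, v 1 • A.mulVec (Pi.single 0 1) = A.mulVec v 1 • (Pi.single 0 1 : Fin 5 → F₂) := fun v => by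
      have := (h0 v).symm.trans ((congrArg (fun M => M.mulVec v) h).trans (h1 v))
      exact add_left_cancel this
    have hu : IsUnit A := (Matrix.isUnit_iff_isUnit_det A).2 (hA ▸ isUnit_one)
    have hne : A.mulVec (Pi.single 0 1) ≠ 0 := fun h' => by
      have := Matrix.mulVec_injective_iff_isUnit.2 hu (h'.trans (Matrix.mulVec_zero A).symm)
      simpa using congrFun this 0
    have e1 := key (Pi.single 1 1)
    rw [Pi.single_eq_same, one_smul] at e1
    have hc : A.mulVec (Pi.single 1 1) 1 = 1 := by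
      rcases Affine.two_cases (A.mulVec (Pi.single 1 1) 1) with h' | h'
      · rw [h', zero_smul] at e1; exact absurd e1 hne
      · exact h'
    rw [hc, one_smul] at e1
    refine ⟨e1, fun v => ?_⟩
    have := congrFun (key v) 0
    rw [e1] at this
    simpa using this.symm
  · rintro ⟨e1, e2⟩
    refine Matrix.ext_of_mulVec_single fun i => ?_
    rw [h0, h1, e1, e2]

variable {G : Type*} [Group G] (D : Affine.Data G 3)

theorem cent_form (g : ↥(Subgroup.centralizer ({D.z} : Set G))) :
    ∃ x f, (g : G) = D.t x * D.ι f := D.gen g (Subgroup.mem_centralizer_singleton_iff.1 g.2)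

/-- The centralizer in coordinates. -/
noncomputable def centHom : ↥(Subgroup.centralizer ({D.z} : Set G)) →* Matrix.SpecialLinearGroup (Fin 5) F₂ :=
  fiveMat.comp (MonoidHom.mk' (fun g => affLin (cent_form D g).choose (cent_form D g).choose_spec.choose) fun g h => by
    have eg := (cent_form D g).choose_spec.choose_spec
    have eh := (cent_form D h).choose_spec.choose_spec
    have egh := (cent_form D (g * h)).choose_spec.choose_spec
    have e : ((g * h : ↥(Subgroup.centralizer ({D.z} : Set G))) : G) = _ := (congrArg₂ (· * ·) eg eh).trans (D.mul_eq _ _ _ _)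
    obtain ⟨e1, e2⟩ := D.unique (egh.symm.trans e)
    rw [affLin_mul, ← e1, ← e2])

theorem centHom_apply (g : ↥(Subgroup.centralizer ({D.z} : Set G))) (x : Affine.P 3) (f : Affine.P 3 ≃ₗ[F₂] Affine.P 3)
    (e : (g : G) = D.t x * D.ι f) : centHom D g = fiveMat (affLin x f) := by
  obtain ⟨e1, e2⟩ := D.unique ((cent_form D g).choose_spec.choose_spec.symm.trans e)
  show fiveMat (affLin _ _) = _
  exact congrArg fiveMat (congrArg₂ affLin e1 e2)

theorem centHom_injective : Function.Injective (centHom D) := by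
  intro g h e
  obtain ⟨x, f, eg⟩ := cent_form D g
  obtain ⟨y, k, eh⟩ := cent_form D h
  rw [centHom_apply D g x f eg, centHom_apply D h y k eh] at e
  have e' := fiveMat_injective e
  have hx : x = y := by
    have := congrArg Prod.fst (LinearEquiv.congr_fun e' (0, 1))
    simpa [affLin] using this
  have hf : f = k := LinearEquiv.ext fun p => by
    have := congrArg Prod.fst (LinearEquiv.congr_fun e' (p, 0))
    simpa [affLin] using this
  exact Subtype.ext (by rw [eg, eh, hx, hf])

theorem fiveMat_mulVec (h : (Affine.P 3 × F₂) ≃ₗ[F₂] (Affine.P 3 × F₂)) (v : Fin 5 → F₂) :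
    (fiveMat h : Matrix (Fin 5) (Fin 5) F₂).mulVec v = splitFive.symm (h (splitFive v)) :=
  LinearMap.toMatrix'_mulVec (fiveLin h) v

theorem split_single : splitFive (Pi.single 0 1) = (((1, 0) : Affine.P 3), 0) := by
  refine Prod.ext (Prod.ext rfl (funext fun i => ?_)) rfl
  fin_cases i <;> rfl

/-- The centralizer of the translation as the centralizer of the transvection. -/
theorem centTransvection (s : Matrix.SpecialLinearGroup (Fin 5) F₂)
    (hs : (s : Matrix (Fin 5) (Fin 5) F₂) = Matrix.transvection 0 1 1) :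
    Nonempty (↥(Subgroup.centralizer ({D.z} : Set G)) ≃*
      ↥(Subgroup.centralizer ({s} : Set (Matrix.SpecialLinearGroup (Fin 5) F₂)))) := by
  have hiff : ∀ A : Matrix.SpecialLinearGroup (Fin 5) F₂, A ∈ Subgroup.centralizer ({s} : Set _) ↔
      (A : Matrix (Fin 5) (Fin 5) F₂).mulVec (Pi.single 0 1) = Pi.single 0 1 ∧
        ∀ v, (A : Matrix (Fin 5) (Fin 5) F₂).mulVec v 1 = v 1 := fun A => by
    rw [Subgroup.mem_centralizer_singleton_iff, ← commute_transvection_iff _ A.2, ← hs]
    exact ⟨fun h => congrArg Subtype.val h, fun h => Subtype.ext h⟩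
  refine ⟨MulEquiv.ofBijective ((centHom D).codRestrict _ fun g => ?_) ⟨fun a b h =>
    centHom_injective D (congrArg Subtype.val h), ?_⟩⟩
  · obtain ⟨x, f, e⟩ := cent_form D g
    have hf : f (1, 0) = (1, 0) := (D.commute_z).1 (e ▸ Subgroup.mem_centralizer_singleton_iff.1 g.2)
    rw [hiff, centHom_apply D g x f e]
    refine ⟨?_, fun v => ?_⟩
    · rw [fiveMat_mulVec, LinearEquiv.symm_apply_eq, split_single]
      simp [affLin, hf]
    · rw [fiveMat_mulVec]; rfl
  · rintro ⟨A, hA⟩
    obtain ⟨h1, h2⟩ := (hiff A).1 hA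
    let L : (Affine.P 3 × F₂) →ₗ[F₂] (Affine.P 3 × F₂) :=
      splitFive.toLinearMap.comp ((Matrix.mulVecLin (A : Matrix (Fin 5) (Fin 5) F₂)).comp splitFive.symm.toLinearMap)
    have hL : ∀ q, L q = splitFive ((A : Matrix (Fin 5) (Fin 5) F₂).mulVec (splitFive.symm q)) := fun q => rfl
    have hsnd : ∀ q, (L q).2 = q.2 := fun q => (h2 _).trans rfl
    have hLinj : Function.Injective L := by
      intro a b h
      rw [hL, hL] at h
      exact splitFive.symm.injective (Matrix.mulVec_injective_iff_isUnit.2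
        ((Matrix.isUnit_iff_isUnit_det _).2 (by rw [A.2]; exact isUnit_one)) (splitFive.injective h))
    let f0 : Affine.P 3 →ₗ[F₂] Affine.P 3 := (LinearMap.fst F₂ _ F₂).comp (L.comp (LinearMap.inl F₂ _ F₂))
    have hf0 : Function.Injective f0 := fun a b h => by
      have : L (a, 0) = L (b, 0) := Prod.ext h ((hsnd (a, 0)).trans (hsnd (b, 0)).symm)
      exact congrArg Prod.fst (hLinj this)
    let f := LinearEquiv.ofInjectiveEndo f0 hf0
    let x : Affine.P 3 := (L (0, 1)).1
    have hf : f (1, 0) = (1, 0) := by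
      show (L ((1, 0), 0)).1 = (1, 0)
      rw [← split_single, hL, LinearEquiv.symm_apply_apply, h1, split_single]
    have hLaff : ∀ q, L q = affLin x f q := by
      intro q
      refine Prod.ext ?_ (hsnd q)
      show (L q).1 = f0 q.1 + q.2 • (L (0, 1)).1
      conv_lhs => rw [show q = (q.1, (0 : F₂)) + q.2 • ((0 : Affine.P 3), (1 : F₂)) by ext <;> simp, map_add, map_smul]
      rfl
    refine ⟨⟨D.t x * D.ι f, Subgroup.mem_centralizer_singleton_iff.2 (D.commute_z.2 hf)⟩, Subtype.ext ?_⟩
    show centHom D _ = A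
    rw [centHom_apply D _ x f rfl]
    refine Subtype.ext (Matrix.ext_of_mulVec_single fun i => ?_)
    rw [fiveMat_mulVec, ← hLaff, hL, LinearEquiv.symm_apply_apply, LinearEquiv.symm_apply_apply]

end Cfsg.Agent.Lib.Golay
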