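import Cfsg.Agent.Lib.Golay.M24
import Cfsg.Agent.Lib.Golay.Simple
import Cfsg.Agent.Lib.Golay.RigidData

/-! # Linear maps of the code keeping the weights are permutations, modulo the full word -/

set_option autoImplicit false
set_option maxRecDepth 100000

namespace Cfsg.Agent.Lib.Golay

open Cfsg
open scoped Pointwise

/-- Evaluate a number before passing it on, so that a kernel computation shares it. -/
def forceNat {α : Type} : ℕ → (ℕ → α) → α
  | 0, f => f 0
  | m + 1, f => f (m + 1)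

theorem forceNat_eq {α : Type} (n : ℕ) (f : ℕ → α) : forceNat n f = f n := by
  cases n <;> rfl

/-- Equality modulo the full word. -/
def EqFull (a b : ℕ) : Prop := a = b ∨ a = b ^^^ FULL

theorem xor_full_full (a : ℕ) : a ^^^ FULL ^^^ FULL = a := by
  rw [Nat.xor_assoc, Nat.xor_self, Nat.xor_zero]

theorem EqFull.trans {a b c : ℕ} (h : EqFull a b) (h' : EqFull b c) : EqFull a c := by
  rcases h with rfl | rfl <;> rcases h' with rfl | rfl
  · exact Or.inl rfl
  · exact Or.inr rfl
  · exact Or.inr rfl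
  · exact Or.inl (xor_full_full c)

theorem EqFull.symm {a b : ℕ} (h : EqFull a b) : EqFull b a := by
  rcases h with rfl | rfl
  · exact Or.inl rfl
  · exact Or.inr (xor_full_full b).symm

theorem EqFull.xor {a b c d : ℕ} (h : EqFull a b) (h' : EqFull c d) :
    EqFull (a ^^^ c) (b ^^^ d) := by
  rcases h with rfl | rfl <;> rcases h' with rfl | rfl
  · exact Or.inl rfl
  · exact Or.inr (by rw [Nat.xor_assoc])
  · exact Or.inr (by rw [Nat.xor_assoc, Nat.xor_comm FULL, ← Nat.xor_assoc])
  · refine Or.inl ?_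
    rw [show b ^^^ FULL ^^^ (d ^^^ FULL) = b ^^^ d ^^^ (FULL ^^^ FULL) by ac_rfl, Nat.xor_self,
      Nat.xor_zero]

/-- The weights agree up to complementing. -/
def sameType (a b : ℕ) : Bool := (pc a == pc b) || (pc a + pc b == 24)

theorem pc_full_xor {a : ℕ} : pc (a ^^^ FULL) + pc a = 24 := by
  rw [Nat.xor_comm, ← card_toSet, ← card_toSet, toSet_compl, add_comm, Finset.card_add_card_compl]
  decide +kernel

theorem sameType_symm {a b : ℕ} (h : sameType a b = true) : sameType b a = true := by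
  simp only [sameType, Bool.or_eq_true, beq_iff_eq] at h ⊢
  omega

theorem sameType_trans {a b c : ℕ} (h : sameType a b = true) (h' : sameType b c = true) :
    sameType a c = true := by
  simp only [sameType, Bool.or_eq_true, beq_iff_eq] at h h' ⊢
  omega

theorem sameType_of_eqFull {a b : ℕ} (h : EqFull a b) : sameType a b = true := by
  simp only [sameType, Bool.or_eq_true, beq_iff_eq]
  rcases h with rfl | rfl
  · exact Or.inl rfl
  · exact Or.inr pc_full_xor

/-- A permutation acting on masks. -/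
def pm (σ : Equiv.Perm GolayPt) (m : ℕ) : ℕ := mask (σ • toSet m)

theorem pm_code {σ : Equiv.Perm GolayPt} (hσ : σ ∈ M24) {m : ℕ} (hm : isCode m = true) :
    isCode (pm σ m) = true := by
  rw [pm, ← toSet_mem_codeSets (mask_lt _), toSet_mask]
  exact mem_codeSets_smul hσ ((toSet_mem_codeSets (lt_of_isCode hm)).2 hm)

theorem pm_xor (σ : Equiv.Perm GolayPt) {a b : ℕ} :
    pm σ (a ^^^ b) = pm σ a ^^^ pm σ b := by
  refine eq_of_toSet_eq (mask_lt _) (Nat.xor_lt_two_pow (n := 24) (mask_lt _) (mask_lt _)) ?_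
  rw [toSet_xor]
  simp only [pm, toSet_mask, toSet_xor, smul_symmDiff']

theorem pm_full (σ : Equiv.Perm GolayPt) : pm σ FULL = FULL := by
  rw [pm, toSet_full, Finset.smul_finset_univ, ← toSet_full, mask_toSet (by norm_num)]

theorem pm_pc (σ : Equiv.Perm GolayPt) (m : ℕ) : pc (pm σ m) = pc m := by
  rw [← card_toSet, pm, toSet_mask, Finset.card_smul_finset, card_toSet]

theorem pm_eqFull (σ : Equiv.Perm GolayPt) {a b : ℕ} (h : EqFull a b) :
    EqFull (pm σ a) (pm σ b) := by
  rcases h with rfl | rfl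
  · exact Or.inl rfl
  · exact Or.inr (by rw [pm_xor, pm_full])

theorem pm_pm (σ τ : Equiv.Perm GolayPt) (m : ℕ) : pm σ (pm τ m) = pm (σ * τ) m := by
  rw [pm, pm, toSet_mask, ← mul_smul]; rfl

theorem pm_one {m : ℕ} (hm : m < 16777216) : pm 1 m = m := by rw [pm, one_smul, mask_toSet hm]

theorem pm_toPerm {p : ℕ} (hp : valid p = true) (m : ℕ) : pm (toPerm p) m = act p m :=
  (act_eq hp m).symm

/-- A linear map of the code keeping the weights up to complementing. -/
structure Good (f : ℕ → ℕ) : Prop where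
  code : ∀ a, isCode a = true → isCode (f a) = true
  add : ∀ a b, isCode a = true → isCode b = true → f (a ^^^ b) = f a ^^^ f b
  full : f FULL = FULL
  type : ∀ a, isCode a = true → sameType (f a) a = true

theorem Good.comp {f : ℕ → ℕ} (h : Good f) {σ : Equiv.Perm GolayPt} (hσ : σ ∈ M24) :
    Good fun m => pm σ (f m) where
  code a ha := pm_code hσ (h.code a ha)
  add a b ha hb := by rw [h.add a b ha hb, pm_xor]
  full := by rw [h.full, pm_full]
  type a ha := by
    have := h.type a ha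
    simp only [sameType, pm_pc] at this ⊢
    exact this

/-- The types of all translates by the span of `ds` agree. -/
def sigOK : List ℕ → ℕ → ℕ → Bool
  | [], w, b => sameType w b
  | d :: ds, w, b => sigOK ds w b &&
      forceNat (w ^^^ d) fun w' => forceNat (b ^^^ d) fun b' => sigOK ds w' b'

theorem sigOK_of_good {f : ℕ → ℕ} (hf : Good f) : ∀ (ds : List ℕ),
    (∀ d ∈ ds, isCode d = true ∧ EqFull (f d) d) → ∀ w b, isCode b = true → EqFull (f b) w →
      sigOK ds w b = true
  | [], _, w, b, hb, hw => sameType_trans (sameType_of_eqFull hw.symm) (hf.type b hb)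
  | d :: ds, hds, w, b, hb, hw => by
    obtain ⟨hd, hde⟩ := hds d (by simp)
    have hds' : ∀ e ∈ ds, isCode e = true ∧ EqFull (f e) e := fun e he =>
      hds e (List.mem_cons_of_mem _ he)
    rw [sigOK, forceNat_eq, forceNat_eq, sigOK_of_good hf ds hds' w b hb hw,
      sigOK_of_good hf ds hds' (w ^^^ d) (b ^^^ d) (isCode_xor hb hd)
        (by rw [hf.add b d hb hd]; exact hw.xor hde)]
    rfl

/-- The rows extend the set of reached keys by images of reached words. -/
def rowsOK (gs : List ℕ) : ℕ → List (ℕ × ℕ × ℕ) → Bool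
  | _, [] => true
  | seen, (j, x, y) :: R =>
    Nat.blt j gs.length && isCode x && isCode y &&
      (forceNat (act (gs.getD j 0) x) fun z => z == y || z == y ^^^ FULL) &&
      seen.testBit (codeKey x) && forceNat (seen ||| 1 <<< codeKey y) fun seen' => rowsOK gs seen' R

theorem rowsOK_spec {gs : List ℕ} {P : ℕ → Prop}
    (hP : ∀ j < gs.length, ∀ x y, P x → isCode x = true → EqFull (act (gs.getD j 0) x) y → P y) :
    ∀ (R : List (ℕ × ℕ × ℕ)) (seen : ℕ),
      (∀ m, isCode m = true → seen.testBit (codeKey m) = true → P m) →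
      rowsOK gs seen R = true → ∀ e ∈ R, P e.2.2
  | [], _, _, _, e, he => absurd he (List.not_mem_nil)
  | (j, x, y) :: R, seen, hseen, h, e, he => by
    simp only [rowsOK, forceNat_eq, Bool.and_eq_true, Bool.or_eq_true, Nat.blt_eq,
      beq_iff_eq] at h
    obtain ⟨⟨⟨⟨⟨hj, hx⟩, hy⟩, hz⟩, hxs⟩, hR⟩ := h
    have hPy : P y := hP j hj x y (hseen x hx hxs) hx (hz.elim Or.inl Or.inr)
    rcases List.mem_cons.1 he with rfl | he
    · exact hPy
    · refine rowsOK_spec hP R _ (fun m hm hb => ?_) hR e he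
      rw [Nat.testBit_or, Bool.or_eq_true, Nat.one_shiftLeft, Nat.testBit_two_pow,
        decide_eq_true_eq] at hb
      rcases hb with hb | hb
      · exact hseen m hm hb
      · rwa [← codeKey_inj hy hm hb]

theorem rows_code {gs : List ℕ} : ∀ {R : List (ℕ × ℕ × ℕ)} {seen : ℕ},
    rowsOK gs seen R = true → ∀ e ∈ R, isCode e.2.2 = true
  | [], _, _, e, he => absurd he (List.not_mem_nil)
  | (j, x, y) :: R, seen, h, e, he => by
    simp only [rowsOK, forceNat_eq, Bool.and_eq_true] at h
    rcases List.mem_cons.1 he with rfl | he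
    · exact h.1.1.1.2
    · exact rows_code h.2 e he

/-- One step of the reduction. -/
def stepOK (ds : List ℕ) (b : ℕ) (gs : List ℕ) (R : List (ℕ × ℕ × ℕ)) : Bool :=
  isCode b && ds.all isCode &&
    gs.all (fun g => inM24 g && ds.all fun d => forceNat (act g d) fun z => z == d || z == d ^^^ FULL) &&
    rowsOK gs (1 <<< codeKey b) R &&
    forceNat (keySet (fun x => codeKey x) (b :: R.map fun e => e.2.2)) fun keys =>
      (List.range 4096).all fun k => forceNat (enc k) fun w =>
        !sigOK ds w b || keys.testBit (codeKey w) || keys.testBit (codeKey (w ^^^ FULL))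

theorem step_spec {ds : List ℕ} {b : ℕ} {gs : List ℕ} {R : List (ℕ × ℕ × ℕ)}
    (h : stepOK ds b gs R = true) {f : ℕ → ℕ} (hf : Good f) (hds : ∀ d ∈ ds, EqFull (f d) d) :
    ∃ σ ∈ M24, ∀ d ∈ b :: ds, EqFull (pm σ⁻¹ (f d)) d := by
  simp only [stepOK, forceNat_eq, Bool.and_eq_true, List.all_eq_true, List.mem_range,
    Bool.or_eq_true, Bool.not_eq_true', beq_iff_eq] at h
  obtain ⟨⟨⟨⟨hb, hdc⟩, hgs⟩, hrows⟩, hall⟩ := h
  let P : ℕ → Prop := fun m => isCode m = true →
    ∃ σ ∈ M24, (∀ d ∈ ds, EqFull (pm σ d) d) ∧ EqFull (pm σ b) m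
  have hP : ∀ j < gs.length, ∀ x y, P x → isCode x = true →
      EqFull (act (gs.getD j 0) x) y → P y := by
    intro j hj x y hx hxc hxy _
    have hg : gs.getD j 0 ∈ gs := by
      rw [List.getD_eq_getElem _ _ hj]; exact List.getElem_mem hj
    obtain ⟨hgM, hgd⟩ := hgs _ hg
    have hv := valid_of_inM24 hgM
    obtain ⟨σ, hσ, hσd, hσb⟩ := hx hxc
    refine ⟨toPerm (gs.getD j 0) * σ, mul_mem (toPerm_mem_M24 hgM) hσ, fun d hd => ?_, ?_⟩
    · rw [← pm_pm]
      refine (pm_eqFull _ (hσd d hd)).trans ?_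
      rw [pm_toPerm hv]
      exact (hgd d hd).elim Or.inl Or.inr
    · rw [← pm_pm]
      refine (pm_eqFull _ hσb).trans ?_
      rwa [pm_toPerm hv]
  have hPb : P b := fun _ =>
    ⟨1, one_mem _, fun d hd => Or.inl (pm_one (lt_of_isCode (hdc d hd))),
      Or.inl (pm_one (lt_of_isCode hb))⟩
  have hlist : ∀ m, isCode m = true →
      (keySet (fun x => codeKey x) (b :: R.map fun e => e.2.2)).testBit (codeKey m) = true →
      P m := by
    intro m hm hbit
    obtain ⟨c, hc, hck⟩ := (testBit_keySet (fun x => codeKey x) _ _).1 hbit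
    rcases List.mem_cons.1 hc with rfl | hc
    · rwa [← codeKey_inj hb hm hck]
    · obtain ⟨e, he, rfl⟩ := List.mem_map.1 hc
      have hPe := rowsOK_spec hP R _ (fun n hn hnb => by
        rw [Nat.one_shiftLeft, Nat.testBit_two_pow, decide_eq_true_eq] at hnb
        rwa [← codeKey_inj hb hn hnb]) hrows e he
      have hec : isCode e.2.2 = true := rows_code hrows e he
      rwa [← codeKey_inj hec hm hck]
  obtain ⟨k, hk, hke⟩ := isCode_iff.1 (hf.code b hb)
  have hF : isCode FULL = true := by decide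
  have hw : isCode (enc k) = true := isCode_iff.2 ⟨k, hk, rfl⟩
  obtain ⟨σ, hσ, hσd, hσb⟩ : ∃ σ ∈ M24, (∀ d ∈ ds, EqFull (pm σ d) d) ∧
      EqFull (pm σ b) (f b) := by
    have h' := hall k hk
    rw [sigOK_of_good hf ds (fun d hd => ⟨hdc d hd, hds d hd⟩) (enc k) b hb
      (Or.inl hke.symm)] at h'
    rcases h' with (h' | h') | h'
    · simp at h'
    · obtain ⟨σ, hσ, hσd, hσb⟩ := hlist _ hw h' hw
      exact ⟨σ, hσ, hσd, hke ▸ hσb⟩
    · obtain ⟨σ, hσ, hσd, hσb⟩ := hlist _ (isCode_xor hw hF) h' (isCode_xor hw hF)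
      exact ⟨σ, hσ, hσd, hσb.trans (Or.inr (by rw [hke]))⟩
  have back : ∀ u v, isCode v = true → EqFull u (pm σ v) → EqFull (pm σ⁻¹ u) v := by
    intro u v hv' huv
    refine (pm_eqFull _ huv).trans (Or.inl ?_)
    rw [pm_pm, inv_mul_cancel, pm_one (lt_of_isCode hv')]
  refine ⟨σ, hσ, fun d hd => ?_⟩
  rcases List.mem_cons.1 hd with rfl | hd
  · exact back _ _ hb hσb.symm
  · exact back _ _ (hdc d hd) ((hds d hd).trans (hσd d hd).symm)

/-- All steps. -/
def stepsOK : List ℕ → List (ℕ × List ℕ × List (ℕ × ℕ × ℕ)) → Bool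
  | _, [] => true
  | ds, (b, gs, T) :: L => stepOK ds b gs T && stepsOK (b :: ds) L

theorem steps_spec : ∀ (L : List (ℕ × List ℕ × List (ℕ × ℕ × ℕ))) (ds : List ℕ), stepsOK ds L = true →
    ∀ f : ℕ → ℕ, Good f → (∀ d ∈ ds, isCode d = true ∧ EqFull (f d) d) →
      ∃ σ ∈ M24, ∀ d, d ∈ ds ∨ d ∈ L.map Prod.fst → EqFull (pm σ⁻¹ (f d)) d
  | [], ds, _, f, hf, hds => ⟨1, one_mem _, fun d hd => by
      simp only [List.map_nil, List.not_mem_nil, or_false] at hd
      rw [inv_one, pm_one (lt_of_isCode (hf.code d (hds d hd).1))]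
      exact (hds d hd).2⟩
  | (b, gs, T) :: L, ds, h, f, hf, hds => by
    simp only [stepsOK, Bool.and_eq_true] at h
    obtain ⟨σ, hσ, hσd⟩ := step_spec h.1 hf fun d hd => (hds d hd).2
    have hbc : isCode b = true := by
      have h1 := h.1
      simp only [stepOK, Bool.and_eq_true] at h1
      exact h1.1.1.1.1
    obtain ⟨τ, hτ, hτd⟩ := steps_spec L (b :: ds) h.2 _ (hf.comp (inv_mem hσ)) fun d hd =>
      ⟨(List.mem_cons.1 hd).elim (fun e => e ▸ hbc) fun hd' => (hds d hd').1, hσd d hd⟩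
    refine ⟨σ * τ, mul_mem hσ hτ, fun d hd => ?_⟩
    rw [mul_inv_rev, ← pm_pm]
    refine hτd d ?_
    simp only [List.map_cons, List.mem_cons] at hd ⊢
    tauto

theorem rigid_steps_ok : stepsOK [] rigidSteps = true := by decide +kernel

theorem rigid_coords_ok : rigidSteps.map Prod.fst = rigidBasis ∧
    rigidCoords.map (comb (rigidBasis ++ [FULL])) = basis ∧
    (rigidBasis ++ [FULL]).all isCode = true := by
  refine ⟨?_, ?_, ?_⟩ <;> decide +kernel

theorem comb_fixed {g : ℕ → ℕ} (hg : Good g) : ∀ (L : List ℕ),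
    (∀ B ∈ L, isCode B = true ∧ EqFull (g B) B) → ∀ k,
      isCode (comb L k) = true ∧ EqFull (g (comb L k)) (comb L k)
  | [], _, k => by
    have h0 : isCode 0 = true := by decide
    have := hg.add 0 0 h0 h0
    rw [Nat.xor_self, Nat.xor_self] at this
    rw [comb, this]
    exact ⟨h0, Or.inl rfl⟩
  | B :: L, h, k => by
    obtain ⟨hB, hBe⟩ := h B (by simp)
    obtain ⟨hc, hce⟩ := comb_fixed hg L (fun C hC => h C (List.mem_cons_of_mem _ hC)) (k >>> 1)
    rw [comb]
    split_ifs
    · exact ⟨isCode_xor hB hc, by rw [hg.add _ _ hB hc]; exact hBe.xor hce⟩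
    · rw [Nat.zero_xor]; exact ⟨hc, hce⟩

/-- Such a map is given by a permutation of the group, modulo the full word. -/
theorem good_eq_perm {f : ℕ → ℕ} (hf : Good f) :
    ∃ σ ∈ M24, ∀ a, isCode a = true → EqFull (f a) (pm σ a) := by
  obtain ⟨σ, hσ, hσd⟩ := steps_spec rigidSteps [] rigid_steps_ok f hf (by simp)
  obtain ⟨hb, hcoord, hcode⟩ := rigid_coords_ok
  rw [List.all_eq_true] at hcode
  refine ⟨σ, hσ, fun a ha => ?_⟩
  set g := fun m => pm σ⁻¹ (f m)
  have hg : Good g := hf.comp (inv_mem hσ)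
  have hbase : ∀ B ∈ rigidBasis ++ [FULL], isCode B = true ∧ EqFull (g B) B := by
    intro B hB
    refine ⟨hcode B hB, ?_⟩
    rcases List.mem_append.1 hB with hB | hB
    · exact hσd B (Or.inr (hb ▸ hB))
    · rw [List.mem_singleton.1 hB, hg.full]; exact Or.inl rfl
  have hbas : ∀ B ∈ basis, isCode B = true ∧ EqFull (g B) B := by
    intro B hB
    rw [← hcoord] at hB
    obtain ⟨k, -, rfl⟩ := List.mem_map.1 hB
    exact comb_fixed hg _ hbase k
  obtain ⟨k, -, rfl⟩ := isCode_iff.1 ha
  have h := pm_eqFull σ (comb_fixed hg basis hbas k).2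
  change EqFull (pm σ (pm σ⁻¹ (f (enc k)))) (pm σ (enc k)) at h
  rwa [pm_pm, mul_inv_cancel, pm_one (lt_of_isCode (hf.code _ ha))] at h

end Cfsg.Agent.Lib.Golay
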