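import Cfsg.Agent.Lib.Golay.SylTwoModCenterChecks
import Cfsg.Agent.Lib.PGroupFrattini
import Cfsg.Prelude.Def_Transfer

/-! # The Sylow two-subgroup of `M24` modulo its centre -/

set_option autoImplicit false

namespace Cfsg.Agent.Lib.Golay

open Cfsg

/-- The listed Sylow subgroup. -/
noncomputable abbrev sylP : Subgroup (Equiv.Perm GolayPt) :=
  Subgroup.closure {σ | ∃ g ∈ syl2Gens, toPerm g = σ}

theorem ncard_le_listed {s : Set (Equiv.Perm GolayPt)} {L : List ℕ}
    (h : ∀ σ ∈ s, ∃ p ∈ L, toPerm p = σ) : s.ncard ≤ L.length := by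
  have h2 : s ⊆ (L.toFinset.image toPerm : Finset _) := by
    intro σ hσ
    obtain ⟨q, hq, rfl⟩ := h σ hσ
    simp only [Finset.coe_image, Set.mem_image, Finset.mem_coe, List.mem_toFinset]
    exact ⟨q, hq, rfl⟩
  have h3 := Set.ncard_le_ncard h2 (Finset.finite_toSet _)
  rw [Set.ncard_coe_finset] at h3
  exact h3.trans (Finset.card_image_le.trans (List.toFinset_card_le _))

theorem sylP_listed {σ : Equiv.Perm GolayPt} (hσ : σ ∈ sylP) :
    ∃ p ∈ syl2.flatten, toPerm p = σ :=
  closure_listed syl2_cert.group hσ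

theorem card_sylP : Nat.card sylP = 1024 := by
  refine le_antisymm ?_ ?_
  · rw [← SetLike.coe_sort_coe, Nat.card_coe_set_eq]
    exact (ncard_le_listed fun σ hσ => sylP_listed hσ).trans_eq syl2_cert.len
  · have := chain_lower sylP syl2Chain 0 syl2_cert.chain syl2_cert.inP
    rwa [fixIn_zero, syl2_cert.size] at this

theorem mem_sylP {p : ℕ} (hp : p ∈ syl2.flatten) : toPerm p ∈ sylP := by
  classical
  set T : Finset (Equiv.Perm GolayPt) := syl2.flatten.toFinset.image toPerm
  have h1 : (sylP : Set (Equiv.Perm GolayPt)) ⊆ T := by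
    intro σ hσ
    obtain ⟨q, hq, rfl⟩ := sylP_listed hσ
    simp only [T, Finset.coe_image, Set.mem_image, Finset.mem_coe, List.mem_toFinset]
    exact ⟨q, hq, rfl⟩
  have h2 := Set.eq_of_subset_of_ncard_le h1 (by
    rw [Set.ncard_coe_finset, ← Nat.card_coe_set_eq]
    refine Finset.card_image_le.trans ((List.toFinset_card_le _).trans ?_)
    rw [syl2_cert.len, SetLike.coe_sort_coe, card_sylP]
    norm_num) (Finset.finite_toSet T)
  rw [← SetLike.mem_coe, h2]
  simp only [T, Finset.coe_image, Set.mem_image, Finset.mem_coe, List.mem_toFinset]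
  exact ⟨p, hp, rfl⟩

theorem valid_syl2 {p : ℕ} (hp : p ∈ syl2.flatten) : valid p = true := by
  have h := syl2_cert.group
  simp only [groupOK, Bool.and_eq_true, List.all_eq_true] at h
  have hg := (h.1 p hp (sylGen 0) (by decide +kernel)).1
  simp only [isComp, Bool.and_eq_true] at hg
  exact hg.1.1.2

theorem sylGen_mem (i : ℕ) (hi : i < 4) : sylGen i ∈ syl2.flatten ∧ sylGen i ∈ syl2Gens := by
  have : ∀ i < 4, memC syl2 (sylGen i) = true ∧ syl2Gens.elem (sylGen i) = true := by
    decide +kernel
  exact ⟨memC_mem (this i hi).1, by simpa using (this i hi).2⟩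

/-! ### Reading the checks -/

theorem idx_all {f : ℕ → Bool} : idx.all f = true ↔ ∀ i < 24, f i = true := by
  simp only [List.all_eq_true, mem_idx]

theorem img_eq_of_toPerm {p q : ℕ} (hp : valid p = true) (hq : valid q = true)
    (h : toPerm p = toPerm q) {i : ℕ} (hi : i < 24) : img p i = img q i := by
  have := congrArg (fun σ => ix (σ (pt i))) h
  simpa only [toPerm_pt hp hi, toPerm_pt hq hi, ix_pt (img_lt hp hi), ix_pt (img_lt hq hi)]
    using this

theorem toPerm_eq_of_img {p q : ℕ} (hp : valid p = true) (hq : valid q = true)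
    (h : ∀ i < 24, img p i = img q i) : toPerm p = toPerm q := by
  ext x : 1
  rw [toPerm_apply hp, toPerm_apply hq, h _ (ix_lt x)]

theorem commB_iff {x g : ℕ} (hx : valid x = true) (hg : valid g = true) :
    commB x g = true ↔ toPerm x * toPerm g = toPerm g * toPerm x := by
  rw [commB, idx_all, ← (comp_spec hx hg).2, ← (comp_spec hg hx).2]
  constructor
  · intro h
    refine toPerm_eq_of_img (comp_spec hx hg).1 (comp_spec hg hx).1 fun i hi => ?_
    rw [img_comp hx hg hi, img_comp hg hx hi]
    simpa using h i hi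
  · intro h i hi
    have := img_eq_of_toPerm (comp_spec hx hg).1 (comp_spec hg hx).1 h hi
    rw [img_comp hx hg hi, img_comp hg hx hi] at this
    simpa using this

theorem central_facts :
    valid sylCentral = true ∧ sylCentral ∈ syl2.flatten ∧
      toPerm sylCentral * toPerm sylCentral = 1 ∧ toPerm sylCentral ≠ 1 := by
  have h := syl_central_check
  simp only [centralOK, Bool.and_eq_true, Bool.not_eq_true'] at h
  obtain ⟨⟨⟨⟨hv, hm⟩, -⟩, hsq⟩, hne⟩ := h
  refine ⟨hv, memC_mem hm, ?_, fun h1 => ?_⟩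
  · rw [← toPerm_isComp hsq, toPerm_idCode]
  · rw [← Bool.not_eq_true] at hne
    apply hne
    rw [idx_all]
    intro i hi
    have := congrArg (fun σ => ix (σ (pt i))) h1
    simpa only [toPerm_pt hv hi, ix_pt (img_lt hv hi), Equiv.Perm.one_apply, ix_pt hi,
      beq_iff_eq] using this

theorem commZ_of {x g : ℕ} (hx : valid x = true) (hg : valid g = true)
    (h : toPerm x * toPerm g = toPerm g * toPerm x ∨
      toPerm x * toPerm g = toPerm sylCentral * (toPerm g * toPerm x)) : commZ x g = true := by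
  rw [commZ, Bool.or_eq_true]
  refine h.imp (commB_iff hx hg).2 fun h => idx_all.2 fun i hi => ?_
  have hv := central_facts.1
  rw [← (comp_spec hx hg).2, ← (comp_spec hg hx).2,
    ← (comp_spec hv (comp_spec hg hx).1).2] at h
  have := img_eq_of_toPerm (comp_spec hx hg).1 (comp_spec hv (comp_spec hg hx).1).1 h hi
  rw [img_comp hx hg hi, img_comp hv (comp_spec hg hx).1 hi, img_comp hg hx hi] at this
  simpa using this

theorem mem_survivors {p : ℕ} : ∀ {W L : List ℕ}, p ∈ L → (∀ w ∈ W, commZ p w = true) →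
    p ∈ survivors W L
  | [], _, hp, _ => hp
  | w :: W, L, hp, h => by
    rw [survivors, forceNat_eq]
    exact mem_survivors (List.mem_filter.2 ⟨hp, h w (by simp)⟩)
      fun v hv => h v (List.mem_cons_of_mem _ hv)

/-! ### The centre -/

theorem central_mem_center :
    (⟨toPerm sylCentral, mem_sylP central_facts.2.1⟩ : sylP) ∈ Subgroup.center sylP := by
  rw [Subgroup.mem_center_iff]
  rintro ⟨x, hx⟩
  refine Subtype.ext ?_
  have hle : sylP ≤ Subgroup.centralizer {toPerm sylCentral} := by
    rw [Subgroup.closure_le]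
    rintro _ ⟨g, hg, rfl⟩
    have h := syl_central_check
    simp only [centralOK, Bool.and_eq_true, List.all_eq_true] at h
    have := (commB_iff central_facts.1
      (valid_of_inM24 (List.all_eq_true.1 syl2_facts.1 g hg))).1 (h.1.1.2 g hg)
    exact Subgroup.mem_centralizer_iff.2 fun y hy => by
      rw [Set.mem_singleton_iff.1 hy]; exact this
  exact (Subgroup.mem_centralizer_iff.1 (hle hx) _ (Set.mem_singleton _)).symm

theorem center_two {x : sylP} (hx : x ∈ Subgroup.center sylP) :
    x.1 = 1 ∨ x.1 = toPerm sylCentral := by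
  obtain ⟨p, hp, hpe⟩ := sylP_listed x.2
  have h := List.all_eq_true.1 syl_center_check p hp
  have hall : (syl2Gens.all fun g => commB p g) = true := by
    rw [List.all_eq_true]
    intro g hg
    have hgP : toPerm g ∈ sylP := Subgroup.subset_closure ⟨g, hg, rfl⟩
    have := congrArg Subtype.val (Subgroup.mem_center_iff.1 hx ⟨_, hgP⟩)
    rw [commB_iff (valid_syl2 hp) (valid_of_inM24 (List.all_eq_true.1 syl2_facts.1 g hg)), hpe]
    exact this.symm
  simp only [hall, Bool.not_true, Bool.false_or, Bool.or_eq_true, beq_iff_eq] at h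
  rcases h with rfl | rfl
  · exact Or.inl (by rw [← hpe, toPerm_idCode])
  · exact Or.inr hpe.symm

theorem card_center_sylP : Nat.card (Subgroup.center sylP) = 2 := by
  rw [Nat.card_eq_two_iff]
  refine ⟨1, ⟨_, central_mem_center⟩, fun h => ?_, ?_⟩
  · exact central_facts.2.2.2 (congrArg (fun z : Subgroup.center sylP => z.1.1) h).symm
  · refine Set.eq_univ_of_forall fun z => ?_
    rcases center_two z.2 with h | h
    · exact Or.inl (Subtype.ext (Subtype.ext h))
    · exact Or.inr (Subtype.ext (Subtype.ext h))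

/-! ### The quotient, given by any projection -/

variable {S : Type*} [Group S]

open scoped Classical in
/-- A listed element in the quotient. -/
noncomputable def proj (f : sylP →* S) (p : ℕ) : S :=
  if h : toPerm p ∈ sylP then f ⟨toPerm p, h⟩ else 1

theorem proj_eq (f : sylP →* S) {p : ℕ} (h : p ∈ syl2.flatten) :
    proj f p = f ⟨toPerm p, mem_sylP h⟩ := dif_pos _

theorem proj_comp (f : sylP →* S) {p q : ℕ} (hp : p ∈ syl2.flatten) (hq : q ∈ syl2.flatten) :
    proj f (comp p q) = proj f p * proj f q := by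
  have he := (comp_spec (valid_syl2 hp) (valid_syl2 hq)).2
  have hm : toPerm (comp p q) ∈ sylP := he ▸ mul_mem (mem_sylP hp) (mem_sylP hq)
  rw [proj, dif_pos hm, proj_eq f hp, proj_eq f hq, ← map_mul]
  exact congrArg f (Subtype.ext he)

variable (f : sylP →* S) (hs : Function.Surjective f) (hk : f.ker = Subgroup.center sylP)

include hk in
/-- Commuting images come from maps commuting up to the central involution. -/
theorem commZ_of_commute {p q : ℕ} (hp : valid p = true) (hq : valid q = true)
    (hpP : toPerm p ∈ sylP) (hqP : toPerm q ∈ sylP) (h : Commute (proj f p) (proj f q)) :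
    commZ p q = true := by
  have hm : ((⟨toPerm p, hpP⟩ : sylP) * ⟨toPerm q, hqP⟩) *
      (⟨toPerm q, hqP⟩ * ⟨toPerm p, hpP⟩ : sylP)⁻¹ ∈ f.ker := by
    rw [MonoidHom.mem_ker, map_mul, map_inv, mul_inv_eq_one, map_mul, map_mul]
    simpa only [proj, dif_pos hpP, dif_pos hqP] using h.eq
  rw [hk] at hm
  refine commZ_of hp hq ((center_two hm).imp (fun h1 => ?_) fun h1 => ?_)
  · simpa only [Subgroup.coe_mul, Subgroup.coe_inv, mul_inv_eq_one] using h1
  · simpa only [Subgroup.coe_mul, Subgroup.coe_inv, mul_inv_eq_iff_eq_mul] using h1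

include hs hk in
theorem card_quot : Nat.card S = 512 := by
  have h := Subgroup.card_eq_card_quotient_mul_card_subgroup f.ker
  rw [Nat.card_congr (QuotientGroup.quotientKerEquivOfSurjective f hs).toEquiv, card_sylP, hk,
    card_center_sylP] at h
  omega

include hs hk in
theorem card_comap_eq (H : Subgroup S) : Nat.card (H.comap f) = 2 * Nat.card H := by
  have h1 := (H.comap f).card_mul_index
  have h2 := H.card_mul_index
  rw [Subgroup.index_comap_of_surjective H hs, card_sylP] at h1
  rw [card_quot f hs hk] at h2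
  have h0 : H.index ≠ 0 := fun h => by rw [h] at h2; simp at h2
  refine Nat.eq_of_mul_eq_mul_right (Nat.pos_of_ne_zero h0) ?_
  rw [h1, mul_assoc, h2]
  all_goals norm_num

include hs in
theorem closure_gens : Subgroup.closure {s : S | ∃ i < 4, proj f (sylGen i) = s} = ⊤ := by
  rw [eq_top_iff]
  intro s _
  obtain ⟨⟨x, hx⟩, rfl⟩ := hs s
  set K := Subgroup.closure {s : S | ∃ i < 4, proj f (sylGen i) = s}
  have hle : sylP ≤ (K.comap f).map sylP.subtype := by
    rw [Subgroup.closure_le]
    rintro _ ⟨g, hg, rfl⟩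
    obtain ⟨i, hi, rfl⟩ : ∃ i < 4, sylGen i = g := by
      obtain ⟨i, hi, rfl⟩ := List.getElem_of_mem hg
      have hl : syl2Gens.length = 4 := by decide +kernel
      exact ⟨i, hl ▸ hi, List.getD_eq_getElem _ _ hi⟩
    refine ⟨⟨_, mem_sylP (sylGen_mem i hi).1⟩, Subgroup.subset_closure ⟨i, hi, ?_⟩, rfl⟩
    exact proj_eq f (sylGen_mem i hi).1
  obtain ⟨y, hy, hyx⟩ := hle hx
  rwa [show y = ⟨x, hx⟩ from Subtype.ext hyx] at hy

include hs hk in
/-- The centre of a maximal subgroup has order at most eight. -/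
theorem center_coatom {M : Subgroup S} (hM : IsCoatom M) :
    Nat.card (Subgroup.center M) ≤ 8 := by
  classical
  have : Finite S := Nat.finite_of_card_ne_zero (by rw [card_quot f hs hk]; norm_num)
  have : Fact (Nat.Prime 2) := ⟨Nat.prime_two⟩
  have hp : IsPGroup 2 S := IsPGroup.of_card (n := 9) (card_quot f hs hk)
  have hi := (PGroupFrattini.coatom_index hp hM).2
  set inM : ℕ → Bool := fun i => decide (proj f (sylGen i) ∈ M)
  have hnot : (inM 0 && inM 1 && inM 2 && inM 3) = false := by
    rw [← Bool.not_eq_true]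
    intro h
    simp only [inM, Bool.and_eq_true, decide_eq_true_eq] at h
    refine hM.1 (top_le_iff.1 ((closure_gens f hs).ge.trans ((Subgroup.closure_le M).2 ?_)))
    rintro _ ⟨i, hi4, rfl⟩
    interval_cases i
    exacts [h.1.1.1, h.1.1.2, h.1.2, h.2]
  have hb : ∀ i < 4, [inM 0, inM 1, inM 2, inM 3].getD i false = inM i := by
    intro i hi4; interval_cases i <;> rfl
  have hW : ∀ w ∈ maxWords [inM 0, inM 1, inM 2, inM 3],
      valid w = true ∧ toPerm w ∈ sylP ∧ proj f w ∈ M := by
    intro w hw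
    simp only [maxWords, List.mem_append, List.mem_map, List.mem_flatMap, List.mem_filter,
      List.mem_range] at hw
    rcases hw with ⟨i, ⟨hi4, hiM⟩, rfl⟩ | ⟨i, ⟨hi4, hiM⟩, j, ⟨hj4, hjM⟩, rfl⟩
    · rw [hb i hi4] at hiM
      exact ⟨valid_syl2 (sylGen_mem i hi4).1, mem_sylP (sylGen_mem i hi4).1,
        of_decide_eq_true hiM⟩
    · rw [hb i hi4, Bool.not_eq_true'] at hiM
      rw [hb j hj4, Bool.not_eq_true'] at hjM
      have hc := comp_spec (valid_syl2 (sylGen_mem i hi4).1) (valid_syl2 (sylGen_mem j hj4).1)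
      refine ⟨hc.1, hc.2 ▸ mul_mem (mem_sylP (sylGen_mem i hi4).1)
        (mem_sylP (sylGen_mem j hj4).1), ?_⟩
      rw [proj_comp f (sylGen_mem i hi4).1 (sylGen_mem j hj4).1,
        Subgroup.mul_mem_iff_of_index_two hi]
      simp only [inM, decide_eq_false_iff_not] at hiM hjM
      exact iff_of_false hiM hjM
  set Z : Subgroup S := (Subgroup.center M).map M.subtype with hZ
  have hcard : Nat.card (Z.comap f) ≤ 16 := by
    rw [← SetLike.coe_sort_coe,
      ← Set.ncard_image_of_injective (f := sylP.subtype) _ (Subgroup.subtype_injective _) |>.trans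
        (Nat.card_coe_set_eq _).symm]
    refine le_trans (ncard_le_listed ?_) (syl_max_check _ _ _ _ hnot)
    rintro _ ⟨x, hx, rfl⟩
    obtain ⟨p, hp, hpe⟩ := sylP_listed x.2
    refine ⟨p, mem_survivors hp fun w hw => ?_, hpe⟩
    obtain ⟨hwv, hwP, hwM⟩ := hW w hw
    refine commZ_of_commute f hk (valid_syl2 hp) hwv (mem_sylP hp) hwP ?_
    obtain ⟨z, hz, hzx⟩ := hx
    have hfx : proj f p = z.1 := by
      rw [proj_eq f hp, show (⟨toPerm p, mem_sylP hp⟩ : sylP) = x from Subtype.ext hpe]
      exact hzx.symm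
    rw [hfx]
    exact (congrArg Subtype.val (Subgroup.mem_center_iff.1 hz ⟨_, hwM⟩)).symm
  rw [card_comap_eq f hs hk, hZ,
    Subgroup.card_map_of_injective (Subgroup.subtype_injective M)] at hcard
  omega

/-! ### The abelian subgroup of order sixty four -/

theorem spanOK_spec : ∀ {G L : List ℕ}, spanOK G L = true →
    (∀ x ∈ L, valid x = true ∧ toPerm x ∈ Subgroup.closure {σ | ∃ g ∈ G, toPerm g = σ}) ∧
      L.length = 2 ^ G.length
  | [], L, h => by
    rw [spanOK, beq_iff_eq] at h
    subst h
    refine ⟨fun x hx => ?_, rfl⟩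
    rw [List.mem_singleton.1 hx, toPerm_idCode]
    exact ⟨by decide +kernel, one_mem _⟩
  | g :: G, L, h => by
    simp only [spanOK, Bool.and_eq_true, List.all_eq_true, beq_iff_eq] at h
    obtain ⟨⟨h1, h2⟩, h3⟩ := h
    refine ⟨fun x hx => ?_, by rw [h3, List.length_cons, pow_succ']⟩
    obtain ⟨hG, -⟩ := spanOK_spec h1
    have hmono : Subgroup.closure {σ | ∃ a ∈ G, toPerm a = σ} ≤
        Subgroup.closure {σ | ∃ a ∈ g :: G, toPerm a = σ} :=
      Subgroup.closure_mono fun σ ⟨a, ha, he⟩ => ⟨a, List.mem_cons_of_mem _ ha, he⟩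
    rw [← List.take_append_drop (2 ^ G.length) L, List.mem_append] at hx
    rcases hx with hx | hx
    · exact ⟨(hG x hx).1, hmono (hG x hx).2⟩
    · obtain ⟨k, hk, rfl⟩ := List.getElem_of_mem hx
      have hlen : (L.drop (2 ^ G.length)).length = 2 ^ G.length := by simp; omega
      have hlt : (L.take (2 ^ G.length)).length = 2 ^ G.length := by simp; omega
      have := h2 ((L.take (2 ^ G.length))[k]'(by omega), (L.drop (2 ^ G.length))[k]) (by
        rw [List.mem_iff_getElem]
        exact ⟨k, by rw [List.length_zip]; omega, List.getElem_zip⟩)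
      refine ⟨?_, ?_⟩
      · simp only [isComp, Bool.and_eq_true] at this
        exact this.1.2
      · rw [toPerm_isComp this]
        exact mul_mem (Subgroup.subset_closure ⟨g, by simp, rfl⟩)
          (hmono (hG _ (List.getElem_mem _)).2)

/-- The preimage of the abelian subgroup of order 64. -/
noncomputable abbrev sylA : Subgroup (Equiv.Perm GolayPt) :=
  Subgroup.closure {σ | ∃ g ∈ sylAbelGens, toPerm g = σ}

theorem sylA_le : sylA ≤ sylP := by
  rw [Subgroup.closure_le]
  rintro _ ⟨g, hg, rfl⟩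
  have h := syl_abel_mem.1
  simp only [Bool.and_eq_true, List.all_eq_true] at h
  exact mem_sylP (memC_mem (h.1 g hg))

theorem sylA_iff {σ : Equiv.Perm GolayPt} :
    σ ∈ sylA ↔ ∃ p ∈ sylAbel, toPerm p = σ := by
  refine ⟨fun h => ?_, ?_⟩
  · obtain ⟨p, hp, he⟩ := closure_listed syl_abel_group h
    simp only [List.mem_flatten, List.mem_map] at hp
    obtain ⟨_, ⟨a, ha, rfl⟩, hp⟩ := hp
    rw [List.mem_singleton] at hp
    exact ⟨a, ha, hp ▸ he⟩
  · rintro ⟨p, hp, rfl⟩
    exact ((spanOK_spec syl_abel_span.1).1 p hp).2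

theorem valid_sylAbel {p : ℕ} (hp : p ∈ sylAbel) : valid p = true :=
  ((spanOK_spec syl_abel_span.1).1 p hp).1

theorem card_sylA : Nat.card sylA = 128 := by
  classical
  have he : (sylA : Set (Equiv.Perm GolayPt)) = (sylAbel.toFinset.image toPerm : Finset _) := by
    ext σ
    simp only [SetLike.mem_coe, sylA_iff, Finset.coe_image, Set.mem_image, List.mem_toFinset]
  rw [← SetLike.coe_sort_coe, Nat.card_coe_set_eq, he, Set.ncard_coe_finset,
    Finset.card_image_of_injOn, List.toFinset_card_of_nodup syl_abel_canon.2,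
    (spanOK_spec syl_abel_span.1).2, syl_abel_span.2.2]
  · norm_num
  intro p hp q hq h
  rw [Finset.mem_coe, List.mem_toFinset] at hp hq
  have hc := List.all_eq_true.1 syl_abel_canon.1
  rw [← beq_iff_eq.1 (hc p hp), ← beq_iff_eq.1 (hc q hq)]
  exact congrArg pack (List.map_congr_left fun i hi =>
    img_eq_of_toPerm (valid_sylAbel hp) (valid_sylAbel hq) h (mem_idx.1 hi))

/-- The image of the abelian subgroup. -/
noncomputable def quotA : Subgroup S := (sylA.subgroupOf sylP).map f

theorem proj_mem_quotA {p : ℕ} (hp : p ∈ sylAbel) : proj f p ∈ quotA f := by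
  have hA : toPerm p ∈ sylA := sylA_iff.2 ⟨p, hp, rfl⟩
  rw [proj, dif_pos (sylA_le hA)]
  exact Subgroup.mem_map_of_mem f (Subgroup.mem_subgroupOf.2 hA)

theorem sylA_central : toPerm sylCentral ∈ sylA := by
  rw [← syl_abel_span.2.1]
  refine Subgroup.subset_closure ⟨_, ?_, rfl⟩
  have hl := syl_abel_span.2.2
  rcases hg : sylAbelGens with _ | ⟨g, G⟩
  · simp [hg] at hl
  · simp

include hk in
theorem quotA_cases {s : S} (h : s ∈ quotA f) : ∃ p ∈ sylAbel.take 64, proj f p = s := by
  obtain ⟨x, hx, rfl⟩ := h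
  obtain ⟨p, hp, hpe⟩ := sylA_iff.1 (Subgroup.mem_subgroupOf.1 hx)
  have hx' : proj f p = f x := by
    have hP : toPerm p ∈ sylP := hpe ▸ x.2
    rw [proj, dif_pos hP]
    exact congrArg f (Subtype.ext hpe)
  rw [← List.take_append_drop 64 sylAbel, List.mem_append] at hp
  rcases hp with hp | hp
  · exact ⟨p, hp, hx'⟩
  · obtain ⟨k, hk', rfl⟩ := List.getElem_of_mem hp
    have hl : sylAbel.length = 128 := by
      rw [(spanOK_spec syl_abel_span.1).2, syl_abel_span.2.2]; norm_num
    have hk64 : k < (sylAbel.take 64).length := by simp [hl] at hk' ⊢; omega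
    refine ⟨(sylAbel.take 64)[k], List.getElem_mem _, ?_⟩
    have hsp := syl_abel_span.1
    have hh := syl_abel_span.2.1
    rcases hg : sylAbelGens with _ | ⟨g, G⟩
    · simpa [hg] using syl_abel_span.2.2
    · rw [hg] at hsp hh
      rw [List.headD_cons] at hh
      have hlG : 2 ^ G.length = 64 := by
        have := syl_abel_span.2.2
        rw [hg, List.length_cons] at this
        rw [show G.length = 6 by omega]; norm_num
      simp only [spanOK, Bool.and_eq_true, List.all_eq_true, beq_iff_eq, hlG] at hsp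
      have := toPerm_isComp (hsp.1.2 ((sylAbel.take 64)[k], (sylAbel.drop 64)[k]) (by
        rw [List.mem_iff_getElem]
        exact ⟨k, by rw [List.length_zip]; omega, List.getElem_zip⟩))
      dsimp only at this
      rw [hh] at this
      have hA : toPerm (sylAbel.take 64)[k] ∈ sylA :=
        sylA_iff.2 ⟨_, List.mem_of_mem_take (List.getElem_mem _), rfl⟩
      rw [← hx', proj, dif_pos (sylA_le hA), proj, dif_pos (hpe ▸ x.2)]
      have hm : (⟨toPerm sylCentral, mem_sylP central_facts.2.1⟩ : sylP) ∈ f.ker :=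
        hk ▸ central_mem_center
      calc f ⟨_, sylA_le hA⟩ = f (⟨toPerm sylCentral, mem_sylP central_facts.2.1⟩ *
            ⟨_, sylA_le hA⟩) := by rw [map_mul, MonoidHom.mem_ker.1 hm, one_mul]
        _ = _ := congrArg f (Subtype.ext this.symm)

include hs hk in
theorem card_quotA : Nat.card (quotA f) = 64 := by
  have h1 := card_comap_eq f hs hk (quotA f)
  rw [quotA, Subgroup.comap_map_eq_self, Nat.card_congr
    (Subgroup.subgroupOfEquivOfLe sylA_le).toEquiv, card_sylA] at h1
  · change 128 = 2 * Nat.card (quotA f) at h1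
    omega
  · rw [hk]
    intro z hz
    rw [Subgroup.mem_subgroupOf]
    rcases center_two hz with h | h <;> rw [h]
    exacts [one_mem _, sylA_central]

include hk in
theorem quotA_sq {s : S} (h : s ∈ quotA f) : s ^ 2 = 1 := by
  obtain ⟨p, hp, rfl⟩ := quotA_cases f hk h
  have hpm := List.mem_of_mem_take hp
  have hv := valid_sylAbel hpm
  have hP : toPerm p ∈ sylP := sylA_le (sylA_iff.2 ⟨p, hpm, rfl⟩)
  rw [proj, dif_pos hP, ← map_pow, ← MonoidHom.mem_ker, hk]
  have hc := comp_spec hv hv
  have hsq := List.all_eq_true.1 syl_abel_squares p hpm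
  simp only [Bool.or_eq_true, idx_all, beq_iff_eq] at hsq
  rcases hsq with h | h
  · have : (⟨toPerm p, hP⟩ : sylP) ^ 2 = 1 := by
      refine Subtype.ext ?_
      rw [Subgroup.coe_pow, pow_two, ← hc.2, Subgroup.coe_one, ← toPerm_idCode]
      refine toPerm_eq_of_img hc.1 (by decide +kernel) fun i hi => ?_
      rw [img_comp hv hv hi, h i hi]
      exact ((by decide +kernel : ∀ i < 24, img idCode i = i) i hi).symm
    rw [this]; exact one_mem _
  · have : (⟨toPerm p, hP⟩ : sylP) ^ 2 = ⟨toPerm sylCentral, mem_sylP central_facts.2.1⟩ := by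
      refine Subtype.ext ?_
      rw [Subgroup.coe_pow, pow_two, ← hc.2]
      refine toPerm_eq_of_img hc.1 central_facts.1 fun i hi => ?_
      rw [img_comp hv hv hi, h i hi]
    rw [this]; exact central_mem_center

include hk in
theorem quotA_comm : IsMulCommutative (quotA f) := by
  have h : ∀ a : quotA f, a⁻¹ = a := fun a => inv_eq_of_mul_eq_one_right
    (Subtype.ext (by simpa [pow_two] using quotA_sq f hk a.2))
  refine ⟨⟨fun a b => ?_⟩⟩
  rw [← h (a * b), mul_inv_rev, h a, h b]

include hk in
theorem quotA_elem : IsElementaryAbelian 2 (quotA f) :=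
  ⟨quotA_comm f hk, fun _ ha => quotA_sq f hk ha⟩

/-- The listed representatives, read in the quotient. -/
noncomputable def rep (j : Fin 8) : S := proj f (sylReps.getD j 0)

theorem sylReps_mem (j : Fin 8) :
    valid (sylReps.getD j 0) = true ∧ toPerm (sylReps.getD j 0) ∈ sylP ∧
      sylReps.getD j 0 ∈ sylReps := by
  have hj : (j : ℕ) < sylReps.length := by rw [syl_abel_mem.2.2]; exact j.2
  have hm : sylReps.getD j 0 ∈ sylReps := by
    rw [List.getD_eq_getElem _ _ hj]; exact List.getElem_mem hj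
  have h := syl_abel_mem.1
  simp only [Bool.and_eq_true, List.all_eq_true] at h
  exact ⟨valid_syl2 (memC_mem (h.2 _ hm)), mem_sylP (memC_mem (h.2 _ hm)), hm⟩

theorem rep_zero : rep f 0 = 1 := by
  have h : sylReps.getD 0 0 = idCode := by
    rw [← syl_abel_mem.2.1]
    cases hr : sylReps <;> simp [hr] at *
  have hm : toPerm idCode ∈ sylP := by rw [toPerm_idCode]; exact one_mem _
  rw [rep, Fin.val_zero, h, proj, dif_pos hm]
  exact (congrArg f (Subtype.ext toPerm_idCode : (⟨_, hm⟩ : sylP) = 1)).trans (map_one f)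

include hs hk in
theorem rep_cover (s : S) : ∃ j : Fin 8, (rep f j)⁻¹ * s ∈ quotA f := by
  have key : ∀ i j : Fin 8, i < j → (rep f i)⁻¹ * rep f j ∉ quotA f := by
    intro i j hij hmem
    obtain ⟨y, hy, hye⟩ := hmem
    set r : Fin 8 → sylP := fun k => ⟨_, (sylReps_mem k).2.1⟩ with hr
    have hrep : ∀ k, rep f k = f (r k) := fun k => dif_pos _
    have hker : y⁻¹ * ((r i)⁻¹ * r j) ∈ Subgroup.center sylP := by
      rw [← hk, MonoidHom.mem_ker]
      simp only [map_mul, map_inv, ← hrep, hye, inv_mul_cancel]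
    have hA : ((r i)⁻¹ * r j : sylP).1 ∈ sylA := by
      have h1 : (y⁻¹ * ((r i)⁻¹ * r j) : sylP).1 ∈ sylA := by
        rcases center_two hker with h | h <;> rw [h]
        exacts [one_mem _, sylA_central]
      have := mul_mem (Subgroup.mem_subgroupOf.1 hy) h1
      simpa only [Subgroup.coe_mul, Subgroup.coe_inv, mul_inv_cancel_left] using this
    obtain ⟨a, ha, hae⟩ := sylA_iff.1 hA
    have h := List.all_eq_true.1 (syl_reps_apart i i.2 j j.2 hij) a ha
    rw [Bool.not_eq_true', ← Bool.not_eq_true, idx_all] at h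
    refine h fun k hk' => ?_
    rw [beq_iff_eq, ← img_comp (sylReps_mem i).1 (valid_sylAbel ha) hk']
    have hc := comp_spec (sylReps_mem i).1 (valid_sylAbel ha)
    refine img_eq_of_toPerm (sylReps_mem j).1 hc.1 ?_ hk'
    rw [hc.2, hae]
    simp [hr]
  have : Finite S := Nat.finite_of_card_ne_zero (by rw [card_quot f hs hk]; norm_num)
  let g : Fin 8 → S ⧸ quotA f := fun j => QuotientGroup.mk (rep f j)
  have hinj : Function.Injective g := by
    intro i j h
    rw [QuotientGroup.eq] at h
    rcases lt_trichotomy i j with hl | hl | hl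
    · exact absurd h (key i j hl)
    · exact hl
    · exact absurd (by simpa using inv_mem h) (key j i hl)
  have hb : Function.Bijective g := by
    rw [Nat.bijective_iff_injective_and_card]
    refine ⟨hinj, ?_⟩
    have h := Subgroup.card_eq_card_quotient_mul_card_subgroup (quotA f)
    rw [card_quot f hs hk, card_quotA f hs hk] at h
    rw [Nat.card_eq_fintype_card, Fintype.card_fin]
    omega
  obtain ⟨j, hj⟩ := hb.2 (QuotientGroup.mk s)
  exact ⟨j, QuotientGroup.eq.1 hj⟩

include hk in
theorem fix_bound (J : List ℕ) (hJ : ∀ r ∈ J, valid r = true ∧ toPerm r ∈ sylP) :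
    {s : S | s ∈ quotA f ∧ ∀ r ∈ J, Commute (proj f r) s}.ncard ≤
      (survivors J (sylAbel.take 64)).length := by
  classical
  refine le_trans (Set.ncard_le_ncard (t := (↑((survivors J (sylAbel.take 64)).toFinset.image
    (proj f)) : Set S)) ?_ (Finset.finite_toSet _)) ?_
  · rintro s ⟨hsA, hs'⟩
    obtain ⟨p, hp, rfl⟩ := quotA_cases f hk hsA
    simp only [Finset.coe_image, Set.mem_image, Finset.mem_coe, List.mem_toFinset]
    have hpm := List.mem_of_mem_take hp
    exact ⟨p, mem_survivors hp fun r hr => commZ_of_commute f hk (valid_sylAbel hpm) (hJ r hr).1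
      (sylA_le (sylA_iff.2 ⟨p, hpm, rfl⟩)) (hJ r hr).2 (hs' r hr).symm, rfl⟩
  · rw [Set.ncard_coe_finset]
    exact Finset.card_image_le.trans (List.toFinset_card_le _)

include hs hk in
/-- The abelian subgroup of order 64 is unique. -/
theorem quotA_unique {A : Subgroup S} (hA : IsMulCommutative A) (hc : Nat.card A = 64) :
    A = quotA f := by
  classical
  have : Finite S := Nat.finite_of_card_ne_zero (by rw [card_quot f hs hk]; norm_num)
  set I : Subgroup S := A ⊓ quotA f with hI
  set D : Finset (Fin 8) := Finset.univ.filter fun j => ∃ a ∈ A, (rep f j)⁻¹ * a ∈ quotA f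
  have hQ := quotA_comm f hk
  have hcomm : ∀ j ∈ D, ∀ s ∈ I, Commute (rep f j) s := by
    intro j hj s hsI
    obtain ⟨a, ha, hq⟩ := (Finset.mem_filter.1 hj).2
    have h1 : Commute a s :=
      congrArg Subtype.val (hA.is_comm.comm ⟨a, ha⟩ ⟨s, hsI.1⟩)
    have h2 : Commute ((rep f j)⁻¹ * a) s :=
      congrArg Subtype.val (hQ.is_comm.comm ⟨_, hq⟩ ⟨s, hsI.2⟩)
    have h3 := h1.mul_left h2.inv_left
    rwa [mul_inv_rev, inv_inv, mul_inv_cancel_left] at h3
  have hbound : 64 ≤ D.card * Nat.card I := by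
    choose! c hcA hcq using fun j (hj : j ∈ D) => (Finset.mem_filter.1 hj).2
    let F : ↥A → D × I := fun a =>
      have h := (rep_cover f hs hk a.1).choose_spec
      have hj : (rep_cover f hs hk a.1).choose ∈ D :=
        Finset.mem_filter.2 ⟨Finset.mem_univ _, a.1, a.2, h⟩
      (⟨_, hj⟩, ⟨(c (rep_cover f hs hk a.1).choose)⁻¹ * a.1,
        A.mul_mem (A.inv_mem (hcA _ hj)) a.2, by
          have := mul_mem (inv_mem (hcq _ hj)) h
          rwa [mul_inv_rev, inv_inv, mul_assoc, mul_inv_cancel_left] at this⟩)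
    have hF : Function.Injective F := by
      intro a b h
      obtain ⟨h1, h2⟩ := Prod.ext_iff.1 h
      have e1 := congrArg (fun x : D => c x.1) h1
      have e2 := congrArg (fun x : I => x.1) h2
      simp only [F] at e1 e2
      rw [e1] at e2
      exact Subtype.ext (mul_left_cancel e2)
    have := Nat.card_le_card_of_injective F hF
    rwa [hc, Nat.card_prod, Nat.card_eq_fintype_card, Fintype.card_coe] at this
  have hfix : ∀ E : Finset (Fin 8), E ⊆ D → ∀ J : List ℕ,
      (∀ r ∈ J, ∃ j ∈ E, sylReps.getD (j : ℕ) 0 = r) →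
      Nat.card I ≤ (survivors J (sylAbel.take 64)).length := by
    intro E hE J hJ
    refine le_trans ?_ (fix_bound f hk J ?_)
    · rw [← SetLike.coe_sort_coe, Nat.card_coe_set_eq]
      refine Set.ncard_le_ncard (fun s hsI => ⟨hsI.2, fun r hr => ?_⟩) (Set.toFinite _)
      obtain ⟨j, hj, rfl⟩ := hJ r hr
      exact hcomm j (hE hj) s hsI
    · intro r hr
      obtain ⟨j, -, rfl⟩ := hJ r hr
      exact ⟨(sylReps_mem j).1, (sylReps_mem j).2.1⟩
  have hD8 : D.card ≤ 8 := (Finset.card_le_univ D).trans (by simp)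
  have hsub : ∀ j ∈ D, j = 0 := by
    intro j hj
    by_contra hj0
    have hjv : (j : ℕ) ≠ 0 := fun h => hj0 (Fin.ext h)
    have h1 := (hfix {j} (by simpa using hj) [_] (fun r hr =>
      ⟨j, by simp, (List.mem_singleton.1 hr).symm⟩)).trans (syl_fix_one j j.2 hjv)
    have h4 : 2 < D.card := by nlinarith
    obtain ⟨k, hk', hk0, hkj⟩ : ∃ k ∈ D, k ≠ 0 ∧ k ≠ j := by
      by_contra hne
      push Not at hne
      have : D ⊆ {0, j} := fun k hk' => by
        by_cases h : k = 0
        · simp [h]
        · simp [hne k hk' h]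
      have := (Finset.card_le_card this).trans Finset.card_le_two
      omega
    have hkv : (k : ℕ) ≠ 0 := fun h => hk0 (Fin.ext h)
    have h2 := (hfix {j, k} (by intro x hx; simp at hx; rcases hx with rfl | rfl <;> assumption)
      [_, _] (fun r hr => by
        simp at hr
        rcases hr with rfl | rfl
        exacts [⟨j, by simp, rfl⟩, ⟨k, by simp, rfl⟩])).trans
      (syl_fix_two j j.2 k k.2 hjv hkv fun h => hkj (Fin.ext h).symm)
    have h8 : D.card = 8 := by nlinarith
    have huniv : D = Finset.univ := Finset.eq_univ_of_card _ (by simp [h8])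
    have h3 := (hfix D subset_rfl (sylReps.drop 1) (fun r hr => by
      obtain ⟨i, hi, rfl⟩ := List.getElem_of_mem (List.mem_of_mem_drop hr)
      exact ⟨⟨i, syl_abel_mem.2.2 ▸ hi⟩, by simp [huniv],
        List.getD_eq_getElem _ _ hi⟩)).trans syl_fix_all
    nlinarith
  refine Subgroup.eq_of_le_of_card_ge (fun a ha => ?_) (by rw [hc, card_quotA f hs hk])
  obtain ⟨j, hj⟩ := rep_cover f hs hk a
  have := hsub j (Finset.mem_filter.2 ⟨Finset.mem_univ _, a, ha, hj⟩)
  subst this
  simpa [rep_zero f] using hj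

include hs hk in
/-- The three properties of the quotient. -/
theorem sylTwo_mod_center :
    (∀ M : Subgroup S, IsCoatom M → Nat.card (Subgroup.center M) ≤ 8) ∧
      (∃ A : Subgroup S, IsElementaryAbelian 2 A ∧ Nat.card A = 64) ∧
      ∀ A B : Subgroup S, IsMulCommutative A → Nat.card A = 64 →
        IsMulCommutative B → Nat.card B = 64 → A = B :=
  ⟨fun _ => center_coatom f hs hk, ⟨quotA f, quotA_elem f hk, card_quotA f hs hk⟩,
    fun _ _ hA ha hB hb => by rw [quotA_unique f hs hk hA ha, quotA_unique f hs hk hB hb]⟩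

end Cfsg.Agent.Lib.Golay
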