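import Cfsg.Agent.Lib.Golay.Rigid
import Cfsg.Agent.Lib.Golay.Classes
import Cfsg.Agent.Lib.Golay.Search
import Cfsg.Agent.Lib.Golay.SylTwoModCenterData

/-! # Computations in the Sylow two-subgroup of `M24` modulo its centre -/

set_option autoImplicit false
set_option maxRecDepth 100000

namespace Cfsg.Agent.Lib.Golay

/-- The coded maps commute. -/
def commB (x g : ℕ) : Bool := idx.all fun i => img x (img g i) == img g (img x i)

/-- The coded maps commute up to the central involution. -/
def commZ (x g : ℕ) : Bool :=
  commB x g || idx.all fun i => img x (img g i) == img sylCentral (img g (img x i))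

/-- The members of a list commuting up to the central involution with all the given maps. -/
def survivors : List ℕ → List ℕ → List ℕ
  | [], L => L
  | w :: W, L => forceNat w fun v => survivors W (L.filter fun p => commZ p v)

/-- The four listed generators. -/
def sylGen (i : ℕ) : ℕ := syl2Gens.getD i 0

/-- Generators outside a subgroup of index two are paired, the others are kept. -/
def maxWords (b : List Bool) : List ℕ :=
  ((List.range 4).filter fun i => b.getD i false).map sylGen ++
    (((List.range 4).filter fun i => !b.getD i false).flatMap fun i =>
      ((List.range 4).filter fun j => !b.getD j false).map fun j => comp (sylGen i) (sylGen j))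

theorem syl_max_check : ∀ a b c d : Bool, (a && b && c && d) = false →
    (survivors (maxWords [a, b, c, d]) syl2.flatten).length ≤ 16 := by decide +kernel

theorem syl_center_check : (syl2.flatten.all fun p =>
    !(syl2Gens.all fun g => commB p g) || p == idCode || p == sylCentral) = true := by
  decide +kernel

/-- The central involution is a nontrivial listed element commuting with the generators. -/
def centralOK : Bool :=
  valid sylCentral && memC syl2 sylCentral && syl2Gens.all (fun g => commB sylCentral g) &&
    isComp sylCentral sylCentral idCode && !(idx.all fun i => img sylCentral i == i)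

theorem syl_central_check : centralOK = true := by decide +kernel

/-- A list is doubled by each generator in turn. -/
def spanOK : List ℕ → List ℕ → Bool
  | [], L => L == [idCode]
  | g :: G, L =>
    spanOK G (L.take (2 ^ G.length)) &&
      ((L.take (2 ^ G.length)).zip (L.drop (2 ^ G.length))).all (fun e => isComp g e.1 e.2) &&
        L.length == 2 * 2 ^ G.length

theorem syl_abel_span : spanOK sylAbelGens sylAbel = true ∧
    sylAbelGens.headD 0 = sylCentral ∧ sylAbelGens.length = 7 := by decide +kernel

theorem syl_abel_group : groupOK (sylAbel.map fun x => [x]) sylAbelGens = true := by decide +kernel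

theorem syl_abel_mem : (sylAbelGens.all (memC syl2) && sylReps.all (memC syl2)) = true ∧
    sylReps.headD 0 = idCode ∧ sylReps.length = 8 := by decide +kernel

theorem syl_abel_canon : sylAbel.all (fun p => pack (idx.map (img p)) == p) = true ∧
    sylAbel.Nodup := by decide +kernel

theorem syl_reps_apart : ∀ i < 8, ∀ j < 8, i < j → (sylAbel.all fun a =>
    !(idx.all fun k => img (sylReps.getD j 0) k == img (sylReps.getD i 0) (img a k))) = true := by
  decide +kernel

theorem syl_abel_squares : (sylAbel.all fun a => (idx.all fun i => img a (img a i) == i) ||
    idx.all fun i => img a (img a i) == img sylCentral i) = true := by decide +kernel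

theorem syl_fix_one : ∀ i < 8, i ≠ 0 →
    (survivors [sylReps.getD i 0] (sylAbel.take 64)).length ≤ 16 := by decide +kernel

theorem syl_fix_two : ∀ i < 8, ∀ j < 8, i ≠ 0 → j ≠ 0 → i ≠ j →
    (survivors [sylReps.getD i 0, sylReps.getD j 0] (sylAbel.take 64)).length ≤ 8 := by
  decide +kernel

theorem syl_fix_all : (survivors (sylReps.drop 1) (sylAbel.take 64)).length ≤ 4 := by
  decide +kernel

end Cfsg.Agent.Lib.Golay
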